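import Mathlib
import Cfsg.Agent.Helper64.MaxClass
import Cfsg.Agent.Helper64.LcsComm
import Cfsg.Agent.Helper52.BkE

/-!
# Blackburn, piece H (core): lifting maximal class from `R ⧸ ⟨z⟩` to `R` for `3`-groups

The core statement takes pieces F (`bk_cube_81`) and G (`bk_comm_card`) as hypotheses.
-/

set_option autoImplicit false

namespace Cfsg.Agent.Helper48

open scoped commutatorElement

universe u

/-- Order of the image of a subgroup containing the kernel of a quotient map. -/
theorem bkH_card_map {R : Type*} [Group R] [Finite R] (N : Subgroup R) [N.Normal]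
    (H : Subgroup R) (hNH : N ≤ H) :
    Nat.card H = Nat.card N * Nat.card (H.map (QuotientGroup.mk' N)) := by
  have hsurj := QuotientGroup.mk'_surjective N
  have hidx : (H.map (QuotientGroup.mk' N)).index = H.index := by
    rw [Subgroup.index_map, MonoidHom.range_eq_top.mpr hsurj, Subgroup.index_top, mul_one,
      QuotientGroup.ker_mk', sup_of_le_left hNH]
  have h1 := H.card_mul_index
  have h2 := (H.map (QuotientGroup.mk' N)).card_mul_index
  have h3 := Subgroup.card_eq_card_quotient_mul_card_subgroup N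
  rw [hidx] at h2
  have hpos : 0 < H.index := Nat.pos_of_ne_zero Subgroup.index_ne_zero_of_finite
  apply Nat.eq_of_mul_eq_mul_right hpos
  rw [h1, h3, ← h2]; ring

/-- The lower central series of a quotient is the image of the lower central series. -/
theorem bkH_lcs_map {R : Type*} [Group R] (N : Subgroup R) [N.Normal] (j : ℕ) :
    (⊤ : Subgroup (R ⧸ N)).lowerCentralSeries j =
      ((⊤ : Subgroup R).lowerCentralSeries j).map (QuotientGroup.mk' N) := by
  rw [Subgroup.map_lowerCentralSeries,
    Subgroup.map_top_of_surjective _ (QuotientGroup.mk'_surjective N)]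

/-- Commutators with an element of `L_j` lie in `L_(j+1)`. -/
theorem bkH_comm_mem {R : Type*} [Group R] (j : ℕ) (s t : R)
    (ht : t ∈ (⊤ : Subgroup R).lowerCentralSeries j) :
    s * t * s⁻¹ * t⁻¹ ∈ (⊤ : Subgroup R).lowerCentralSeries (j + 1) := by
  have h1 : ⁅t, s⁆ ∈ (⊤ : Subgroup R).lowerCentralSeries (j + 1) :=
    Subgroup.commutator_mem_commutator ht (Subgroup.mem_top s)
  have h2 : s * t * s⁻¹ * t⁻¹ = ⁅t, s⁆⁻¹ := by rw [commutatorElement_inv, commutatorElement_def]
  rw [h2]; exact Subgroup.inv_mem _ h1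

/-- If `N ≤ U` with `N` normal and `|U| = |N| * m`, then `u ^ m ∈ N` for `u ∈ U`. -/
theorem bkH_pow_mem {R : Type*} [Group R] [Finite R] (N U : Subgroup R) [N.Normal]
    (hNU : N ≤ U) (m : ℕ) (hcard : Nat.card U = Nat.card N * m) (u : R) (hu : u ∈ U) :
    u ^ m ∈ N := by
  have h1 := bkH_card_map N U hNU
  have hm : Nat.card (U.map (QuotientGroup.mk' N)) = m := by
    have hpos : 0 < Nat.card N := Nat.card_pos
    exact Nat.eq_of_mul_eq_mul_left hpos (by rw [← h1, hcard])
  have h2 : (⟨QuotientGroup.mk' N u, Subgroup.mem_map_of_mem _ hu⟩ :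
      U.map (QuotientGroup.mk' N)) ^ m = 1 := by
    rw [← hm]; exact pow_card_eq_one'
  have h3 : (QuotientGroup.mk' N u) ^ m = 1 := by
    have h4 := congrArg Subtype.val h2
    simpa using h4
  rw [← map_pow] at h3
  exact (QuotientGroup.eq_one_iff _).mp h3

/-- The cube of a commutator `[u, g]` which is central, when `u ^ 3` is central, is trivial. -/
theorem bkH_comm_cube {R : Type*} [Group R] (u g : R)
    (hk : u * g * u⁻¹ * g⁻¹ ∈ Subgroup.center R) (hu3 : u ^ 3 ∈ Subgroup.center R) :
    (u * g * u⁻¹ * g⁻¹) ^ 3 = 1 := by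
  obtain ⟨k, hkdef⟩ : ∃ k : R, k = u * g * u⁻¹ * g⁻¹ := ⟨_, rfl⟩
  rw [← hkdef] at hk ⊢
  have hku : u * k = k * u := (Subgroup.mem_center_iff.mp hk u)
  have h1 : u * g * u⁻¹ = k * g := by rw [hkdef]; group
  have hstep : ∀ y : R, u * y = y * u → u * (y * g) * u⁻¹ = (y * k) * g := by
    intro y hy
    calc u * (y * g) * u⁻¹ = (u * y) * g * u⁻¹ := by group
      _ = y * (u * g * u⁻¹) := by rw [hy]; group
      _ = (y * k) * g := by rw [h1]; group
  have h2 : u * (k * g) * u⁻¹ = (k * k) * g := hstep k hku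
  have hkk : u * (k * k) = (k * k) * u := by
    rw [← mul_assoc, hku, mul_assoc, hku, ← mul_assoc]
  have h3 : u * ((k * k) * g) * u⁻¹ = (k * k * k) * g := hstep (k * k) hkk
  have h4 : u ^ 3 * g * (u ^ 3)⁻¹ = u * (u * (u * g * u⁻¹) * u⁻¹) * u⁻¹ := by
    simp only [pow_succ, pow_zero, one_mul, mul_inv_rev, mul_assoc]
  have h5 : u ^ 3 * g * (u ^ 3)⁻¹ = g := by
    have h6 := Subgroup.mem_center_iff.mp hu3 g
    rw [← h6, mul_inv_cancel_right]
  rw [h1, h2, h3] at h4
  have h7 : k * k * k * g = g := by rw [← h4, h5]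
  have h8 : k * k * k = 1 := by
    have h9 : k * k * k * g = 1 * g := by rw [h7, one_mul]
    exact mul_right_cancel h9
  rw [pow_succ, pow_two]; exact h8

/-- Piece H with pieces F and G as hypotheses. -/
theorem bkH_core {R : Type u} [Group R] [Finite R] (n : ℕ) (hn : Nat.card R = 3 ^ n)
    (hF : ∀ (X : Type u) [Group X] [Finite X], Nat.card X = 81 →
      Nat.card ((⊤ : Subgroup X).lowerCentralSeries 1) = 9 →
      Nat.card ((⊤ : Subgroup X).lowerCentralSeries 2) = 3 →
      ∃ M : Subgroup X, M ≠ ⊤ ∧ ∀ s : X, s ∉ M → s ^ 3 ∈ (⊤ : Subgroup X).lowerCentralSeries 2)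
    (hG : IsPGroup 3 R → commutator R ≤ Subgroup.center R → (commutator R).index = 3 ^ 2 →
      Nat.card (commutator R) ≤ 3)
    (hS : ∀ S : Subgroup R, (∀ s ∈ S, s ^ 3 = 1) → Nat.card S ≤ 3 ^ 2)
    (c : ℕ) (hc1 : 1 ≤ c) (hc : (⊤ : Subgroup R).lowerCentralSeries c ≠ ⊥)
    (hc' : (⊤ : Subgroup R).lowerCentralSeries (c + 1) = ⊥)
    (z : R) (hzL : z ∈ (⊤ : Subgroup R).lowerCentralSeries c) (hz3 : z ^ 3 = 1) (hz1 : z ≠ 1)
    [(Subgroup.zpowers z).Normal]
    (hQ : Group.nilpotencyClass (R ⧸ Subgroup.zpowers z) = n - 2) :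
    Group.nilpotencyClass R = n - 1 := by
  classical
  have hp3 : Fact (Nat.Prime 3) := ⟨Nat.prime_three⟩
  have hPG : IsPGroup 3 R := IsPGroup.of_card hn
  have hnil : Group.IsNilpotent R := hPG.isNilpotent
  have hanti := (⊤ : Subgroup R).lowerCentralSeries_antitone
  have hZ3 : Nat.card (Subgroup.zpowers z) = 3 := by
    rw [Nat.card_zpowers]; exact orderOf_eq_prime hz3 hz1
  have hZle : ∀ j, j ≤ c → Subgroup.zpowers z ≤ (⊤ : Subgroup R).lowerCentralSeries j :=
    fun j hj => ((Subgroup.zpowers_le).mpr hzL).trans (hanti hj)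
  have hn3 : 3 ≤ n := by
    by_contra hlt
    have h1 : Nat.card R ≤ 3 ^ 2 := by
      rw [hn]; exact Nat.pow_le_pow_right (by norm_num) (by omega)
    have h2 := Helper64.maxclass_lcs_eq_bot_of_card hPG 2 le_rfl h1
    apply hc
    rw [eq_bot_iff, ← h2]
    exact hanti hc1
  have hQcard : Nat.card (R ⧸ Subgroup.zpowers z) = 3 ^ (n - 1) := by
    have h1 := Subgroup.card_eq_card_quotient_mul_card_subgroup (Subgroup.zpowers z)
    rw [hn, hZ3] at h1
    have h2 : 3 ^ n = 3 ^ (n - 1) * 3 := by rw [← pow_succ]; congr 1; omega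
    rw [h2] at h1
    exact (Nat.eq_of_mul_eq_mul_right (by norm_num) h1).symm
  have hQPG : IsPGroup 3 (R ⧸ Subgroup.zpowers z) := IsPGroup.of_card hQcard
  have hQnil : Group.IsNilpotent (R ⧸ Subgroup.zpowers z) := hQPG.isNilpotent
  have hcardLQ : ∀ j, j ≤ c → Nat.card ((⊤ : Subgroup R).lowerCentralSeries j) =
      3 * Nat.card ((⊤ : Subgroup (R ⧸ Subgroup.zpowers z)).lowerCentralSeries j) := by
    intro j hj
    have h := bkH_card_map (Subgroup.zpowers z) _ (hZle j hj)
    rw [hZ3, ← bkH_lcs_map] at h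
    exact h
  have hclR : Group.nilpotencyClass R = c + 1 := by
    apply le_antisymm
    · exact Subgroup.lowerCentralSeries_eq_bot_iff_nilpotencyClass_le.mp hc'
    · by_contra h
      apply hc
      exact Subgroup.lowerCentralSeries_eq_bot_iff_nilpotencyClass_le.mpr (by omega)
  have hup : c + 1 ≤ n - 1 := by
    rw [← hclR]
    exact Subgroup.lowerCentralSeries_eq_bot_iff_nilpotencyClass_le.mp
      (Helper64.maxclass_lcs_eq_bot_of_card hPG n (by omega) hn.le)
  by_cases hb : (⊤ : Subgroup (R ⧸ Subgroup.zpowers z)).lowerCentralSeries c = ⊥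
  · have h1 := Subgroup.lowerCentralSeries_eq_bot_iff_nilpotencyClass_le.mp hb
    rw [hQ] at h1
    rw [hclR]; omega
  · exfalso
    have hb1 : (⊤ : Subgroup (R ⧸ Subgroup.zpowers z)).lowerCentralSeries (c + 1) = ⊥ := by
      rw [bkH_lcs_map, hc', Subgroup.map_bot]
    have hclQ : n - 2 = c + 1 := by
      rw [← hQ]
      apply le_antisymm
      · exact Subgroup.lowerCentralSeries_eq_bot_iff_nilpotencyClass_le.mp hb1
      · by_contra h
        apply hb
        exact Subgroup.lowerCentralSeries_eq_bot_iff_nilpotencyClass_le.mpr (by omega)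
    obtain rfl : n = c + 3 := by omega
    have hQcl' : Group.nilpotencyClass (R ⧸ Subgroup.zpowers z) = (c + 3 - 1) - 1 := by
      rw [hQ]; omega
    have hcardQj := Helper64.maxclass_card_lcs (c + 3 - 1) hQcard hQcl' (by omega)
    have hcardj : ∀ j, 1 ≤ j → j ≤ c →
        Nat.card ((⊤ : Subgroup R).lowerCentralSeries j) = 3 ^ (c + 2 - j) := by
      intro j hj1 hjc
      rw [hcardLQ j hjc, hcardQj j hj1 (by omega), ← pow_succ']
      congr 1; omega
    have hNcent : (⊤ : Subgroup R).lowerCentralSeries c ≤ Subgroup.center R := by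
      intro a ha
      rw [Subgroup.mem_center_iff]
      intro g
      have h1 := bkH_comm_mem c g a ha
      rw [hc', Subgroup.mem_bot] at h1
      calc g * a = (g * a * g⁻¹ * a⁻¹) * a * g := by group
        _ = a * g := by rw [h1, one_mul]
    have hNcard : Nat.card ((⊤ : Subgroup R).lowerCentralSeries c) = 9 := by
      rw [hcardj c hc1 le_rfl]
      have h1 : c + 2 - c = 2 := by omega
      rw [h1]; norm_num
    rcases Nat.lt_or_ge c 2 with hc2 | hc2
    · obtain rfl : c = 1 := by omega
      have hcomm : commutator R = (⊤ : Subgroup R).lowerCentralSeries 1 :=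
        Subgroup.top_lowerCentralSeries_one.symm
      have h1 : commutator R ≤ Subgroup.center R := by rw [hcomm]; exact hNcent
      have h2 : (commutator R).index = 3 ^ 2 := by
        have h3 := (commutator R).card_mul_index
        rw [hcomm, hNcard, hn] at h3
        have h4 : (9 : ℕ) * ((⊤ : Subgroup R).lowerCentralSeries 1).index = 9 * 3 ^ 2 := by
          rw [h3]; norm_num
        rw [hcomm]; exact Nat.eq_of_mul_eq_mul_left (by norm_num) h4
      have h4 := hG hPG h1 h2
      rw [hcomm, hNcard] at h4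
      omega
    · have hUcard : Nat.card ((⊤ : Subgroup R).lowerCentralSeries (c - 1)) = 27 := by
        rw [hcardj (c - 1) (by omega) (by omega)]
        have h1 : c + 2 - (c - 1) = 3 := by omega
        rw [h1]; norm_num
      have hNU : (⊤ : Subgroup R).lowerCentralSeries c ≤
          (⊤ : Subgroup R).lowerCentralSeries (c - 1) := hanti (by omega)
      have hsucc1 : c - 1 + 1 = c := by omega
      have hsucc2 : c - 2 + 1 = c - 1 := by omega
      have hUR : ∀ s : R, ∀ u ∈ (⊤ : Subgroup R).lowerCentralSeries (c - 1),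
          s * u * s⁻¹ * u⁻¹ ∈ (⊤ : Subgroup R).lowerCentralSeries c := by
        intro s u hu
        have h1 := bkH_comm_mem (c - 1) s u hu
        rwa [hsucc1] at h1
      have hWU : ∀ s : R, ∀ t ∈ (⊤ : Subgroup R).lowerCentralSeries (c - 2),
          s * t * s⁻¹ * t⁻¹ ∈ (⊤ : Subgroup R).lowerCentralSeries (c - 1) := by
        intro s t ht
        have h1 := bkH_comm_mem (c - 2) s t ht
        rwa [hsucc2] at h1
      have hu3 : ∀ u ∈ (⊤ : Subgroup R).lowerCentralSeries (c - 1),
          u ^ 3 ∈ (⊤ : Subgroup R).lowerCentralSeries c := by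
        intro u hu
        exact bkH_pow_mem _ _ hNU 3 (by rw [hUcard, hNcard]) u hu
      have hN3 : ∀ e ∈ (⊤ : Subgroup R).lowerCentralSeries c, e ^ 3 = 1 := by
        let T : Subgroup R :=
          { carrier := {e | e ∈ Subgroup.center R ∧ e ^ 3 = 1}
            mul_mem' := by
              intro a b ha hb
              refine ⟨Subgroup.mul_mem _ ha.1 hb.1, ?_⟩
              have hcomm : Commute a b := (Subgroup.mem_center_iff.mp ha.1 b).symm
              rw [hcomm.mul_pow, ha.2, hb.2, one_mul]
            one_mem' := ⟨Subgroup.one_mem _, one_pow 3⟩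
            inv_mem' := by
              intro a ha
              exact ⟨Subgroup.inv_mem _ ha.1, by rw [inv_pow, ha.2, inv_one]⟩ }
        have hle : (⊤ : Subgroup R).lowerCentralSeries (c - 1 + 1) ≤ T := by
          rw [Subgroup.lowerCentralSeries_succ, Subgroup.commutator_le]
          intro u hu g _
          have hmem : u * g * u⁻¹ * g⁻¹ ∈ (⊤ : Subgroup R).lowerCentralSeries c := by
            have h1 : ⁅u, g⁆ ∈ (⊤ : Subgroup R).lowerCentralSeries (c - 1 + 1) :=
              Subgroup.commutator_mem_commutator hu (Subgroup.mem_top g)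
            rw [hsucc1, commutatorElement_def] at h1
            exact h1
          rw [commutatorElement_def]
          exact ⟨hNcent hmem, bkH_comm_cube u g (hNcent hmem) (hNcent (hu3 u hu))⟩
        rw [hsucc1] at hle
        intro e he
        exact (hle he).2
      have hUN : ∀ u ∈ (⊤ : Subgroup R).lowerCentralSeries (c - 1),
          u ∉ (⊤ : Subgroup R).lowerCentralSeries c → u ^ 3 ≠ 1 := by
        intro u hu huN hu1
        have hexp : ∀ s ∈ (⊤ : Subgroup R).lowerCentralSeries c ⊔ Subgroup.zpowers u,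
            s ^ 3 = 1 := by
          intro s hs
          have hs' : s ∈ (((⊤ : Subgroup R).lowerCentralSeries c ⊔ Subgroup.zpowers u :
              Subgroup R) : Set R) := hs
          rw [Subgroup.normal_mul] at hs'
          obtain ⟨e, he, w, hw, rfl⟩ := Set.mem_mul.mp hs'
          obtain ⟨k, rfl⟩ := Subgroup.mem_zpowers_iff.mp hw
          have hcomm : Commute e (u ^ k) :=
            (Subgroup.mem_center_iff.mp (hNcent he) (u ^ k)).symm
          rw [hcomm.mul_pow, hN3 e he, one_mul, ← zpow_natCast, ← zpow_mul, mul_comm, zpow_mul,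
            zpow_natCast, hu1, one_zpow]
        have h1 := hS _ hexp
        have h2 : (⊤ : Subgroup R).lowerCentralSeries c =
            (⊤ : Subgroup R).lowerCentralSeries c ⊔ Subgroup.zpowers u :=
          Subgroup.eq_of_le_of_card_ge le_sup_left (by rw [hNcard]; exact h1.trans (by norm_num))
        apply huN
        rw [h2]
        exact (le_sup_right : Subgroup.zpowers u ≤ _) (Subgroup.mem_zpowers u)
      have hW : ∃ s : R, ∃ t ∈ (⊤ : Subgroup R).lowerCentralSeries (c - 2),
          s * t * s⁻¹ * t⁻¹ ∉ (⊤ : Subgroup R).lowerCentralSeries c := by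
        by_contra hno
        push Not at hno
        have hle : (⊤ : Subgroup R).lowerCentralSeries (c - 2 + 1) ≤
            (⊤ : Subgroup R).lowerCentralSeries c := by
          rw [Subgroup.lowerCentralSeries_succ, Subgroup.commutator_le]
          intro t ht g _
          have h1 := hno g t ht
          have h2 : ⁅t, g⁆ = (g * t * g⁻¹ * t⁻¹)⁻¹ := by rw [commutatorElement_def]; group
          rw [h2]; exact Subgroup.inv_mem _ h1
        rw [hsucc2] at hle
        have h3 := Subgroup.card_le_of_le hle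
        rw [hUcard, hNcard] at h3
        omega
      have hCW : ∀ c' ∈ (⊤ : Subgroup R).lowerCentralSeries 2,
          ∀ t ∈ (⊤ : Subgroup R).lowerCentralSeries (c - 2), c' * t = t * c' := by
        intro c' hc'2 t ht
        have h1 : ⁅c', t⁆ ∈ (⊤ : Subgroup R).lowerCentralSeries (2 + (c - 2) + 1) :=
          Helper64.top_lcs_comm_le 2 (c - 2) (Subgroup.commutator_mem_commutator hc'2 ht)
        have h2 : 2 + (c - 2) + 1 = c + 1 := by omega
        rw [h2, hc', Subgroup.mem_bot] at h1
        exact commutatorElement_eq_one_iff_mul_comm.mp h1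
      obtain ⟨K, hKdef⟩ : ∃ K : Subgroup R,
          K = (⊤ : Subgroup R).lowerCentralSeries 3 ⊔ Subgroup.zpowers z := ⟨_, rfl⟩
      have hKnorm : K.Normal := by rw [hKdef]; infer_instance
      have hKle : K ≤ (⊤ : Subgroup R).lowerCentralSeries 2 := by
        rw [hKdef]; exact sup_le (hanti (by norm_num)) (hZle 2 hc2)
      have hKcard : Nat.card K = 3 ^ (c - 1) := by
        have h1 := bkH_card_map (Subgroup.zpowers z) K (by rw [hKdef]; exact le_sup_right)
        have h2 : K.map (QuotientGroup.mk' (Subgroup.zpowers z)) =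
            (⊤ : Subgroup (R ⧸ Subgroup.zpowers z)).lowerCentralSeries 3 := by
          rw [hKdef, Subgroup.map_sup, QuotientGroup.map_mk'_self, sup_bot_eq, bkH_lcs_map]
        rw [h2, hZ3, hcardQj 3 (by norm_num) (by omega)] at h1
        rw [h1, ← pow_succ']
        exact congrArg (fun e => 3 ^ e) (by omega)
      have hXcard : Nat.card (R ⧸ K) = 81 := by
        have h1 := Subgroup.card_eq_card_quotient_mul_card_subgroup K
        rw [hn, hKcard] at h1
        have h2 : 3 ^ (c + 3) = 81 * 3 ^ (c - 1) := by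
          have h3 : c + 3 = 4 + (c - 1) := by omega
          rw [h3, pow_add]; norm_num
        rw [h2] at h1
        exact (Nat.eq_of_mul_eq_mul_right (by positivity) h1).symm
      have hX1 : Nat.card ((⊤ : Subgroup (R ⧸ K)).lowerCentralSeries 1) = 9 := by
        have h1 := bkH_card_map K _ (hKle.trans (hanti (by norm_num : 1 ≤ 2)))
        rw [← bkH_lcs_map, hcardj 1 le_rfl (by omega), hKcard] at h1
        have h2 : 3 ^ (c + 2 - 1) = 3 ^ (c - 1) * 9 := by
          have h3 : c + 2 - 1 = (c - 1) + 2 := by omega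
          rw [h3, pow_add]; norm_num
        rw [h2] at h1
        exact (Nat.eq_of_mul_eq_mul_left (by positivity) h1).symm
      have hX2 : Nat.card ((⊤ : Subgroup (R ⧸ K)).lowerCentralSeries 2) = 3 := by
        have h1 := bkH_card_map K _ hKle
        rw [← bkH_lcs_map, hcardj 2 (by norm_num) hc2, hKcard] at h1
        have h2 : 3 ^ (c + 2 - 2) = 3 ^ (c - 1) * 3 := by
          have h3 : c + 2 - 2 = (c - 1) + 1 := by omega
          rw [h3, pow_succ]
        rw [h2] at h1
        exact (Nat.eq_of_mul_eq_mul_left (by positivity) h1).symm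
      obtain ⟨MX, hMX, hMXs⟩ := hF (R ⧸ K) hXcard hX1 hX2
      have hM₁ : MX.comap (QuotientGroup.mk' K) ≠ ⊤ := by
        intro h
        apply hMX
        rw [eq_top_iff]
        intro x _
        obtain ⟨r, rfl⟩ := QuotientGroup.mk'_surjective K x
        have h1 : r ∈ MX.comap (QuotientGroup.mk' K) := by rw [h]; exact Subgroup.mem_top r
        exact h1
      have hcube : ∀ s : R, s ∉ MX.comap (QuotientGroup.mk' K) →
          s ^ 3 ∈ (⊤ : Subgroup R).lowerCentralSeries 2 := by
        intro s hs
        have h1 := hMXs (QuotientGroup.mk' K s) hs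
        rw [bkH_lcs_map] at h1
        obtain ⟨y, hy, hys⟩ := Subgroup.mem_map.mp h1
        rw [← map_pow] at hys
        have h2 : y⁻¹ * s ^ 3 ∈ K := QuotientGroup.eq.mp hys
        have h3 : s ^ 3 = y * (y⁻¹ * s ^ 3) := by group
        rw [h3]
        exact Subgroup.mul_mem _ hy (hKle h2)
      exact Helper52.bk_contra _ _ _ _ _ hNcent hN3 hUN hWU hUR hCW hM₁ hcube hW

end Cfsg.Agent.Helper48
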