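import Mathlib
import Cfsg.Agent.Helper48.AutFix

/-!
# Involutory automorphisms of odd `p`-groups (helper48)

Elementary facts used for Thompson's lemma on "broad" elements (S4412):

* `broad_eq_one_of_mul_self` : in a `p`-group, `p` odd, `x * x = 1` forces `x = 1`.
* `broad_invol_decomp` : `x = c * w` with `c` fixed and `w` inverted by an involutory automorphism.
* `broad_fix_or_inv` : an involutory automorphism mapping `g` into `zpowers g` fixes or inverts `g`.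
* `broad_exists_hyperplane` : hyperplanes in elementary abelian `2`-groups.
* `broad_card_mul_le_of_lt`, `broad_card_le_of_closure_pair`, `broad_not_two_generated`.
-/

set_option autoImplicit false

namespace Cfsg.Agent.Helper48

open Subgroup

section Broad

variable {P : Type*} [Group P]

theorem broad_eq_one_of_mul_self {p : ℕ} (hp : p.Prime) (hp2 : p ≠ 2) (hP : IsPGroup p P) {x : P}
    (hx : x * x = 1) : x = 1 := by
  obtain ⟨k, hk⟩ := hP x
  have h2 : x ^ 2 = 1 := by rw [pow_two]; exact hx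
  have hcop : Nat.Coprime 2 (p ^ k) :=
    Nat.Coprime.pow_right k ((Nat.coprime_primes Nat.prime_two hp).mpr (Ne.symm hp2))
  have : x ^ Nat.gcd 2 (p ^ k) = 1 := pow_gcd_eq_one.mpr ⟨h2, hk⟩
  rwa [hcop.gcd_eq_one, pow_one] at this

theorem broad_inv_ne_self {p : ℕ} (hp : p.Prime) (hp2 : p ≠ 2) (hP : IsPGroup p P) {x : P}
    (hx : x ≠ 1) : x⁻¹ ≠ x := by
  intro h
  apply hx
  apply broad_eq_one_of_mul_self hp hp2 hP
  calc x * x = x⁻¹ * x := by rw [h]
    _ = 1 := inv_mul_cancel x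

theorem broad_invol_apply (t : MulAut P) (ht : t * t = 1) (u : P) : t (t u) = u := by
  have := congrArg (fun f : MulAut P => f u) ht
  exact this

/-- Decomposition with respect to an involutory automorphism of an odd `p`-group. -/
theorem broad_invol_decomp {p : ℕ} (hp : p.Prime) (hp2 : p ≠ 2) (hP : IsPGroup p P)
    (t : MulAut P) (ht : t * t = 1) (x : P) :
    ∃ c w : P, t c = c ∧ t w = w⁻¹ ∧ x = c * w ∧ w ∈ Subgroup.zpowers (x⁻¹ * t x) := by
  obtain ⟨y, hy⟩ : ∃ y, y = x⁻¹ * t x := ⟨_, rfl⟩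
  have hty : t y = y⁻¹ := by
    rw [hy, map_mul, map_inv, broad_invol_apply t ht, mul_inv_rev, inv_inv]
  obtain ⟨k, hk⟩ := hP y
  have hodd : Odd (p ^ k) := (hp.odd_of_ne_two hp2).pow
  obtain ⟨m, hm⟩ := hodd
  obtain ⟨v, hv⟩ : ∃ v, v = y ^ (m + 1) := ⟨_, rfl⟩
  have hvv : v * v = y := by
    rw [hv, ← pow_add]
    have : m + 1 + (m + 1) = p ^ k + 1 := by omega
    rw [this, pow_succ, hk, one_mul]
  have htv : t v = v⁻¹ := by
    rw [hv, map_pow, hty, inv_pow]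
  have htx : t x = x * y := by rw [hy, mul_inv_cancel_left]
  refine ⟨x * v, v⁻¹, ?_, ?_, ?_, ?_⟩
  · rw [map_mul, htv, htx, ← hvv]
    simp only [mul_assoc, mul_inv_cancel, mul_one]
  · rw [map_inv, htv]
  · rw [mul_inv_cancel_right]
  · rw [← hy, hv]
    exact Subgroup.inv_mem _ (Subgroup.pow_mem _ (Subgroup.mem_zpowers y) _)

/-- An involutory automorphism of an odd `p`-group that maps `g` into `zpowers g` fixes or
inverts `g`. -/
theorem broad_fix_or_inv {p : ℕ} (hp : p.Prime) (hp2 : p ≠ 2) (hP : IsPGroup p P)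
    (t : MulAut P) (ht : t * t = 1) (g : P) (hg : t g ∈ Subgroup.zpowers g) :
    t g = g ∨ t g = g⁻¹ := by
  obtain ⟨k, hk⟩ := Subgroup.mem_zpowers_iff.mp hg
  have h1 : g ^ (k * k) = g := by
    rw [zpow_mul, hk, ← map_zpow, hk, broad_invol_apply t ht]
  have h2 : g ^ (k * k - 1) = 1 := by rw [zpow_sub, zpow_one, h1, mul_inv_cancel]
  obtain ⟨n, hn⟩ := hP g
  obtain ⟨m, -, hord⟩ := (Nat.dvd_prime_pow hp).mp (orderOf_dvd_of_pow_eq_one hn)
  have h3 : ((orderOf g : ℕ) : ℤ) ∣ (k - 1) * (k + 1) := by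
    rw [orderOf_dvd_iff_zpow_eq_one]
    have : (k - 1) * (k + 1) = k * k - 1 := by ring
    rw [this]; exact h2
  have hpZ : Prime (p : ℤ) := Nat.prime_iff_prime_int.mp hp
  have hordZ : ((orderOf g : ℕ) : ℤ) = (p : ℤ) ^ m := by rw [hord]; push_cast; rfl
  by_cases hd : (p : ℤ) ∣ k + 1
  · have hnd : ¬ (p : ℤ) ∣ k - 1 := by
      intro h
      have h' : (p : ℤ) ∣ 2 := by
        have := dvd_sub hd h
        have e : k + 1 - (k - 1) = 2 := by ring
        rwa [e] at this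
      have h'' : p ∣ 2 := by exact_mod_cast h'
      exact hp2 ((Nat.prime_dvd_prime_iff_eq hp Nat.prime_two).mp h'')
    have hcop : IsCoprime ((orderOf g : ℕ) : ℤ) (k - 1) := by
      rw [hordZ]; exact (hpZ.coprime_iff_not_dvd.mpr hnd).pow_left
    have h4 : ((orderOf g : ℕ) : ℤ) ∣ k + 1 := hcop.dvd_of_dvd_mul_left h3
    right
    rw [orderOf_dvd_iff_zpow_eq_one, zpow_add, zpow_one] at h4
    rw [← hk]
    exact eq_inv_of_mul_eq_one_left h4
  · have hcop : IsCoprime ((orderOf g : ℕ) : ℤ) (k + 1) := by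
      rw [hordZ]; exact (hpZ.coprime_iff_not_dvd.mpr hd).pow_left
    have h4 : ((orderOf g : ℕ) : ℤ) ∣ k - 1 := hcop.dvd_of_dvd_mul_right h3
    left
    rw [orderOf_dvd_iff_zpow_eq_one, zpow_sub, zpow_one] at h4
    rw [← hk]
    exact mul_inv_eq_one.mp h4

/-- Hyperplanes in elementary abelian `2`-groups: a subgroup `K` of `I` avoiding `T ∈ I` extends
to a subgroup `J` of index two in `I` avoiding `T`. -/
theorem broad_exists_hyperplane {G : Type*} [Group G] [Finite G] (I : Subgroup G)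
    (hI : ∀ T ∈ I, T * T = 1) (hIc : ∀ S ∈ I, ∀ T ∈ I, S * T = T * S)
    (K : Subgroup G) (hK : K ≤ I) (T : G) (hTK : T ∉ K) :
    ∃ J : Subgroup G, K ≤ J ∧ J ≤ I ∧ T ∉ J ∧ ∀ u ∈ I, u ∈ J ∨ u * T ∈ J := by
  obtain ⟨J, -, hJmax⟩ := Finite.exists_le_maximal
    (p := fun J : Subgroup G => K ≤ J ∧ J ≤ I ∧ T ∉ J) (a := K) ⟨le_refl K, hK, hTK⟩
  obtain ⟨hKJ, hJI, hTJ⟩ := hJmax.prop
  refine ⟨J, hKJ, hJI, hTJ, ?_⟩
  intro u hu
  by_contra hcon
  push Not at hcon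
  have hmemI : ∀ x, (x ∈ J ∨ u * x ∈ J) → x ∈ I := by
    rintro x (hx | hx)
    · exact hJI hx
    · have := I.mul_mem (I.inv_mem hu) (hJI hx)
      rwa [inv_mul_cancel_left] at this
  have hinvI : ∀ x ∈ I, x⁻¹ = x := by
    intro x hx
    exact inv_eq_of_mul_eq_one_left (hI x hx)
  obtain ⟨J', hJ'⟩ : ∃ J' : Subgroup G, ∀ x, x ∈ J' ↔ (x ∈ J ∨ u * x ∈ J) := by
    refine ⟨{ carrier := {x | x ∈ J ∨ u * x ∈ J}
              mul_mem' := ?_
              one_mem' := Or.inl J.one_mem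
              inv_mem' := ?_ }, fun x => Iff.rfl⟩
    · intro x y hx hy
      have hxI := hmemI x hx
      have hyI := hmemI y hy
      rcases hx with hx | hx <;> rcases hy with hy | hy
      · exact Or.inl (J.mul_mem hx hy)
      · right
        have : u * (x * y) = x * (u * y) := by
          rw [← mul_assoc, hIc u hu x hxI, mul_assoc]
        show u * (x * y) ∈ J
        rw [this]; exact J.mul_mem hx hy
      · right
        show u * (x * y) ∈ J
        rw [← mul_assoc]; exact J.mul_mem hx hy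
      · left
        have : x * y = (u * x) * (u * y) := by
          calc x * y = (u * u) * (x * y) := by rw [hI u hu, one_mul]
            _ = u * (u * x) * y := by simp only [mul_assoc]
            _ = u * (x * u) * y := by rw [hIc u hu x hxI]
            _ = (u * x) * (u * y) := by simp only [mul_assoc]
        show x * y ∈ J
        rw [this]; exact J.mul_mem hx hy
    · intro x hx
      have hxI := hmemI x hx
      show x⁻¹ ∈ J ∨ u * x⁻¹ ∈ J
      rw [hinvI x hxI]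
      exact hx
  have hle : J ≤ J' := fun x hx => (hJ' x).mpr (Or.inl hx)
  have hJ'p : K ≤ J' ∧ J' ≤ I ∧ T ∉ J' := by
    refine ⟨hKJ.trans hle, fun x hx => hmemI x ((hJ' x).mp hx), ?_⟩
    intro hT
    rcases (hJ' T).mp hT with h | h
    · exact hTJ h
    · exact hcon.2 h
  have hJ'J : J' ≤ J := hJmax.le_of_ge hJ'p hle
  apply hcon.1
  apply hJ'J
  rw [hJ']
  right
  rw [hI u hu]
  exact J.one_mem

/-- A subgroup of index two (given elementwise) has half the order. -/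
theorem broad_card_of_hyperplane {G : Type*} [Group G] (I J : Subgroup G) [Finite I]
    (hJI : J ≤ I) (T : G) (hT : T ∈ I) (hTJ : T ∉ J) (h : ∀ u ∈ I, u ∈ J ∨ u * T ∈ J) :
    Nat.card J * 2 = Nat.card I := by
  have hidx : (J.subgroupOf I).index = 2 := by
    rw [Subgroup.index_eq_two_iff]
    refine ⟨⟨T, hT⟩, ?_⟩
    intro b
    rw [Subgroup.mem_subgroupOf, Subgroup.mem_subgroupOf]
    show Xor (((b : G) * T) ∈ J) ((b : G) ∈ J)
    by_cases hb : (b : G) ∈ J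
    · right
      refine ⟨hb, fun hbT => hTJ ?_⟩
      have := J.mul_mem (J.inv_mem hb) hbT
      rwa [inv_mul_cancel_left] at this
    · left
      exact ⟨(h b b.2).resolve_left hb, hb⟩
  have h1 := Subgroup.card_mul_index (J.subgroupOf I)
  rw [hidx, Nat.card_congr (Subgroup.subgroupOfEquivOfLe hJI).toEquiv] at h1
  exact h1

/-- A strict inclusion of subgroups of a finite `p`-group multiplies the order by at least `p`. -/
theorem broad_card_mul_le_of_lt [Finite P] {p : ℕ} (hp : p.Prime) (hP : IsPGroup p P)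
    {H K : Subgroup P} (h : H < K) : p * Nat.card H ≤ Nat.card K := by
  have : Fact p.Prime := ⟨hp⟩
  obtain ⟨j, hj⟩ := IsPGroup.iff_card.mp (hP.to_subgroup K)
  obtain ⟨i, hij, hi⟩ := (Nat.dvd_prime_pow hp).mp (hj ▸ Subgroup.card_dvd_of_le h.le)
  have hne : i ≠ j := by
    rintro rfl
    exact h.ne (Subgroup.eq_of_le_of_card_ge h.le (by rw [hi, hj]))
  have hlt : i + 1 ≤ j := by omega
  rw [hi, hj, ← pow_succ']
  exact Nat.pow_le_pow_right hp.pos hlt

/-- In an abelian group generated by two elements, the `p`-th powers have index at most `p²`. -/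
theorem broad_card_le_of_closure_pair [Finite P] (hcomm : ∀ x y : P, x * y = y * x) (p : ℕ)
    (hp : 0 < p) (φ : P →* P) (hφ : ∀ x, φ x = x ^ p) (u v : P)
    (huv : Subgroup.closure {u, v} = ⊤) : Nat.card P ≤ p * (p * Nat.card φ.range) := by
  have hmem : ∀ x : P, ∃ m n : ℤ, x = u ^ m * v ^ n := by
    intro x
    have hx : x ∈ Subgroup.closure {u, v} := by rw [huv]; exact Subgroup.mem_top x
    induction hx using Subgroup.closure_induction with
    | mem y hy =>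
      rcases hy with hy | hy
      · exact ⟨1, 0, by rw [hy, zpow_one, zpow_zero, mul_one]⟩
      · rw [Set.mem_singleton_iff] at hy
        exact ⟨0, 1, by rw [hy, zpow_one, zpow_zero, one_mul]⟩
    | one => exact ⟨0, 0, by rw [zpow_zero, zpow_zero, mul_one]⟩
    | mul y z _ _ hy hz =>
      obtain ⟨m, n, rfl⟩ := hy
      obtain ⟨m', n', rfl⟩ := hz
      refine ⟨m + m', n + n', ?_⟩
      rw [zpow_add, zpow_add]
      calc u ^ m * v ^ n * (u ^ m' * v ^ n') = u ^ m * (v ^ n * u ^ m') * v ^ n' := by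
            simp only [mul_assoc]
        _ = u ^ m * (u ^ m' * v ^ n) * v ^ n' := by rw [hcomm (v ^ n) (u ^ m')]
        _ = u ^ m * u ^ m' * (v ^ n * v ^ n') := by simp only [mul_assoc]
    | inv y _ hy =>
      obtain ⟨m, n, rfl⟩ := hy
      refine ⟨-m, -n, ?_⟩
      rw [mul_inv_rev, zpow_neg, zpow_neg, hcomm]
  have hsurj : Function.Surjective
      (fun t : Fin p × Fin p × φ.range => u ^ (t.1 : ℕ) * (v ^ (t.2.1 : ℕ) * (t.2.2 : P))) := by
    intro x
    obtain ⟨m, n, rfl⟩ := hmem x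
    have hpZ : (0 : ℤ) < (p : ℤ) := by exact_mod_cast hp
    have hm0 : 0 ≤ m % (p : ℤ) := Int.emod_nonneg _ hpZ.ne'
    have hn0 : 0 ≤ n % (p : ℤ) := Int.emod_nonneg _ hpZ.ne'
    have hmlt : (m % (p : ℤ)).toNat < p := by
      have := Int.emod_lt_of_pos m hpZ
      omega
    have hnlt : (n % (p : ℤ)).toNat < p := by
      have := Int.emod_lt_of_pos n hpZ
      omega
    refine ⟨(⟨(m % (p : ℤ)).toNat, hmlt⟩, ⟨(n % (p : ℤ)).toNat, hnlt⟩,
      ⟨φ (u ^ (m / (p : ℤ)) * v ^ (n / (p : ℤ))), ⟨_, rfl⟩⟩), ?_⟩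
    show u ^ (m % (p : ℤ)).toNat * (v ^ (n % (p : ℤ)).toNat
      * φ (u ^ (m / (p : ℤ)) * v ^ (n / (p : ℤ)))) = u ^ m * v ^ n
    have e1 : u ^ (m % (p : ℤ)).toNat = u ^ (m % (p : ℤ)) := by
      rw [← zpow_natCast, Int.toNat_of_nonneg hm0]
    have e2 : v ^ (n % (p : ℤ)).toNat = v ^ (n % (p : ℤ)) := by
      rw [← zpow_natCast, Int.toNat_of_nonneg hn0]
    have e3 : φ (u ^ (m / (p : ℤ)) * v ^ (n / (p : ℤ)))
        = u ^ ((p : ℤ) * (m / (p : ℤ))) * v ^ ((p : ℤ) * (n / (p : ℤ))) := by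
      rw [map_mul, hφ, hφ, ← zpow_natCast, ← zpow_natCast, ← zpow_mul, ← zpow_mul,
        mul_comm (m / (p : ℤ)), mul_comm (n / (p : ℤ))]
    rw [e1, e2, e3]
    have e4 : u ^ m = u ^ (m % (p : ℤ)) * u ^ ((p : ℤ) * (m / (p : ℤ))) := by
      rw [← zpow_add, Int.emod_add_mul_ediv]
    have e5 : v ^ n = v ^ (n % (p : ℤ)) * v ^ ((p : ℤ) * (n / (p : ℤ))) := by
      rw [← zpow_add, Int.emod_add_mul_ediv]
    rw [e4, e5]
    obtain ⟨A, hA⟩ : ∃ A, A = u ^ (m % (p : ℤ)) := ⟨_, rfl⟩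
    obtain ⟨B, hB⟩ : ∃ B, B = v ^ (n % (p : ℤ)) := ⟨_, rfl⟩
    obtain ⟨C, hC⟩ : ∃ C, C = u ^ ((p : ℤ) * (m / (p : ℤ))) := ⟨_, rfl⟩
    obtain ⟨D, hD⟩ : ∃ D, D = v ^ ((p : ℤ) * (n / (p : ℤ))) := ⟨_, rfl⟩
    rw [← hA, ← hB, ← hC, ← hD]
    calc A * (B * (C * D)) = A * ((B * C) * D) := by simp only [mul_assoc]
      _ = A * ((C * B) * D) := by rw [hcomm B C]
      _ = A * C * (B * D) := by simp only [mul_assoc]
  have := Nat.card_le_card_of_surjective _ hsurj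
  rwa [Nat.card_prod, Nat.card_prod, Nat.card_fin] at this

theorem broad_exists_order_p {p : ℕ} (hp : p.Prime) (hP : IsPGroup p P) {g : P} (hg : g ≠ 1) :
    ∃ m : ℕ, g ^ m ≠ 1 ∧ (g ^ m) ^ p = 1 := by
  obtain ⟨n, hn⟩ := hP g
  obtain ⟨k, -, hord⟩ := (Nat.dvd_prime_pow hp).mp (orderOf_dvd_of_pow_eq_one hn)
  have hk : k ≠ 0 := by
    rintro rfl
    rw [pow_zero, orderOf_eq_one_iff] at hord
    exact hg hord
  obtain ⟨j, rfl⟩ := Nat.exists_eq_succ_of_ne_zero hk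
  refine ⟨p ^ j, ?_, ?_⟩
  · intro h
    have h1 := orderOf_dvd_of_pow_eq_one h
    rw [hord] at h1
    have h2 := (Nat.pow_dvd_pow_iff_le_right hp.one_lt).mp h1
    omega
  · rw [← pow_mul, ← pow_succ, ← hord, pow_orderOf_eq_one]

/-- An abelian `p`-group (`p` odd) with three nontrivial elements separated by the signs of two
automorphisms is not generated by two elements. -/
theorem broad_not_two_generated [Finite P] {p : ℕ} (hp : p.Prime) (hp2 : p ≠ 2)
    (hP : IsPGroup p P) (hcomm : ∀ x y : P, x * y = y * x)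
    (g₁ g₂ g₃ : P) (hg₁ : g₁ ≠ 1) (hg₂ : g₂ ≠ 1) (hg₃ : g₃ ≠ 1)
    (e₂ e₃ : MulAut P) (h21 : e₂ g₁ = g₁) (h22 : e₂ g₂ = g₂⁻¹) (h31 : e₃ g₁ = g₁)
    (h32 : e₃ g₂ = g₂) (h33 : e₃ g₃ = g₃⁻¹) :
    ¬ ∃ u v : P, Subgroup.closure {u, v} = ⊤ := by
  rintro ⟨u, v, huv⟩
  obtain ⟨φ, hφ⟩ : ∃ φ : P →* P, ∀ x, φ x = x ^ p :=
    ⟨MonoidHom.mk' (fun x => x ^ p) (fun a b => (Commute.mul_pow (hcomm a b) p)), fun x => rfl⟩
  obtain ⟨m₁, hy₁, hy₁p⟩ := broad_exists_order_p hp hP hg₁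
  obtain ⟨m₂, hy₂, hy₂p⟩ := broad_exists_order_p hp hP hg₂
  obtain ⟨m₃, hy₃, hy₃p⟩ := broad_exists_order_p hp hP hg₃
  obtain ⟨Ω₂, hΩ₂⟩ : ∃ Ω₂ : Subgroup P, Ω₂ = φ.ker ⊓ fixSub e₃ := ⟨_, rfl⟩
  obtain ⟨Ω₁, hΩ₁⟩ : ∃ Ω₁ : Subgroup P, Ω₁ = Ω₂ ⊓ fixSub e₂ := ⟨_, rfl⟩
  have hk₁ : g₁ ^ m₁ ∈ φ.ker := by rw [MonoidHom.mem_ker, hφ]; exact hy₁p
  have hk₂ : g₂ ^ m₂ ∈ φ.ker := by rw [MonoidHom.mem_ker, hφ]; exact hy₂p
  have hk₃ : g₃ ^ m₃ ∈ φ.ker := by rw [MonoidHom.mem_ker, hφ]; exact hy₃p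
  have h1mem : g₁ ^ m₁ ∈ Ω₁ := by
    rw [hΩ₁, hΩ₂]
    refine ⟨⟨hk₁, ?_⟩, ?_⟩
    · show e₃ (g₁ ^ m₁) = g₁ ^ m₁
      rw [map_pow, h31]
    · show e₂ (g₁ ^ m₁) = g₁ ^ m₁
      rw [map_pow, h21]
  have h2mem : g₂ ^ m₂ ∈ Ω₂ := by
    rw [hΩ₂]
    refine ⟨hk₂, ?_⟩
    show e₃ (g₂ ^ m₂) = g₂ ^ m₂
    rw [map_pow, h32]
  have h2not : g₂ ^ m₂ ∉ Ω₁ := by
    rw [hΩ₁]
    rintro ⟨-, h⟩
    have h' : e₂ (g₂ ^ m₂) = g₂ ^ m₂ := h
    rw [map_pow, h22, inv_pow] at h'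
    exact broad_inv_ne_self hp hp2 hP hy₂ h'
  have h3not : g₃ ^ m₃ ∉ Ω₂ := by
    rw [hΩ₂]
    rintro ⟨-, h⟩
    have h' : e₃ (g₃ ^ m₃) = g₃ ^ m₃ := h
    rw [map_pow, h33, inv_pow] at h'
    exact broad_inv_ne_self hp hp2 hP hy₃ h'
  have hlt0 : (⊥ : Subgroup P) < Ω₁ := by
    rw [bot_lt_iff_ne_bot]
    intro h
    rw [h, Subgroup.mem_bot] at h1mem
    exact hy₁ h1mem
  have hlt1 : Ω₁ < Ω₂ := by
    refine lt_of_le_of_ne (by rw [hΩ₁]; exact inf_le_left) ?_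
    intro h
    rw [h] at h2not
    exact h2not h2mem
  have hlt2 : Ω₂ < φ.ker := by
    refine lt_of_le_of_ne (by rw [hΩ₂]; exact inf_le_left) ?_
    intro h
    rw [h] at h3not
    exact h3not hk₃
  have c0 := broad_card_mul_le_of_lt hp hP hlt0
  have c1 := broad_card_mul_le_of_lt hp hP hlt1
  have c2 := broad_card_mul_le_of_lt hp hP hlt2
  rw [Subgroup.card_bot, mul_one] at c0
  have hker : p * (p * p) ≤ Nat.card φ.ker :=
    calc p * (p * p) ≤ p * (p * Nat.card Ω₁) :=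
          Nat.mul_le_mul_left _ (Nat.mul_le_mul_left _ c0)
      _ ≤ p * Nat.card Ω₂ := Nat.mul_le_mul_left _ c1
      _ ≤ Nat.card φ.ker := c2
  have hidx := Subgroup.card_mul_index φ.ker
  rw [Subgroup.index_ker] at hidx
  have hle := broad_card_le_of_closure_pair hcomm p hp.pos φ hφ u v huv
  have hr : 0 < Nat.card φ.range := Nat.card_pos
  have h4 : p * (p * p) * Nat.card φ.range ≤ p * (p * Nat.card φ.range) :=
    calc p * (p * p) * Nat.card φ.range ≤ Nat.card φ.ker * Nat.card φ.range :=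
          Nat.mul_le_mul_right _ hker
      _ = Nat.card P := hidx
      _ ≤ p * (p * Nat.card φ.range) := hle
  have h5 : p * (p * (p * Nat.card φ.range)) ≤ 1 * (p * (p * Nat.card φ.range)) := by
    rw [one_mul]
    calc p * (p * (p * Nat.card φ.range)) = p * (p * p) * Nat.card φ.range := by ring
      _ ≤ p * (p * Nat.card φ.range) := h4
  have h6 : 0 < p * (p * Nat.card φ.range) := Nat.mul_pos hp.pos (Nat.mul_pos hp.pos hr)
  have h7 := Nat.le_of_mul_le_mul_right h5 h6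
  have := hp.one_lt
  omega

end Broad

end Cfsg.Agent.Helper48
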