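import Mathlib
import Cfsg.Agent.Helper48.Broad

/-!
# Thompson's lemma on broad elements: the structure (helper48)

* `broad_four_enum` : enumeration of a four-group.
* `broad_structure` : an elementary abelian group `I` of order `8` of automorphisms of an odd
  `p`-group `P` containing a four-group `J = {1, a, b, ab}` whose nonidentity elements have cyclic
  fixed points: `P` is abelian, generated by the generators `g₁, g₂, g₃` of the three fixed point
  groups, and `I` is the full group of sign changes.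
-/

set_option autoImplicit false

namespace Cfsg.Agent.Helper48

open Subgroup

section Broad2

variable {P : Type*} [Group P]

theorem broad_four_enum {G : Type*} [Group G] [Finite G] (J : Subgroup G)
    (hJ4 : Nat.card J = 4) (hJ : ∀ T ∈ J, T * T = 1) :
    ∃ a b : G, a ∈ J ∧ b ∈ J ∧ a ≠ 1 ∧ b ≠ 1 ∧ a ≠ b ∧
      ∀ T ∈ J, T = 1 ∨ T = a ∨ T = b ∨ T = a * b := by
  have hJne : J ≠ ⊥ := by
    intro h
    rw [h, Subgroup.card_bot] at hJ4
    norm_num at hJ4
  obtain ⟨⟨a, haJ⟩, ha1⟩ := Subgroup.ne_bot_iff_exists_ne_one.mp hJne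
  have ha1' : a ≠ 1 := fun h => ha1 (Subtype.ext h)
  have hb : ∃ b ∈ J, b ≠ 1 ∧ b ≠ a := by
    by_contra hcon
    push Not at hcon
    have hle : J ≤ zpowers a := by
      intro x hx
      by_cases hx1 : x = 1
      · rw [hx1]; exact one_mem _
      · rw [hcon x hx hx1]; exact mem_zpowers a
    have h2 : orderOf a = 2 := orderOf_eq_prime (by rw [pow_two]; exact hJ a haJ) ha1'
    have := Subgroup.card_le_of_le hle
    rw [Nat.card_zpowers, h2, hJ4] at this
    norm_num at this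
  obtain ⟨b, hbJ, hb1, hba⟩ := hb
  refine ⟨a, b, haJ, hbJ, ha1', hb1, Ne.symm hba, ?_⟩
  have hab1 : a * b ≠ 1 := by
    intro h
    apply hba
    exact (mul_left_cancel (h.trans (hJ a haJ).symm))
  have haba : a * b ≠ a := fun h => hb1 (mul_left_cancel (h.trans (mul_one a).symm))
  have habb : a * b ≠ b := fun h => ha1' (mul_right_cancel (h.trans (one_mul b).symm))
  have hsub : ({1, a, b, a * b} : Set G) ⊆ (J : Set G) := by
    intro x hx
    rcases hx with hx | hx | hx | hx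
    · rw [hx]; exact J.one_mem
    · rw [hx]; exact haJ
    · rw [hx]; exact hbJ
    · rw [Set.mem_singleton_iff] at hx; rw [hx]; exact J.mul_mem haJ hbJ
  have hncard : ({1, a, b, a * b} : Set G).ncard = 4 := by
    rw [Set.ncard_insert_of_notMem, Set.ncard_insert_of_notMem, Set.ncard_pair]
    · exact fun h => habb h.symm
    · intro h
      rcases h with h | h
      · exact hba h.symm
      · rw [Set.mem_singleton_iff] at h; exact haba h.symm
    · intro h
      rcases h with h | h | h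
      · exact ha1' h.symm
      · exact hb1 h.symm
      · rw [Set.mem_singleton_iff] at h; exact hab1 h.symm
  have hJncard : (J : Set G).ncard = 4 := (Nat.card_coe_set_eq (J : Set G)).symm.trans hJ4
  have heq := Set.eq_of_subset_of_ncard_le hsub (by rw [hncard, hJncard])
  intro T hT
  have hT' : T ∈ ({1, a, b, a * b} : Set G) := by rw [heq]; exact hT
  rcases hT' with h | h | h | h
  · exact Or.inl h
  · exact Or.inr (Or.inl h)
  · exact Or.inr (Or.inr (Or.inl h))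
  · rw [Set.mem_singleton_iff] at h; exact Or.inr (Or.inr (Or.inr h))

set_option maxHeartbeats 1000000 in
theorem broad_structure [Finite P] {p : ℕ} (hp : p.Prime) (hp2 : p ≠ 2) (hP : IsPGroup p P)
    (I : Subgroup (MulAut P)) (hI : ∀ T ∈ I, T * T = 1) (hIc : ∀ S ∈ I, ∀ T ∈ I, S * T = T * S)
    (hI8 : Nat.card I = 8)
    (J : Subgroup (MulAut P)) (hJI : J ≤ I) (hJ4 : Nat.card J = 4)
    (a b : MulAut P) (ha : a ∈ J) (hb : b ∈ J)
    (hJ : ∀ T ∈ J, T = 1 ∨ T = a ∨ T = b ∨ T = a * b)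
    (g₁ g₂ g₃ : P) (h₁ : ∀ x, a x = x ↔ x ∈ zpowers g₁) (h₂ : ∀ x, b x = x ↔ x ∈ zpowers g₂)
    (h₃ : ∀ x, (a * b) x = x ↔ x ∈ zpowers g₃) :
    (∀ x y : P, x * y = y * x) ∧ closure ({g₁, g₂, g₃} : Set P) = ⊤ ∧
    g₁ ≠ 1 ∧ g₂ ≠ 1 ∧ g₃ ≠ 1 ∧
    a g₁ = g₁ ∧ a g₂ = g₂⁻¹ ∧ a g₃ = g₃⁻¹ ∧ b g₁ = g₁⁻¹ ∧ b g₂ = g₂ ∧ b g₃ = g₃⁻¹ ∧
    ∃ e₁ e₂ e₃ : MulAut P, e₁ ∈ I ∧ e₂ ∈ I ∧ e₃ ∈ I ∧
      e₁ g₁ = g₁⁻¹ ∧ e₁ g₂ = g₂ ∧ e₁ g₃ = g₃ ∧
      e₂ g₁ = g₁ ∧ e₂ g₂ = g₂⁻¹ ∧ e₂ g₃ = g₃ ∧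
      e₃ g₁ = g₁ ∧ e₃ g₂ = g₂ ∧ e₃ g₃ = g₃⁻¹ ∧
      a = e₂ * e₃ ∧ b = e₁ * e₃ ∧ a * b = e₁ * e₂ ∧
      (∀ S ∈ I, S = 1 ∨ S = e₂ * e₃ ∨ S = e₁ * e₃ ∨ S = e₁ * e₂ ∨ S = e₁ ∨ S = e₂ ∨ S = e₃ ∨
        S = e₁ * e₂ * e₃) ∧
      (∀ x, (e₁ * e₂ * e₃) x = x⁻¹) := by
  have haI := hJI ha
  have hbI := hJI hb
  have habI : a * b ∈ I := I.mul_mem haI hbI
  have hinvne : ∀ x : P, x ≠ 1 → x⁻¹ ≠ x := fun x hx => broad_inv_ne_self hp hp2 hP hx
  have hf₁ : fixSub a = zpowers g₁ := by ext x; exact h₁ x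
  have hf₂ : fixSub b = zpowers g₂ := by ext x; exact h₂ x
  have hf₃ : fixSub (a * b) = zpowers g₃ := by ext x; exact h₃ x
  have hpm : ∀ (T : MulAut P) (g : P), T ∈ I → fixSub T = zpowers g →
      ∀ S ∈ I, S g = g ∨ S g = g⁻¹ := by
    intro T g hT hf S hS
    apply broad_fix_or_inv hp hp2 hP S (hI S hS) g
    rw [← hf]
    apply apply_mem_fixSub_of_commute (hIc S hS T hT)
    rw [hf]; exact mem_zpowers g
  have hpm₁ := hpm a g₁ haI hf₁
  have hpm₂ := hpm b g₂ hbI hf₂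
  have hpm₃ := hpm (a * b) g₃ habI hf₃
  have hW : ¬ 2 ∣ Nat.card P := by
    have : Fact p.Prime := ⟨hp⟩
    obtain ⟨n, hn⟩ := IsPGroup.iff_card.mp hP
    rw [hn]
    intro h
    exact hp2
      ((Nat.prime_dvd_prime_iff_eq Nat.prime_two hp).mp (Nat.prime_two.dvd_of_dvd_pow h)).symm
  have hJcomm : ∀ d ∈ J, ∀ e ∈ J, d * e = e * d := fun d hd e he => hIc d (hJI hd) e (hJI he)
  have hJexp : ∀ e ∈ J, e ^ 2 = 1 := fun e he => by rw [pow_two]; exact hI e (hJI he)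
  have hJcard : 2 ^ 2 ≤ Nat.card J := by rw [hJ4]; norm_num
  have hFact2 : Fact (Nat.Prime 2) := ⟨Nat.prime_two⟩
  have hm1 : g₁ ∈ closure ({g₁, g₂, g₃} : Set P) := Subgroup.subset_closure (by simp)
  have hm2 : g₂ ∈ closure ({g₁, g₂, g₃} : Set P) := Subgroup.subset_closure (by simp)
  have hm3 : g₃ ∈ closure ({g₁, g₂, g₃} : Set P) := Subgroup.subset_closure (by simp)
  have hgen : closure ({g₁, g₂, g₃} : Set P) = ⊤ := by
    rw [eq_top_iff]
    apply le_of_fix_inf_le (p := 2) hW J hJcomm hJexp hJcard ⊤ (closure {g₁, g₂, g₃})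
      (fun e he x hx => mem_top _)
    · intro e he x hx
      have hle : (closure ({g₁, g₂, g₃} : Set P)).map e.toMonoidHom ≤ closure {g₁, g₂, g₃} := by
        rw [MonoidHom.map_closure, closure_le]
        rintro _ ⟨y, hy, rfl⟩
        show e y ∈ closure ({g₁, g₂, g₃} : Set P)
        rcases hy with hy | hy | hy
        · rw [hy]
          rcases hpm₁ e (hJI he) with h | h
          · rw [h]; exact hm1
          · rw [h]; exact inv_mem hm1
        · rw [hy]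
          rcases hpm₂ e (hJI he) with h | h
          · rw [h]; exact hm2
          · rw [h]; exact inv_mem hm2
        · rw [Set.mem_singleton_iff] at hy
          rw [hy]
          rcases hpm₃ e (hJI he) with h | h
          · rw [h]; exact hm3
          · rw [h]; exact inv_mem hm3
      exact hle ⟨x, hx, rfl⟩
    · intro e he he1
      rw [top_inf_eq]
      rcases hJ e he with h | h | h | h
      · exact absurd h he1
      · rw [h, hf₁, zpowers_le]; exact hm1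
      · rw [h, hf₂, zpowers_le]; exact hm2
      · rw [h, hf₃, zpowers_le]; exact hm3
  have hext : ∀ S S' : MulAut P, S g₁ = S' g₁ → S g₂ = S' g₂ → S g₃ = S' g₃ → S = S' := by
    intro S S' e1 e2 e3
    have heq : S.toMonoidHom = S'.toMonoidHom := by
      apply MonoidHom.eq_of_eqOn_dense hgen
      intro x hx
      rcases hx with hx | hx | hx
      · rw [hx]; exact e1
      · rw [hx]; exact e2
      · rw [Set.mem_singleton_iff] at hx; rw [hx]; exact e3
    apply MulEquiv.ext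
    intro x
    exact congrArg (fun φ : P →* P => φ x) heq
  have hsame : ∀ (g : P) (S S' : MulAut P), (S g = g ∨ S g = g⁻¹) → (S' g = g ∨ S' g = g⁻¹) →
      (S g = g ↔ S' g = g) → S g = S' g := by
    intro g S S' h h' q
    by_cases hS : S g = g
    · rw [hS, q.mp hS]
    · have e1 : S g = g⁻¹ := h.resolve_left hS
      have e2 : S' g = g⁻¹ := h'.resolve_left (fun h => hS (q.mpr h))
      rw [e1, e2]
  classical
  obtain ⟨sig, hsig⟩ : ∃ sig : ↥I → Bool × Bool × Bool, ∀ S : ↥I,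
      sig S = (decide ((S : MulAut P) g₁ = g₁), decide ((S : MulAut P) g₂ = g₂),
        decide ((S : MulAut P) g₃ = g₃)) := ⟨_, fun _ => rfl⟩
  have hsiginj : Function.Injective sig := by
    intro S S' h
    rw [hsig, hsig] at h
    simp only [Prod.mk.injEq, decide_eq_decide] at h
    obtain ⟨q1, q2, q3⟩ := h
    apply Subtype.ext
    apply hext
    · exact hsame g₁ _ _ (hpm₁ S S.2) (hpm₁ S' S'.2) q1
    · exact hsame g₂ _ _ (hpm₂ S S.2) (hpm₂ S' S'.2) q2
    · exact hsame g₃ _ _ (hpm₃ S S.2) (hpm₃ S' S'.2) q3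
  have hsigbij : Function.Bijective sig := by
    apply hsiginj.bijective_of_nat_card_le
    rw [hI8]
    simp
  obtain ⟨⟨e₁, he₁I⟩, he₁⟩ := hsigbij.2 (false, true, true)
  obtain ⟨⟨e₂, he₂I⟩, he₂⟩ := hsigbij.2 (true, false, true)
  obtain ⟨⟨e₃, he₃I⟩, he₃⟩ := hsigbij.2 (true, true, false)
  rw [hsig] at he₁ he₂ he₃
  simp only [Prod.mk.injEq, decide_eq_true_eq, decide_eq_false_iff_not] at he₁ he₂ he₃
  obtain ⟨h11n, h12, h13⟩ := he₁
  obtain ⟨h21, h22n, h23⟩ := he₂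
  obtain ⟨h31, h32, h33n⟩ := he₃
  have h11 : e₁ g₁ = g₁⁻¹ := (hpm₁ e₁ he₁I).resolve_left h11n
  have h22 : e₂ g₂ = g₂⁻¹ := (hpm₂ e₂ he₂I).resolve_left h22n
  have h33 : e₃ g₃ = g₃⁻¹ := (hpm₃ e₃ he₃I).resolve_left h33n
  have hg₁ : g₁ ≠ 1 := by
    intro h; apply h11n; rw [h, map_one]
  have hg₂ : g₂ ≠ 1 := by
    intro h; apply h22n; rw [h, map_one]
  have hg₃ : g₃ ≠ 1 := by
    intro h; apply h33n; rw [h, map_one]
  have key : ∀ (T : MulAut P) (g g' : P) (e : MulAut P), fixSub T = zpowers g →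
      (T g' = g' ∨ T g' = g'⁻¹) → e g = g → e g' ≠ g' → T g' = g'⁻¹ := by
    intro T g g' e hf hor heg heg'
    refine hor.resolve_left (fun h => heg' ?_)
    have hmem : g' ∈ zpowers g := by rw [← hf]; exact h
    obtain ⟨k, rfl⟩ := mem_zpowers_iff.mp hmem
    rw [map_zpow, heg]
  have ha1 : a g₁ = g₁ := (h₁ g₁).mpr (mem_zpowers g₁)
  have hb2 : b g₂ = g₂ := (h₂ g₂).mpr (mem_zpowers g₂)
  have ha2 : a g₂ = g₂⁻¹ := key a g₁ g₂ e₂ hf₁ (hpm₂ a haI) h21 h22n
  have ha3 : a g₃ = g₃⁻¹ := key a g₁ g₃ e₃ hf₁ (hpm₃ a haI) h31 h33n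
  have hb1 : b g₁ = g₁⁻¹ := key b g₂ g₁ e₁ hf₂ (hpm₁ b hbI) h12 h11n
  have hb3 : b g₃ = g₃⁻¹ := key b g₂ g₃ e₃ hf₂ (hpm₃ b hbI) h32 h33n
  obtain ⟨T0, hT0⟩ : ∃ T0 : MulAut P, T0 = e₁ * e₂ * e₃ := ⟨_, rfl⟩
  have hT0I : T0 ∈ I := by rw [hT0]; exact I.mul_mem (I.mul_mem he₁I he₂I) he₃I
  have hT0g₁ : T0 g₁ = g₁⁻¹ := by
    rw [hT0]; show e₁ (e₂ (e₃ g₁)) = g₁⁻¹; rw [h31, h21, h11]
  have hT0g₂ : T0 g₂ = g₂⁻¹ := by
    rw [hT0]; show e₁ (e₂ (e₃ g₂)) = g₂⁻¹; rw [h32, h22, map_inv, h12]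
  have hT0g₃ : T0 g₃ = g₃⁻¹ := by
    rw [hT0]; show e₁ (e₂ (e₃ g₃)) = g₃⁻¹; rw [h33, map_inv, h23, map_inv, h13]
  have hT0fix : fixSub T0 ≤ ⊥ := by
    apply le_of_fix_inf_le (p := 2) hW J hJcomm hJexp hJcard (fixSub T0) ⊥
    · intro e he x hx
      exact apply_mem_fixSub_of_commute (hIc e (hJI he) T0 hT0I) hx
    · intro e he x hx
      rw [mem_bot] at hx ⊢
      rw [hx, map_one]
    · intro e he he1 x hx
      obtain ⟨hx0, hxe⟩ := hx
      have hx0' : T0 x = x := hx0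
      rw [mem_bot]
      have aux : ∀ g : P, T0 g = g⁻¹ → x ∈ zpowers g → x = 1 := by
        intro g hg hxg
        obtain ⟨k, rfl⟩ := mem_zpowers_iff.mp hxg
        rw [map_zpow, hg, inv_zpow] at hx0'
        by_contra hne
        exact hinvne _ hne hx0'
      rcases hJ e he with h | h | h | h
      · exact absurd h he1
      · rw [h, hf₁] at hxe; exact aux g₁ hT0g₁ hxe
      · rw [h, hf₂] at hxe; exact aux g₂ hT0g₂ hxe
      · rw [h, hf₃] at hxe; exact aux g₃ hT0g₃ hxe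
  have hT0inv : ∀ x, T0 x = x⁻¹ := by
    intro x
    obtain ⟨c, w, hc, hw, hx, -⟩ := broad_invol_decomp hp hp2 hP T0 (hI T0 hT0I) x
    have hc1 : c = 1 := by
      have hcm : c ∈ fixSub T0 := hc
      exact (mem_bot.mp (hT0fix hcm))
    rw [hx, hc1, one_mul, hw]
  have hcomm : ∀ x y : P, x * y = y * x := by
    intro x y
    have e1 := hT0inv (x * y)
    rw [map_mul, hT0inv, hT0inv, mul_inv_rev] at e1
    have e2 := congrArg (fun z => z⁻¹) e1
    simp only [mul_inv_rev, inv_inv] at e2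
    exact e2.symm
  have hae : a = e₂ * e₃ := by
    apply hext
    · show a g₁ = e₂ (e₃ g₁); rw [ha1, h31, h21]
    · show a g₂ = e₂ (e₃ g₂); rw [ha2, h32, h22]
    · show a g₃ = e₂ (e₃ g₃); rw [ha3, h33, map_inv, h23]
  have hbe : b = e₁ * e₃ := by
    apply hext
    · show b g₁ = e₁ (e₃ g₁); rw [hb1, h31, h11]
    · show b g₂ = e₁ (e₃ g₂); rw [hb2, h32, h12]
    · show b g₃ = e₁ (e₃ g₃); rw [hb3, h33, map_inv, h13]
  have habe : a * b = e₁ * e₂ := by
    apply hext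
    · show a (b g₁) = e₁ (e₂ g₁); rw [hb1, map_inv, ha1, h21, h11]
    · show a (b g₂) = e₁ (e₂ g₂); rw [hb2, ha2, h22, map_inv, h12]
    · show a (b g₃) = e₁ (e₂ g₃); rw [hb3, map_inv, ha3, inv_inv, h23, h13]
  refine ⟨hcomm, hgen, hg₁, hg₂, hg₃, ha1, ha2, ha3, hb1, hb2, hb3, e₁, e₂, e₃, he₁I, he₂I, he₃I,
    h11, h12, h13, h21, h22, h23, h31, h32, h33, hae, hbe, habe, ?_, ?_⟩
  · intro S hS
    rcases hpm₁ S hS with s1 | s1 <;> rcases hpm₂ S hS with s2 | s2 <;>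
      rcases hpm₃ S hS with s3 | s3
    · left
      apply hext
      · rw [s1]; rfl
      · rw [s2]; rfl
      · rw [s3]; rfl
    · right; right; right; right; right; right; left
      exact hext _ _ (s1.trans h31.symm) (s2.trans h32.symm) (s3.trans h33.symm)
    · right; right; right; right; right; left
      exact hext _ _ (s1.trans h21.symm) (s2.trans h22.symm) (s3.trans h23.symm)
    · right; left
      rw [← hae]
      exact hext _ _ (s1.trans ha1.symm) (s2.trans ha2.symm) (s3.trans ha3.symm)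
    · right; right; right; right; left
      exact hext _ _ (s1.trans h11.symm) (s2.trans h12.symm) (s3.trans h13.symm)
    · right; right; left
      rw [← hbe]
      exact hext _ _ (s1.trans hb1.symm) (s2.trans hb2.symm) (s3.trans hb3.symm)
    · right; right; right; left
      rw [← habe]
      apply hext
      · show S g₁ = a (b g₁); rw [s1, hb1, map_inv, ha1]
      · show S g₂ = a (b g₂); rw [s2, hb2, ha2]
      · show S g₃ = a (b g₃); rw [s3, hb3, map_inv, ha3, inv_inv]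
    · right; right; right; right; right; right; right
      rw [← hT0]
      exact hext _ _ (s1.trans hT0g₁.symm) (s2.trans hT0g₂.symm) (s3.trans hT0g₃.symm)
  · rw [← hT0]; exact hT0inv

end Broad2

end Cfsg.Agent.Helper48
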