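import Mathlib.GroupTheory.Sylow
import Mathlib.GroupTheory.Nilpotent
import Mathlib.GroupTheory.Commutator.Basic

set_option autoImplicit false

namespace Cfsg.Agent.Helper48

open Subgroup
open scoped commutatorElement

section Abstract

variable {M : Type*} [Group M]

/-- `[γ_i, γ_1] ≤ γ_{i+2}` for the lower central series of a group. -/
theorem lcs_comm_lcs_one_le (i : ℕ) :
    ⁅(⊤ : Subgroup M).lowerCentralSeries i, (⊤ : Subgroup M).lowerCentralSeries 1⁆
      ≤ (⊤ : Subgroup M).lowerCentralSeries (i + 2) := by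
  have hN : ((⊤ : Subgroup M).lowerCentralSeries (i + 2)).Normal := inferInstance
  rw [← QuotientGroup.ker_mk' ((⊤ : Subgroup M).lowerCentralSeries (i + 2)), ← Subgroup.map_eq_bot_iff]
  have e1 : Subgroup.map (QuotientGroup.mk' ((⊤ : Subgroup M).lowerCentralSeries (i + 2)))
      (⁅⁅(⊤ : Subgroup M).lowerCentralSeries i, (⊤ : Subgroup M)⁆, (⊤ : Subgroup M)⁆) = ⊥ := by
    rw [Subgroup.map_eq_bot_iff, QuotientGroup.ker_mk']
    exact le_rfl
  have e3 : (⊤ : Subgroup M).lowerCentralSeries 1 = ⁅(⊤ : Subgroup M), ⊤⁆ := rfl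
  rw [map_commutator, map_commutator] at e1
  rw [e3, map_commutator, map_commutator, commutator_comm]
  apply commutator_commutator_eq_bot_of_rotate
  · rw [commutator_comm (map _ ⊤)]; exact e1
  · exact e1

/-- **Burnside-type lemma**: an automorphism of a finite `p`-group of order prime to `p` acting
trivially modulo the commutator subgroup is trivial. -/
theorem mulAut_eq_one_of_coprime_of_trivial_mod_commutator [Finite M] {p : ℕ} [Fact p.Prime]
    (hM : IsPGroup p M) (β : MulAut M) {k : ℕ} (hk : k.Coprime p) (hβk : β ^ k = 1)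
    (hβ : ∀ m : M, m⁻¹ * β m ∈ (⊤ : Subgroup M).lowerCentralSeries 1) : β = 1 := by
  -- `β` acts trivially on every factor of the lower central series
  have hstep : ∀ i : ℕ, ∀ u ∈ (⊤ : Subgroup M).lowerCentralSeries i,
      u⁻¹ * β u ∈ (⊤ : Subgroup M).lowerCentralSeries (i + 1) := by
    intro i
    induction i with
    | zero => intro u _; exact hβ u
    | succ i ih =>
      have hN : ((⊤ : Subgroup M).lowerCentralSeries (i + 2)).Normal := inferInstance
      suffices key : ∀ u ∈ closure {x | ∃ y ∈ (⊤ : Subgroup M).lowerCentralSeries i,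
          ∃ z ∈ (⊤ : Subgroup M), ⁅y, z⁆ = x},
          u⁻¹ * β u ∈ (⊤ : Subgroup M).lowerCentralSeries (i + 2) from fun u hu => key u hu
      intro u hu'
      induction hu' using Subgroup.closure_induction with
      | mem y hy =>
        obtain ⟨x, hx, m, -, rfl⟩ := hy
        rw [map_commutatorElement]
        apply (QuotientGroup.eq (s := (⊤ : Subgroup M).lowerCentralSeries (i + 2))).mp
        have hc := ih x hx
        have hd := hβ m
        -- images in the quotient
        have hC : ∀ g : M, (QuotientGroup.mk (x⁻¹ * β x) :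
            M ⧸ (⊤ : Subgroup M).lowerCentralSeries (i + 2)) * QuotientGroup.mk g
            = QuotientGroup.mk g * QuotientGroup.mk (x⁻¹ * β x) := by
          intro g
          have h1 : ⁅x⁻¹ * β x, g⁆ ∈ (⊤ : Subgroup M).lowerCentralSeries (i + 2) :=
            commutator_mem_commutator hc (mem_top g)
          have h2 : (QuotientGroup.mk ⁅x⁻¹ * β x, g⁆ :
              M ⧸ (⊤ : Subgroup M).lowerCentralSeries (i + 2)) = 1 :=
            (QuotientGroup.eq_one_iff _).mpr h1
          rw [commutatorElement_def, QuotientGroup.mk_mul, QuotientGroup.mk_mul,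
            QuotientGroup.mk_mul, QuotientGroup.mk_inv, QuotientGroup.mk_inv] at h2
          have h3 := congrArg (fun t => t * ((QuotientGroup.mk g :
            M ⧸ (⊤ : Subgroup M).lowerCentralSeries (i + 2)) * QuotientGroup.mk (x⁻¹ * β x))) h2
          simp only [one_mul] at h3
          rw [← h3]; group
        have hXD : (QuotientGroup.mk x : M ⧸ (⊤ : Subgroup M).lowerCentralSeries (i + 2))
            * QuotientGroup.mk (m⁻¹ * β m) = QuotientGroup.mk (m⁻¹ * β m) * QuotientGroup.mk x := by
          have h1 : ⁅x, m⁻¹ * β m⁆ ∈ (⊤ : Subgroup M).lowerCentralSeries (i + 2) :=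
            lcs_comm_lcs_one_le i (commutator_mem_commutator hx hd)
          have h2 : (QuotientGroup.mk ⁅x, m⁻¹ * β m⁆ :
              M ⧸ (⊤ : Subgroup M).lowerCentralSeries (i + 2)) = 1 :=
            (QuotientGroup.eq_one_iff _).mpr h1
          rw [commutatorElement_def, QuotientGroup.mk_mul, QuotientGroup.mk_mul,
            QuotientGroup.mk_mul, QuotientGroup.mk_inv, QuotientGroup.mk_inv] at h2
          have h3 := congrArg (fun t => t * ((QuotientGroup.mk (m⁻¹ * β m) :
            M ⧸ (⊤ : Subgroup M).lowerCentralSeries (i + 2)) * QuotientGroup.mk x)) h2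
          simp only [one_mul] at h3
          rw [← h3]; group
        have ex : β x = x * (x⁻¹ * β x) := by group
        have em : β m = m * (m⁻¹ * β m) := by group
        rw [ex, em]
        generalize x⁻¹ * β x = c at hC
        generalize m⁻¹ * β m = d at hXD
        rw [commutatorElement_def, commutatorElement_def]
        simp only [QuotientGroup.mk_mul, QuotientGroup.mk_inv]
        have hC1 := hC (m * d)
        rw [QuotientGroup.mk_mul] at hC1
        generalize (QuotientGroup.mk x : M ⧸ (⊤ : Subgroup M).lowerCentralSeries (i + 2)) = X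
          at hXD hC1 ⊢
        generalize (QuotientGroup.mk c : M ⧸ (⊤ : Subgroup M).lowerCentralSeries (i + 2)) = C
          at hC1 ⊢
        generalize (QuotientGroup.mk m : M ⧸ (⊤ : Subgroup M).lowerCentralSeries (i + 2)) = Mm
          at hC1 ⊢
        generalize (QuotientGroup.mk d : M ⧸ (⊤ : Subgroup M).lowerCentralSeries (i + 2)) = D
          at hXD hC1 ⊢
        have h4 : C * (Mm * D) * C⁻¹ = Mm * D := by rw [hC1, mul_inv_cancel_right]
        have h5 : D * X⁻¹ * D⁻¹ = X⁻¹ := by
          have : D * X⁻¹ = X⁻¹ * D := by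
            have h6 : X⁻¹ * (X * D) * X⁻¹ = X⁻¹ * (D * X) * X⁻¹ := by rw [hXD]
            rw [show X⁻¹ * (X * D) * X⁻¹ = D * X⁻¹ by group,
              show X⁻¹ * (D * X) * X⁻¹ = X⁻¹ * D by group] at h6
            exact h6
          rw [this, mul_inv_cancel_right]
        calc X * Mm * X⁻¹ * Mm⁻¹ = X * Mm * (D * X⁻¹ * D⁻¹) * Mm⁻¹ := by rw [h5]
          _ = X * (Mm * D) * X⁻¹ * D⁻¹ * Mm⁻¹ := by group
          _ = X * (C * (Mm * D) * C⁻¹) * X⁻¹ * D⁻¹ * Mm⁻¹ := by rw [h4]
          _ = X * C * (Mm * D) * (X * C)⁻¹ * (Mm * D)⁻¹ := by group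
      | one => simp
      | mul a b _ _ ha hb =>
        have e : (a * b)⁻¹ * β (a * b) = b⁻¹ * (a⁻¹ * β a) * b⁻¹⁻¹ * (b⁻¹ * β b) := by
          rw [map_mul]; group
        rw [e]
        exact mul_mem (hN.conj_mem _ ha _) hb
      | inv a _ ha =>
        have e : (a⁻¹)⁻¹ * β a⁻¹ = a * (a⁻¹ * β a)⁻¹ * a⁻¹ := by
          rw [map_inv]; group
        rw [e]
        exact hN.conj_mem _ (inv_mem ha) _
  -- hence `β` fixes each term pointwise, by descending induction
  have hfix : ∀ (n i : ℕ), (⊤ : Subgroup M).lowerCentralSeries (i + n) = ⊥ →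
      ∀ x ∈ (⊤ : Subgroup M).lowerCentralSeries i, β x = x := by
    intro n
    induction n with
    | zero =>
      intro i hbot x hx
      rw [Nat.add_zero] at hbot
      rw [hbot, mem_bot] at hx
      rw [hx, map_one]
    | succ n ih =>
      intro i hbot x hx
      have hbot' : (⊤ : Subgroup M).lowerCentralSeries (i + 1 + n) = ⊥ := by
        rw [← hbot]; congr 1; omega
      have hr := hstep i x hx
      have hrfix : β (x⁻¹ * β x) = x⁻¹ * β x := ih (i + 1) hbot' _ hr
      have hpow : ∀ t : ℕ, (β ^ t) x = x * (x⁻¹ * β x) ^ t := by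
        intro t
        induction t with
        | zero => simp
        | succ t iht =>
          rw [pow_succ', MulAut.mul_apply, iht, map_mul, map_pow, hrfix, pow_succ', ← mul_assoc,
            mul_inv_cancel_left]
      have h1 := hpow k
      rw [hβk, MulAut.one_apply] at h1
      have h2 : (x⁻¹ * β x) ^ k = 1 := by
        have : x * (x⁻¹ * β x) ^ k = x * 1 := by rw [← h1, mul_one]
        exact mul_left_cancel this
      obtain ⟨e, he⟩ := hM (x⁻¹ * β x)
      have h3 : orderOf (x⁻¹ * β x) = 1 :=
        Nat.eq_one_of_dvd_coprimes (Nat.Coprime.pow_right e hk) (orderOf_dvd_of_pow_eq_one h2)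
          (orderOf_dvd_of_pow_eq_one he)
      have h4 : x⁻¹ * β x = 1 := orderOf_eq_one_iff.mp h3
      exact (inv_mul_eq_one.mp h4).symm
  have hnil : Group.IsNilpotent M := hM.isNilpotent
  obtain ⟨n, hn⟩ := Subgroup.nilpotent_iff_lowerCentralSeries.mp hnil
  ext x
  rw [MulAut.one_apply]
  exact hfix n 0 (by rw [Nat.zero_add]; exact hn) x (mem_top x)

end Abstract

end Cfsg.Agent.Helper48
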