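import Cfsg.Agent.Helper48.Burnside
import Cfsg.Agent.Helper48.CoprimeGen

set_option autoImplicit false

namespace Cfsg.Agent.Helper48

open Subgroup
open scoped commutatorElement

variable {G : Type*} [Group G]

theorem conj_mem_commutator_self {M : Subgroup G} {c y : G} (hc : c ∈ ⁅M, M⁆) (hy : y ∈ M) :
    y * c * y⁻¹ ∈ ⁅M, M⁆ := by
  have h1 : ⁅y, c⁆ ∈ ⁅M, M⁆ := commutator_mem_commutator hy (M.commutator_le_self hc)
  have e : y * c * y⁻¹ = ⁅y, c⁆ * c := by rw [commutatorElement_def]; group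
  rw [e]; exact mul_mem h1 hc

/-- Let `P` be a `p`-subgroup normalized by a `p`-subgroup `A` and by a `p'`-subgroup `B`
commuting with `A`. If `[P, B] ≤ [P, A]` then `B` centralizes `P`. -/
theorem commutator_eq_bot_of_commutator_le [Finite G] {p : ℕ} [Fact p.Prime] (P A B : Subgroup G)
    (hP : IsPGroup p P) (hA : IsPGroup p A) (hB : ¬ p ∣ Nat.card B)
    (hnA : A ≤ normalizer (P : Set G)) (hnB : B ≤ normalizer (P : Set G)) (hAB : ⁅A, B⁆ = ⊥)
    (hcomm : ⁅P, B⁆ ≤ ⁅P, A⁆) : ⁅P, B⁆ = ⊥ := by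
  have hp : p.Prime := Fact.out
  rw [commutator_eq_bot_iff_le_centralizer]
  intro x hx
  rw [mem_centralizer_iff]
  intro b hb
  have hMp : IsPGroup p (P ⊔ A : Subgroup G) := hP.to_sup_of_normal_left' hA hnA
  have hbA : ∀ a ∈ A, b * a = a * b := by
    intro a ha
    have h1 := (commutator_eq_bot_iff_le_centralizer.mp hAB) ha
    exact mem_centralizer_iff.mp h1 b hb
  have hbNA : b ∈ normalizer (A : Set G) := by
    rw [mem_normalizer_iff]
    intro y
    constructor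
    · intro hy
      have : b * y * b⁻¹ = y := by rw [hbA y hy, mul_inv_cancel_right]
      rw [this]; exact hy
    · intro hy
      have h2 := hbA _ hy
      have : y = b * y * b⁻¹ := by
        have h3 : b * (b * y * b⁻¹) * b⁻¹ = b * y * b⁻¹ := by rw [h2, mul_inv_cancel_right]
        have h4 : b * (b * y * b⁻¹) * b⁻¹ = b * y * b⁻¹ → b * y * b⁻¹ = y := by
          intro h
          have h5 : b⁻¹ * (b * (b * y * b⁻¹) * b⁻¹) * b = b⁻¹ * (b * y * b⁻¹) * b := by rw [h]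
          rw [show b⁻¹ * (b * (b * y * b⁻¹) * b⁻¹) * b = b * y * b⁻¹ by group,
            show b⁻¹ * (b * y * b⁻¹) * b = y by group] at h5
          exact h5
        exact (h4 h3).symm
      rw [this]; exact hy
  have hbM : b ∈ normalizer ((P ⊔ A : Subgroup G) : Set G) := by
    apply mem_normalizer_of_map_conj_eq
    rw [Subgroup.map_sup, map_conj_eq_of_mem_normalizer (hnB hb),
      map_conj_eq_of_mem_normalizer hbNA]
  have hk : (Nat.card B).Coprime p := ((Nat.Prime.coprime_iff_not_dvd hp).mpr hB).symm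
  have hβk : ((P ⊔ A).normalizerMonoidHom ⟨b, hbM⟩) ^ Nat.card B = 1 := by
    rw [← map_pow]
    have h1 : (⟨b, hb⟩ : B) ^ Nat.card B = 1 := pow_card_eq_one'
    have h2 : b ^ Nat.card B = 1 := congrArg Subtype.val h1
    have h3 : (⟨b, hbM⟩ : normalizer ((P ⊔ A : Subgroup G) : Set G)) ^ Nat.card B = 1 :=
      Subtype.ext h2
    rw [h3, map_one]
  -- the subgroup of elements moved by `b` within the commutator subgroup
  let S : Subgroup G :=
    { carrier := {y | y ∈ P ⊔ A ∧ y⁻¹ * (b * y * b⁻¹) ∈ ⁅P ⊔ A, P ⊔ A⁆}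
      one_mem' := ⟨one_mem _, by simp⟩
      mul_mem' := by
        rintro y₁ y₂ ⟨h1, h1'⟩ ⟨h2, h2'⟩
        refine ⟨mul_mem h1 h2, ?_⟩
        have e : (y₁ * y₂)⁻¹ * (b * (y₁ * y₂) * b⁻¹)
            = y₂⁻¹ * (y₁⁻¹ * (b * y₁ * b⁻¹)) * y₂⁻¹⁻¹ * (y₂⁻¹ * (b * y₂ * b⁻¹)) := by group
        rw [e]
        exact mul_mem (conj_mem_commutator_self h1' (inv_mem h2)) h2'
      inv_mem' := by
        rintro y ⟨h1, h1'⟩
        refine ⟨inv_mem h1, ?_⟩
        have e : y⁻¹⁻¹ * (b * y⁻¹ * b⁻¹) = y * (y⁻¹ * (b * y * b⁻¹))⁻¹ * y⁻¹ := by group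
        rw [e]
        exact conj_mem_commutator_self (inv_mem h1') h1 }
  have hS : P ⊔ A ≤ S := by
    apply sup_le
    · intro y hy
      refine ⟨mem_sup_left hy, ?_⟩
      have h1 : ⁅y⁻¹, b⁆ ∈ ⁅P, B⁆ := commutator_mem_commutator (inv_mem hy) hb
      have h2 : ⁅y⁻¹, b⁆ ∈ ⁅P ⊔ A, P ⊔ A⁆ := commutator_mono le_sup_left le_sup_right (hcomm h1)
      have e : y⁻¹ * (b * y * b⁻¹) = ⁅y⁻¹, b⁆ := by rw [commutatorElement_def]; group
      rw [e]; exact h2
    · intro y hy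
      refine ⟨mem_sup_right hy, ?_⟩
      have e : y⁻¹ * (b * y * b⁻¹) = 1 := by rw [hbA y hy]; group
      rw [e]; exact one_mem _
  have hβ : ∀ m : ↥(P ⊔ A), m⁻¹ * ((P ⊔ A).normalizerMonoidHom ⟨b, hbM⟩) m
      ∈ (⊤ : Subgroup ↥(P ⊔ A)).lowerCentralSeries 1 := by
    intro m
    have h1 : (m : G)⁻¹ * (b * (m : G) * b⁻¹) ∈ ⁅P ⊔ A, P ⊔ A⁆ := (hS m.2).2
    rw [top_lowerCentralSeries_one]
    rw [← (P ⊔ A).map_subtype_commutator] at h1
    obtain ⟨u, hu, hum⟩ := h1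
    have : u = m⁻¹ * ((P ⊔ A).normalizerMonoidHom ⟨b, hbM⟩) m := Subtype.ext hum
    rwa [← this]
  have hβ1 := mulAut_eq_one_of_coprime_of_trivial_mod_commutator hMp _ hk hβk hβ
  have h2 := congrArg (fun f : MulAut ↥(P ⊔ A) => ((f ⟨x, mem_sup_left hx⟩ : ↥(P ⊔ A)) : G)) hβ1
  have h3 : b * x * b⁻¹ = x := h2
  calc b * x = (b * x * b⁻¹) * b := by group
    _ = x * b := by rw [h3]

end Cfsg.Agent.Helper48
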