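import Mathlib
import Cfsg.Agent.Helper48.ES2Iso

/-!
# Double covers: splitting criteria and involutions (helper48)

* `mem_closure_two_invol`, `card_closure_two_invol` : the subgroup generated by two involutions.
* `exists_complement_of_transfer` : a complement to a centre of order two from a transfer argument.
* `alt_invol_conj` : the involutions of `A_n`, `n ≤ 7`, are conjugate.
* `dcover_split` : a double cover of a group with one class of involutions in which some involution
  lifts to an involution splits (under a Sylow 2-subgroup condition).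
* `dcover_second_invol` : a second involution in a double cover.
* `dcover_nonsplit` : the centre and non-splitting of a perfect-type double cover.
-/

set_option autoImplicit false

namespace Cfsg.Agent.Helper48

open Subgroup

section TwoInvol

variable {G : Type*} [Group G]

/-- Elements of the subgroup generated by two involutions. -/
theorem mem_closure_two_invol (a b : G) (ha : a * a = 1) (hb : b * b = 1) {g : G}
    (hg : g ∈ Subgroup.closure ({a, b} : Set G)) :
    ∃ i : ℤ, g = (a * b) ^ i ∨ g = (a * b) ^ i * a := by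
  have ha' : a⁻¹ = a := inv_eq_of_mul_eq_one_left ha
  have hb' : b⁻¹ = b := inv_eq_of_mul_eq_one_left hb
  have hconj : ∀ j : ℤ, a * (a * b) ^ j = (a * b) ^ (-j) * a := by
    intro j
    have h1 : a * (a * b) * a⁻¹ = (a * b)⁻¹ := by
      rw [mul_inv_rev, ha', hb', ← mul_assoc, ha, one_mul]
    have h2 := conj_zpow (i := j) (a := a) (b := a * b)
    rw [h1, inv_zpow, ← zpow_neg] at h2
    rw [h2, inv_mul_cancel_right]
  induction hg using Subgroup.closure_induction with
  | mem x hx =>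
    rcases hx with rfl | hx
    · exact ⟨0, Or.inr (by rw [zpow_zero, one_mul])⟩
    · rw [Set.mem_singleton_iff] at hx
      subst hx
      exact ⟨-1, Or.inr (by rw [zpow_neg_one, mul_inv_rev, inv_mul_cancel_right, hb'])⟩
  | one => exact ⟨0, Or.inl (by rw [zpow_zero])⟩
  | mul x y _ _ hx hy =>
    obtain ⟨i, hi | hi⟩ := hx <;> obtain ⟨j, hj | hj⟩ := hy
    · exact ⟨i + j, Or.inl (by rw [hi, hj, zpow_add])⟩
    · exact ⟨i + j, Or.inr (by rw [hi, hj, zpow_add, mul_assoc])⟩
    · exact ⟨i - j, Or.inr (by rw [hi, hj, mul_assoc, hconj, ← mul_assoc, ← zpow_add,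
        sub_eq_add_neg])⟩
    · exact ⟨i - j, Or.inl (by rw [hi, hj, mul_assoc, ← mul_assoc a, hconj, mul_assoc, ha,
        mul_one, ← zpow_add, sub_eq_add_neg])⟩
  | inv x _ hx =>
    obtain ⟨i, hi | hi⟩ := hx
    · exact ⟨-i, Or.inl (by rw [hi, zpow_neg])⟩
    · exact ⟨i, Or.inr (by rw [hi, mul_inv_rev, ha', ← zpow_neg, hconj, neg_neg])⟩

/-- The order of the subgroup generated by two involutions. -/
theorem card_closure_two_invol [Finite G] (a b : G) (ha : a * a = 1) (hb : b * b = 1)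
    (hab : ∀ i : ℤ, (a * b) ^ i ≠ a) :
    Nat.card (Subgroup.closure ({a, b} : Set G)) = 2 * orderOf (a * b) := by
  obtain ⟨D, hD⟩ : ∃ D : Subgroup G, D = Subgroup.closure ({a, b} : Set G) := ⟨_, rfl⟩
  rw [← hD]
  have haD : a ∈ D := by rw [hD]; exact Subgroup.subset_closure (Set.mem_insert _ _)
  have hbD : b ∈ D := by rw [hD]; exact Subgroup.subset_closure (Set.mem_insert_of_mem _ rfl)
  obtain ⟨C, hC⟩ : ∃ C : Subgroup G, C = Subgroup.zpowers (a * b) := ⟨_, rfl⟩
  have hCD : C ≤ D := by rw [hC, Subgroup.zpowers_le]; exact D.mul_mem haD hbD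
  have hCmem : ∀ i : ℤ, (a * b) ^ i ∈ C := by
    intro i; rw [hC]; exact Subgroup.zpow_mem_zpowers _ i
  have haC : a ∉ C := by
    rw [hC]
    intro h
    obtain ⟨i, hi⟩ := Subgroup.mem_zpowers_iff.mp h
    exact hab i hi
  have hidx : (C.subgroupOf D).index = 2 := by
    rw [Subgroup.index_eq_two_iff]
    refine ⟨⟨a, haD⟩, fun d => ?_⟩
    obtain ⟨i, hi | hi⟩ := mem_closure_two_invol a b ha hb (by rw [← hD]; exact d.2)
    · refine Or.inr ⟨?_, ?_⟩
      · rw [Subgroup.mem_subgroupOf, hi]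
        exact hCmem i
      · rw [Subgroup.mem_subgroupOf]
        intro h
        apply haC
        have h3 : ((d * ⟨a, haD⟩ : D) : G) = (a * b) ^ i * a := by
          rw [Subgroup.coe_mul, hi]
        rw [h3] at h
        have h4 := C.mul_mem (C.inv_mem (hCmem i)) h
        rwa [inv_mul_cancel_left] at h4
    · refine Or.inl ⟨?_, ?_⟩
      · rw [Subgroup.mem_subgroupOf]
        have h3 : ((d * ⟨a, haD⟩ : D) : G) = (a * b) ^ i := by
          rw [Subgroup.coe_mul, hi, mul_assoc]
          show (a * b) ^ i * (a * a) = (a * b) ^ i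
          rw [ha, mul_one]
        rw [h3]
        exact hCmem i
      · rw [Subgroup.mem_subgroupOf, hi]
        intro h
        apply haC
        have h4 := C.mul_mem (C.inv_mem (hCmem i)) h
        rwa [inv_mul_cancel_left] at h4
  have h1 := Subgroup.card_mul_index (C.subgroupOf D)
  rw [hidx, Nat.card_congr (Subgroup.subgroupOfEquivOfLe hCD).toEquiv, hC, Nat.card_zpowers] at h1
  rw [← h1, mul_comm]

end TwoInvol

section Transfer

/-- A complement to a centre of order two, by transfer into a subgroup of odd index. -/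
theorem exists_complement_of_transfer {H : Type*} [Group H] [Finite H]
    (h2 : Nat.card (center H) = 2) (z : H) (hz : z ∈ center H) (hzz : z * z = 1)
    (hzall : ∀ c ∈ center H, c = 1 ∨ c = z) (P D : Subgroup H) (hzP : z ∈ P)
    (hodd : Odd P.index) (hzD : z ∉ D) (hPD : ∀ p ∈ P, p ∈ D ∨ p * z ∈ D) :
    ∃ K : Subgroup H, (center H).IsComplement' K := by
  classical
  have hzc : ∀ g : H, g * z = z * g := Subgroup.mem_center_iff.mp hz
  have h11 : (1 : Multiplicative (ZMod 2)) = Multiplicative.ofAdd 1 * Multiplicative.ofAdd 1 := by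
    decide
  have hcases : ∀ w : Multiplicative (ZMod 2), w = 1 ∨ w = Multiplicative.ofAdd 1 := by decide
  have hne : (Multiplicative.ofAdd 1 : Multiplicative (ZMod 2)) ≠ 1 := by decide
  obtain ⟨ϕ, hϕ⟩ : ∃ ϕ : P →* Multiplicative (ZMod 2),
      ∀ p : P, ϕ p = if (p : H) ∈ D then 1 else Multiplicative.ofAdd 1 := by
    refine ⟨MonoidHom.mk' (fun p => if (p : H) ∈ D then 1 else Multiplicative.ofAdd 1) ?_,
      fun _ => rfl⟩
    intro p q
    by_cases hp : (p : H) ∈ D <;> by_cases hq : (q : H) ∈ D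
    · have h3 : ((p * q : P) : H) ∈ D := D.mul_mem hp hq
      simp only [hp, hq, h3, if_true, mul_one]
    · have h3 : ((p * q : P) : H) ∉ D := by
        intro h
        apply hq
        have h4 := D.mul_mem (D.inv_mem hp) h
        rwa [Subgroup.coe_mul, inv_mul_cancel_left] at h4
      simp only [hp, hq, h3, if_true, if_false, one_mul]
    · have h3 : ((p * q : P) : H) ∉ D := by
        intro h
        apply hp
        have h4 := D.mul_mem h (D.inv_mem hq)
        rwa [Subgroup.coe_mul, mul_inv_cancel_right] at h4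
      simp only [hp, hq, h3, if_true, if_false, mul_one]
    · have hp' := (hPD p p.2).resolve_left hp
      have hq' := (hPD q q.2).resolve_left hq
      have h3 : ((p * q : P) : H) ∈ D := by
        have h4 := D.mul_mem hp' hq'
        have h5 : (p : H) * z * ((q : H) * z) = (p : H) * (q : H) := by
          calc (p : H) * z * ((q : H) * z) = (p : H) * (z * (q : H)) * z := by
                simp only [mul_assoc]
            _ = (p : H) * ((q : H) * z) * z := by rw [← hzc (q : H)]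
            _ = (p : H) * (q : H) * (z * z) := by simp only [mul_assoc]
            _ = (p : H) * (q : H) := by rw [hzz, mul_one]
        rw [h5] at h4
        exact h4
      simp only [hp, hq, h3, if_true, if_false]
      exact h11
  have hϕz : ϕ ⟨z, hzP⟩ = Multiplicative.ofAdd 1 := by
    rw [hϕ]
    exact if_neg hzD
  have hpow : z ^ P.index = z := by
    obtain ⟨k, hk⟩ := hodd
    rw [hk, pow_succ, pow_mul, pow_two, hzz, one_pow, one_mul]
  have hlam : MonoidHom.transfer ϕ z = Multiplicative.ofAdd 1 := by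
    rw [MonoidHom.transfer_eq_pow ϕ z (fun k g₀ _ => by
      have h3 := Subgroup.mem_center_iff.mp ((center H).pow_mem hz k) g₀
      rw [mul_assoc, ← h3, inv_mul_cancel_left])]
    rw [← hϕz]
    congr 1
    exact Subtype.ext hpow
  obtain ⟨K, hK⟩ : ∃ K : Subgroup H, K = (MonoidHom.transfer ϕ).ker := ⟨_, rfl⟩
  have hzK : z ∉ K := by
    rw [hK, MonoidHom.mem_ker, hlam]
    exact hne
  have hsurj : Function.Surjective (MonoidHom.transfer ϕ) := by
    intro w
    rcases hcases w with h | h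
    · exact ⟨1, by rw [map_one, h]⟩
    · exact ⟨z, by rw [hlam, h]⟩
  have hcardK : Nat.card K * 2 = Nat.card H := by
    have h3 := Subgroup.card_mul_index K
    rw [hK, Subgroup.index_ker, MonoidHom.range_eq_top.mpr hsurj, Subgroup.card_top] at h3
    have h4 : Nat.card (Multiplicative (ZMod 2)) = 2 := by
      rw [Nat.card_eq_fintype_card]
      rfl
    rw [h4] at h3
    rw [hK]
    exact h3
  refine ⟨K, Subgroup.isComplement'_of_card_mul_and_disjoint ?_ ?_⟩
  · rw [h2, mul_comm]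
    exact hcardK
  · rw [Subgroup.disjoint_def]
    intro c hc hcK
    rcases hzall c hc with h | h
    · exact h
    · rw [h] at hcK
      exact absurd hcK hzK

end Transfer

section Alt

/-- The involutions of the alternating group of degree at most `7` are conjugate. -/
theorem alt_invol_conj (n : ℕ) (hn : n ≤ 7) (u v : alternatingGroup (Fin n)) (hu : u ≠ 1)
    (hu2 : u * u = 1) (hv : v ≠ 1) (hv2 : v * v = 1) :
    ∃ g : alternatingGroup (Fin n), g * u * g⁻¹ = v := by
  have key : ∀ w : alternatingGroup (Fin n), w ≠ 1 → w * w = 1 →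
      (w : Equiv.Perm (Fin n)).cycleType = Multiset.replicate 2 2 := by
    intro w hw hw2
    have hw1 : (w : Equiv.Perm (Fin n)) ≠ 1 := fun h => hw (Subtype.ext h)
    have hw2' : (w : Equiv.Perm (Fin n)) ^ 2 = 1 := by
      rw [pow_two]
      exact congrArg Subtype.val hw2
    have hord : orderOf (w : Equiv.Perm (Fin n)) = 2 := orderOf_eq_prime hw2' hw1
    obtain ⟨k, hk⟩ := Equiv.Perm.cycleType_prime_order (σ := (w : Equiv.Perm (Fin n)))
      (by rw [hord]; exact Nat.prime_two)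
    rw [hord] at hk
    have hsign : Equiv.Perm.sign (w : Equiv.Perm (Fin n)) = 1 :=
      Equiv.Perm.mem_alternatingGroup.mp w.2
    rw [Equiv.Perm.sign_of_cycleType, hk, Multiset.sum_replicate, Multiset.card_replicate,
      smul_eq_mul] at hsign
    have hsum : (w : Equiv.Perm (Fin n)).cycleType.sum ≤ n := by
      rw [Equiv.Perm.sum_cycleType]
      exact (Finset.card_le_univ _).trans (by rw [Fintype.card_fin])
    rw [hk, Multiset.sum_replicate, smul_eq_mul] at hsum
    have hk' : k ≤ 2 := by omega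
    have hk2 : k = 1 := by
      interval_cases k
      · exfalso
        revert hsign
        decide
      · rfl
      · exfalso
        revert hsign
        decide
    rw [hk, hk2]
  have hc := (Equiv.Perm.isConj_iff_cycleType_eq).mpr ((key u hu hu2).trans (key v hv hv2).symm)
  obtain ⟨ρ, hρ⟩ := isConj_iff.mp hc
  by_cases hs : Equiv.Perm.sign ρ = 1
  · exact ⟨⟨ρ, Equiv.Perm.mem_alternatingGroup.mpr hs⟩, Subtype.ext hρ⟩
  · have hu1 : (u : Equiv.Perm (Fin n)) ≠ 1 := fun h => hu (Subtype.ext h)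
    obtain ⟨x, hx⟩ : ∃ x, (u : Equiv.Perm (Fin n)) x ≠ x := by
      by_contra hcon
      push Not at hcon
      exact hu1 (Equiv.ext hcon)
    obtain ⟨θ, hθ⟩ : ∃ θ : Equiv.Perm (Fin n),
        θ = Equiv.swap x ((u : Equiv.Perm (Fin n)) x) := ⟨_, rfl⟩
    have huu : (u : Equiv.Perm (Fin n)) ((u : Equiv.Perm (Fin n)) x) = x := by
      have h3 : ((u * u : alternatingGroup (Fin n)) : Equiv.Perm (Fin n)) x = x := by
        rw [hu2]
        rfl
      exact h3
    have hcomm : (u : Equiv.Perm (Fin n)) * θ * (u : Equiv.Perm (Fin n))⁻¹ = θ := by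
      rw [hθ, ← Equiv.swap_apply_apply, huu, Equiv.swap_comm]
    have hcomm' : θ * (u : Equiv.Perm (Fin n)) * θ⁻¹ = (u : Equiv.Perm (Fin n)) := by
      have h3 : (u : Equiv.Perm (Fin n)) * θ = θ * (u : Equiv.Perm (Fin n)) :=
        mul_inv_eq_iff_eq_mul.mp hcomm
      rw [← h3, mul_inv_cancel_right]
    have hsθ : Equiv.Perm.sign θ = -1 := by
      rw [hθ]
      exact Equiv.Perm.sign_swap (Ne.symm hx)
    have hs' : Equiv.Perm.sign ρ = -1 := (Int.units_eq_one_or _).resolve_left hs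
    refine ⟨⟨ρ * θ, Equiv.Perm.mem_alternatingGroup.mpr (by rw [map_mul, hs', hsθ]; rfl)⟩,
      Subtype.ext ?_⟩
    show ρ * θ * (u : Equiv.Perm (Fin n)) * (ρ * θ)⁻¹ = (v : Equiv.Perm (Fin n))
    rw [← hρ, mul_inv_rev]
    calc ρ * θ * (u : Equiv.Perm (Fin n)) * (θ⁻¹ * ρ⁻¹)
        = ρ * (θ * (u : Equiv.Perm (Fin n)) * θ⁻¹) * ρ⁻¹ := by simp only [mul_assoc]
      _ = ρ * (u : Equiv.Perm (Fin n)) * ρ⁻¹ := by rw [hcomm']

end Alt

section Split

/-- A double cover in which some non-central involution exists splits, when the quotient has a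
single class of involutions and a Sylow 2-subgroup generated by two involutions. -/
theorem dcover_split {H : Type*} [Group H] [Finite H] {A : Type*} [Group A] [Finite A]
    (π : H →* A) (hπ : Function.Surjective π) (hker : π.ker = center H)
    (h2 : Nat.card (center H) = 2)
    (hconj : ∀ u v : A, u ≠ 1 → u * u = 1 → v ≠ 1 → v * v = 1 → ∃ g : A, g * u * g⁻¹ = v)
    (t : H) (ht : t * t = 1) (htZ : t ∉ center H) (a b : A) (ha : a * a = 1) (hb : b * b = 1)
    (hord : Even (orderOf (a * b))) (hab : ∀ i : ℤ, (a * b) ^ i ≠ a)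
    (hodd : ∀ k, k * (2 * orderOf (a * b)) = Nat.card A → Odd k) :
    ∃ K : Subgroup H, (center H).IsComplement' K := by
  obtain ⟨z, hz, hz1, hzz, hzall⟩ := es2_exists_z h2
  have hzc : ∀ g : H, g * z = z * g := Subgroup.mem_center_iff.mp hz
  have hπZ : ∀ g : H, π g = 1 ↔ g ∈ center H := by
    intro g
    rw [← hker, MonoidHom.mem_ker]
  have hπz : π z = 1 := (hπZ z).mpr hz
  have hπt : π t ≠ 1 := fun h => htZ ((hπZ t).mp h)
  have hπt2 : π t * π t = 1 := by rw [← map_mul, ht, map_one]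
  -- lifts of involutions are involutions
  have hsq : ∀ u : H, π u * π u = 1 → u * u = 1 := by
    intro u hu
    by_cases hu1 : π u = 1
    · rcases hzall u ((hπZ u).mp hu1) with h | h
      · rw [h, one_mul]
      · rw [h, hzz]
    · obtain ⟨gbar, hg⟩ := hconj (π t) (π u) hπt hπt2 hu1 hu
      obtain ⟨g, rfl⟩ := hπ gbar
      have h3 : π ((g * t * g⁻¹)⁻¹ * u) = 1 := by
        rw [map_mul, map_inv, map_mul, map_mul, map_inv, hg, inv_mul_cancel]
      obtain ⟨ζ, hζ⟩ : ∃ ζ : H, ζ = (g * t * g⁻¹)⁻¹ * u := ⟨_, rfl⟩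
      have hζZ : ζ ∈ center H := by rw [hζ]; exact (hπZ _).mp h3
      have hζc : ∀ w : H, w * ζ = ζ * w := Subgroup.mem_center_iff.mp hζZ
      have hζ2 : ζ * ζ = 1 := by
        rcases hzall ζ hζZ with h | h
        · rw [h, one_mul]
        · rw [h, hzz]
      have hu' : u = g * t * g⁻¹ * ζ := by rw [hζ, mul_inv_cancel_left]
      rw [hu']
      calc g * t * g⁻¹ * ζ * (g * t * g⁻¹ * ζ)
          = g * t * g⁻¹ * (ζ * (g * t * g⁻¹)) * ζ := by simp only [mul_assoc]
        _ = g * t * g⁻¹ * ((g * t * g⁻¹) * ζ) * ζ := by rw [← hζc (g * t * g⁻¹)]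
        _ = g * (t * t) * g⁻¹ * (ζ * ζ) := by group
        _ = 1 := by rw [ht, hζ2, mul_one, mul_one, mul_inv_cancel]
  obtain ⟨a₀, rfl⟩ := hπ a
  obtain ⟨b₀, rfl⟩ := hπ b
  have ha₀ : a₀ * a₀ = 1 := hsq a₀ ha
  have hb₀ : b₀ * b₀ = 1 := hsq b₀ hb
  obtain ⟨D, hD⟩ : ∃ D : Subgroup H, D = Subgroup.closure ({a₀, b₀} : Set H) := ⟨_, rfl⟩
  obtain ⟨S, hS⟩ : ∃ S : Subgroup A, S = Subgroup.closure ({π a₀, π b₀} : Set A) := ⟨_, rfl⟩
  have hmap : D.map π = S := by
    rw [hD, hS, MonoidHom.map_closure, Set.image_pair]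
  -- `z ∉ D`
  have hzD : z ∉ D := by
    intro h
    rw [hD] at h
    obtain ⟨i, hi | hi⟩ := mem_closure_two_invol a₀ b₀ ha₀ hb₀ h
    · have h3 : (π a₀ * π b₀) ^ i = 1 := by
        rw [← map_mul, ← map_zpow, ← hi, hπz]
      have h4 : (orderOf (π a₀ * π b₀) : ℤ) ∣ i := orderOf_dvd_iff_zpow_eq_one.mpr h3
      have h5 : (2 : ℤ) ∣ i := by
        obtain ⟨r, hr⟩ := hord
        have h6 : (2 : ℤ) ∣ (orderOf (π a₀ * π b₀) : ℤ) := by
          rw [hr]
          exact ⟨r, by push_cast; ring⟩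
        exact h6.trans h4
      obtain ⟨j, hj⟩ := h5
      have h7 : (a₀ * b₀) ^ j * (a₀ * b₀) ^ j = 1 := by
        apply hsq
        rw [map_zpow, map_mul, ← zpow_add, ← two_mul, ← hj, h3]
      apply hz1
      rw [hi, hj, two_mul, zpow_add, h7]
    · have h3 : (π a₀ * π b₀) ^ (-i) = π a₀ := by
        have h4 : π z = (π a₀ * π b₀) ^ i * π a₀ := by
          rw [← map_mul, ← map_zpow, ← map_mul, ← hi]
        rw [hπz] at h4
        rw [zpow_neg]
        exact (eq_inv_of_mul_eq_one_right h4.symm).symm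
      exact hab (-i) h3
  obtain ⟨P, hP⟩ : ∃ P : Subgroup H, P = S.comap π := ⟨_, rfl⟩
  have hzP : z ∈ P := by
    rw [hP, Subgroup.mem_comap, hπz]
    exact S.one_mem
  have hPD : ∀ p ∈ P, p ∈ D ∨ p * z ∈ D := by
    intro p hp
    rw [hP, Subgroup.mem_comap, ← hmap] at hp
    obtain ⟨d, hd, hdp⟩ := hp
    have h3 : π (d⁻¹ * p) = 1 := by rw [map_mul, map_inv, hdp, inv_mul_cancel]
    rcases hzall _ ((hπZ _).mp h3) with h | h
    · left
      have : p = d := by
        have := inv_mul_eq_one.mp h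
        exact this.symm
      rw [this]
      exact hd
    · right
      have h4 : p = d * z := by rw [← h, mul_inv_cancel_left]
      rw [h4, mul_assoc, hzz, mul_one]
      exact hd
  have hodd' : Odd P.index := by
    rw [hP, Subgroup.index_comap_of_surjective S hπ]
    apply hodd
    have h3 := Subgroup.index_mul_card S
    rw [hS, card_closure_two_invol (π a₀) (π b₀) ha hb hab] at h3
    rw [hS]
    exact h3
  exact exists_complement_of_transfer h2 z hz hzz hzall P D hzP hodd' hzD hPD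

end Split

section Second

/-- A second involution in a double cover. -/
theorem dcover_second_invol {Γ : Type*} [Group Γ] {A : Type*} [Group A] (π : Γ →* A)
    (hπ : Function.Surjective π) (z : Γ) (hzc : z ∈ center Γ) (hzz : z * z = 1) (hπz : π z = 1)
    (hker : ∀ g : Γ, π g = 1 → g = 1 ∨ g = z) (a h g : A) (ha : a * a = 1)
    (hha : h * a = a * h) (hg : g * a * g⁻¹ = h * h) (hne : a * (h * h) ≠ 1) :
    ∃ x : Γ, x * x = 1 ∧ x ≠ 1 ∧ x ≠ z := by
  have hcen : ∀ ζ : Γ, π ζ = 1 → (∀ w : Γ, w * ζ = ζ * w) ∧ ζ * ζ = 1 := by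
    intro ζ hζ
    rcases hker ζ hζ with h | h
    · rw [h]
      exact ⟨fun w => by rw [mul_one, one_mul], by rw [one_mul]⟩
    · rw [h]
      exact ⟨Subgroup.mem_center_iff.mp hzc, hzz⟩
  obtain ⟨a₀, rfl⟩ := hπ a
  obtain ⟨h₀, rfl⟩ := hπ h
  obtain ⟨g₀, rfl⟩ := hπ g
  -- `h₀ * a₀ = a₀ * h₀ * ε`
  obtain ⟨ε, hε⟩ : ∃ ε : Γ, ε = (a₀ * h₀)⁻¹ * (h₀ * a₀) := ⟨_, rfl⟩
  have hε1 : π ε = 1 := by
    rw [hε, map_mul, map_inv, map_mul, map_mul, hha, inv_mul_cancel]
  obtain ⟨hεc, hε2⟩ := hcen ε hε1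
  have hcomm : h₀ * a₀ = a₀ * h₀ * ε := by rw [hε, mul_inv_cancel_left]
  have hbcomm : h₀ * h₀ * a₀ = a₀ * (h₀ * h₀) := by
    calc h₀ * h₀ * a₀ = h₀ * (h₀ * a₀) := by rw [mul_assoc]
      _ = h₀ * (a₀ * h₀ * ε) := by rw [hcomm]
      _ = (h₀ * a₀) * h₀ * ε := by simp only [mul_assoc]
      _ = (a₀ * h₀ * ε) * h₀ * ε := by rw [hcomm]
      _ = a₀ * h₀ * (ε * h₀) * ε := by simp only [mul_assoc]
      _ = a₀ * h₀ * (h₀ * ε) * ε := by rw [← hεc h₀]
      _ = a₀ * (h₀ * h₀) * (ε * ε) := by simp only [mul_assoc]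
      _ = a₀ * (h₀ * h₀) := by rw [hε2, mul_one]
  -- squares
  obtain ⟨ζ, hζ⟩ : ∃ ζ : Γ, ζ = a₀ * a₀ := ⟨_, rfl⟩
  have hζ1 : π ζ = 1 := by rw [hζ, map_mul, ha]
  obtain ⟨hζc, hζ2⟩ := hcen ζ hζ1
  obtain ⟨ξ, hξ⟩ : ∃ ξ : Γ, ξ = (g₀ * a₀ * g₀⁻¹)⁻¹ * (h₀ * h₀) := ⟨_, rfl⟩
  have hξ1 : π ξ = 1 := by
    rw [hξ, map_mul, map_inv, map_mul, map_mul, map_inv, hg, map_mul, inv_mul_cancel]
  obtain ⟨hξc, hξ2⟩ := hcen ξ hξ1
  have hb : h₀ * h₀ = g₀ * a₀ * g₀⁻¹ * ξ := by rw [hξ, mul_inv_cancel_left]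
  have hb2 : h₀ * h₀ * (h₀ * h₀) = ζ := by
    rw [hb]
    calc g₀ * a₀ * g₀⁻¹ * ξ * (g₀ * a₀ * g₀⁻¹ * ξ)
        = g₀ * a₀ * g₀⁻¹ * (ξ * (g₀ * a₀ * g₀⁻¹)) * ξ := by simp only [mul_assoc]
      _ = g₀ * a₀ * g₀⁻¹ * ((g₀ * a₀ * g₀⁻¹) * ξ) * ξ := by rw [← hξc (g₀ * a₀ * g₀⁻¹)]
      _ = g₀ * (a₀ * a₀) * g₀⁻¹ * (ξ * ξ) := by group
      _ = g₀ * ζ * g₀⁻¹ := by rw [hξ2, mul_one, hζ]
      _ = ζ := by rw [hζc, mul_inv_cancel_right]
  refine ⟨a₀ * (h₀ * h₀), ?_, ?_, ?_⟩
  · calc a₀ * (h₀ * h₀) * (a₀ * (h₀ * h₀)) = a₀ * (h₀ * h₀ * a₀) * (h₀ * h₀) := by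
          simp only [mul_assoc]
      _ = a₀ * (a₀ * (h₀ * h₀)) * (h₀ * h₀) := by rw [hbcomm]
      _ = (a₀ * a₀) * (h₀ * h₀ * (h₀ * h₀)) := by simp only [mul_assoc]
      _ = 1 := by rw [hb2, ← hζ, hζ2]
  · intro hx
    apply hne
    rw [← map_mul, ← map_mul, hx, map_one]
  · intro hx
    apply hne
    rw [← map_mul, ← map_mul, hx, hπz]

end Second

section Nonsplit

/-- The centre of a double cover of a centreless group, and non-splitting when the central
involution is a product of commutators. -/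
theorem dcover_nonsplit {Γ : Type*} [Group Γ] {A : Type*} [Group A] (hA : center A = ⊥)
    (z : Γ) (hz : z ∈ center Γ) (hzo : orderOf z = 2) (hzc : z ∈ commutator Γ)
    [hN : (Subgroup.zpowers z).Normal] (e : Γ ⧸ Subgroup.zpowers z ≃* A) :
    center Γ = Subgroup.zpowers z ∧ Nat.card (center Γ) = 2 ∧
      ∀ L : Subgroup Γ, ¬ (center Γ).IsComplement' L := by
  have hcen : center Γ = Subgroup.zpowers z := by
    apply le_antisymm
    · intro g hg
      have h1 : e (QuotientGroup.mk g) ∈ center A := by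
        rw [Subgroup.mem_center_iff]
        intro w
        obtain ⟨q, rfl⟩ := e.surjective w
        obtain ⟨y, rfl⟩ := QuotientGroup.mk_surjective q
        rw [← map_mul, ← map_mul, ← QuotientGroup.mk_mul, ← QuotientGroup.mk_mul,
          Subgroup.mem_center_iff.mp hg y]
      rw [hA, Subgroup.mem_bot] at h1
      have h3 : (QuotientGroup.mk g : Γ ⧸ Subgroup.zpowers z) = 1 := by
        apply e.injective
        rw [h1, map_one]
      exact (QuotientGroup.eq_one_iff g).mp h3
    · exact Subgroup.zpowers_le.mpr hz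
  have hcard : Nat.card (center Γ) = 2 := by rw [hcen, Nat.card_zpowers, hzo]
  refine ⟨hcen, hcard, ?_⟩
  intro L hL
  have hidx : L.index = 2 := by rw [hL.index_eq_card, hcard]
  have hcomm : commutator Γ ≤ L := by
    rw [commutator_def, Subgroup.commutator_le]
    intro g₁ _ g₂ _
    rw [commutatorElement_def, Subgroup.mul_mem_iff_of_index_two hidx,
      Subgroup.mul_mem_iff_of_index_two hidx, Subgroup.mul_mem_iff_of_index_two hidx,
      Subgroup.inv_mem_iff, Subgroup.inv_mem_iff]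
    tauto
  have hzL : z ∈ L := hcomm hzc
  have h1 : z = 1 := Subgroup.disjoint_def.mp hL.disjoint hz hzL
  rw [h1, orderOf_one] at hzo
  norm_num at hzo

end Nonsplit

end Cfsg.Agent.Helper48
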