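import Mathlib
import Cfsg.Prelude.Def_SporadicB
import Cfsg.Agent.Helper48.DCoverA

/-!
# Double covers of small alternating groups (helper48)

* `card_alt_fin_odd` : `A_n` has odd order for `n ≤ 3`.
* `alt_split_data` : two involutions generating a Sylow 2-subgroup of `A_n`, `4 ≤ n ≤ 7`.
* `alt8_data` : elements of `A_8` producing a non-central involution in its double cover.
* `dcover_alt_no_invol` : in a non-split double cover of `A_n`, `n ≤ 7`, every involution is
  central.
-/

set_option autoImplicit false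

namespace Cfsg.Agent.Helper48

open Subgroup

theorem dcover_zpow_two {G : Type*} [Group G] (c : G) (hc : c * c = 1) (k : ℤ) :
    c ^ k = 1 ∨ c ^ k = c := by
  rcases Int.even_or_odd' k with ⟨t, rfl | rfl⟩
  · left; rw [zpow_mul, zpow_two, hc, one_zpow]
  · right; rw [zpow_add, zpow_mul, zpow_two, hc, one_zpow, one_mul, zpow_one]

theorem two_mul_card_alt_fin (n : ℕ) (hn : 2 ≤ n) :
    2 * Nat.card (alternatingGroup (Fin n)) = n.factorial := by
  have : Nontrivial (Fin n) := Fin.nontrivial_iff_two_le.mpr hn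
  rw [two_mul_nat_card_alternatingGroup, Nat.card_perm, Nat.card_fin]

theorem card_alt_fin_odd (n : ℕ) (hn : n ≤ 3) : Odd (Nat.card (alternatingGroup (Fin n))) := by
  by_cases h2 : 2 ≤ n
  · have h := two_mul_card_alt_fin n h2
    obtain ⟨c, hc⟩ : ∃ c, c = Nat.card (alternatingGroup (Fin n)) := ⟨_, rfl⟩
    rw [← hc] at h ⊢
    interval_cases n
    · have h' : Nat.factorial 2 = 2 := rfl
      rw [h'] at h
      have : c = 1 := by omega
      subst this
      exact odd_one
    · have h' : Nat.factorial 3 = 6 := rfl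
      rw [h'] at h
      have : c = 3 := by omega
      subst this
      exact ⟨1, rfl⟩
  · have : Subsingleton (Fin n) := Fin.subsingleton_iff_le_one.mpr (by omega)
    rw [Nat.card_unique]
    exact odd_one

/-- Klein four-group data. -/
theorem alt_split_klein (n : ℕ) (a b : Equiv.Perm (Fin n)) (ha : a ∈ alternatingGroup (Fin n))
    (hb : b ∈ alternatingGroup (Fin n)) (haa : a * a = 1) (hbb : b * b = 1)
    (hab2 : a * b * (a * b) = 1) (ha1 : a ≠ 1) (hb1 : b ≠ 1) (hab1 : a * b ≠ 1)
    (hcard : ∀ k, k * 4 = Nat.card (alternatingGroup (Fin n)) → Odd k) :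
    ∃ a b : alternatingGroup (Fin n), a * a = 1 ∧ b * b = 1 ∧ Even (orderOf (a * b)) ∧
      (∀ i : ℤ, (a * b) ^ i ≠ a) ∧
      ∀ k, k * (2 * orderOf (a * b)) = Nat.card (alternatingGroup (Fin n)) → Odd k := by
  have hc2 : (⟨a, ha⟩ * ⟨b, hb⟩ : alternatingGroup (Fin n)) * (⟨a, ha⟩ * ⟨b, hb⟩) = 1 :=
    Subtype.ext hab2
  have hord : orderOf (⟨a, ha⟩ * ⟨b, hb⟩ : alternatingGroup (Fin n)) = 2 :=
    orderOf_eq_prime (by rw [pow_two]; exact hc2)
      (fun h => hab1 (congrArg Subtype.val h))
  refine ⟨⟨a, ha⟩, ⟨b, hb⟩, Subtype.ext haa, Subtype.ext hbb, ?_, ?_, ?_⟩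
  · rw [hord]
    exact even_two
  · intro i hi
    rcases dcover_zpow_two _ hc2 i with h | h
    · exact ha1 (congrArg Subtype.val (hi.symm.trans h))
    · rw [h] at hi
      have h3 : a * b = a := congrArg Subtype.val hi
      exact hb1 (mul_left_cancel (h3.trans (mul_one a).symm))
  · rw [hord]
    exact hcard

/-- Dihedral (order eight) data. -/
theorem alt_split_dih (n : ℕ) (a b : Equiv.Perm (Fin n)) (ha : a ∈ alternatingGroup (Fin n))
    (hb : b ∈ alternatingGroup (Fin n)) (haa : a * a = 1) (hbb : b * b = 1)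
    (hab2 : a * b * (a * b) ≠ 1) (hab4 : a * b * (a * b) * (a * b * (a * b)) = 1)
    (hcard : ∀ k, k * 8 = Nat.card (alternatingGroup (Fin n)) → Odd k) :
    ∃ a b : alternatingGroup (Fin n), a * a = 1 ∧ b * b = 1 ∧ Even (orderOf (a * b)) ∧
      (∀ i : ℤ, (a * b) ^ i ≠ a) ∧
      ∀ k, k * (2 * orderOf (a * b)) = Nat.card (alternatingGroup (Fin n)) → Odd k := by
  obtain ⟨c, hc⟩ : ∃ c : alternatingGroup (Fin n), c = ⟨a, ha⟩ * ⟨b, hb⟩ := ⟨_, rfl⟩
  have hc2 : ¬ c ^ 2 ^ 1 = 1 := by
    rw [pow_one, pow_two, hc]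
    exact fun h => hab2 (congrArg Subtype.val h)
  have hc4 : c ^ 2 ^ (1 + 1) = 1 := by
    rw [show 2 ^ (1 + 1) = 2 + 2 from rfl, pow_add, pow_two, hc]
    exact Subtype.ext hab4
  have hord : orderOf c = 2 ^ (1 + 1) := orderOf_eq_prime_pow hc2 hc4
  rw [hc] at hord
  refine ⟨⟨a, ha⟩, ⟨b, hb⟩, Subtype.ext haa, Subtype.ext hbb, ?_, ?_, ?_⟩
  · rw [hord]
    exact ⟨2, rfl⟩
  · intro i hi
    have h1 : Commute ((⟨a, ha⟩ * ⟨b, hb⟩ : alternatingGroup (Fin n)) ^ i) (⟨a, ha⟩ * ⟨b, hb⟩) :=
      Commute.zpow_self _ i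
    rw [hi] at h1
    have h2 : a * (a * b) = a * b * a := congrArg Subtype.val h1.eq
    have h3 : b = a * b * a := by rw [← h2, ← mul_assoc, haa, one_mul]
    apply hab2
    calc a * b * (a * b) = a * b * a * b := by rw [← mul_assoc]
      _ = b * b := by rw [← h3]
      _ = 1 := hbb
  · rw [hord]
    exact hcard

/-- Two involutions generating a Sylow 2-subgroup of `A_n`, `4 ≤ n ≤ 7`. -/
theorem alt_split_data (n : ℕ) (h4 : 4 ≤ n) (h7 : n ≤ 7) :
    ∃ a b : alternatingGroup (Fin n), a * a = 1 ∧ b * b = 1 ∧ Even (orderOf (a * b)) ∧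
      (∀ i : ℤ, (a * b) ^ i ≠ a) ∧
      ∀ k, k * (2 * orderOf (a * b)) = Nat.card (alternatingGroup (Fin n)) → Odd k := by
  have hcard := two_mul_card_alt_fin n (by omega)
  interval_cases n
  · refine alt_split_klein 4 (Equiv.swap 0 1 * Equiv.swap 2 3) (Equiv.swap 0 2 * Equiv.swap 1 3)
      (Equiv.Perm.mem_alternatingGroup.mpr (by decide))
      (Equiv.Perm.mem_alternatingGroup.mpr (by decide))
      (by decide) (by decide) (by decide) (by decide) (by decide) (by decide) ?_
    intro k hk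
    have h' : Nat.factorial 4 = 24 := rfl
    rw [h'] at hcard
    have : k = 3 := by omega
    subst this
    exact ⟨1, rfl⟩
  · refine alt_split_klein 5 (Equiv.swap 0 1 * Equiv.swap 2 3) (Equiv.swap 0 2 * Equiv.swap 1 3)
      (Equiv.Perm.mem_alternatingGroup.mpr (by decide))
      (Equiv.Perm.mem_alternatingGroup.mpr (by decide))
      (by decide) (by decide) (by decide) (by decide) (by decide) (by decide) ?_
    intro k hk
    have h' : Nat.factorial 5 = 120 := rfl
    rw [h'] at hcard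
    have : k = 15 := by omega
    subst this
    exact ⟨7, rfl⟩
  · refine alt_split_dih 6 (Equiv.swap 0 2 * Equiv.swap 4 5) (Equiv.swap 0 3 * Equiv.swap 1 2)
      (Equiv.Perm.mem_alternatingGroup.mpr (by decide))
      (Equiv.Perm.mem_alternatingGroup.mpr (by decide))
      (by decide) (by decide) (by decide) (by decide) ?_
    intro k hk
    have h' : Nat.factorial 6 = 720 := rfl
    rw [h'] at hcard
    have : k = 45 := by omega
    subst this
    exact ⟨22, rfl⟩
  · refine alt_split_dih 7 (Equiv.swap 0 2 * Equiv.swap 4 5) (Equiv.swap 0 3 * Equiv.swap 1 2)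
      (Equiv.Perm.mem_alternatingGroup.mpr (by decide))
      (Equiv.Perm.mem_alternatingGroup.mpr (by decide))
      (by decide) (by decide) (by decide) (by decide) ?_
    intro k hk
    have h' : Nat.factorial 7 = 5040 := rfl
    rw [h'] at hcard
    have : k = 315 := by omega
    subst this
    exact ⟨157, rfl⟩

/-- Packaging permutations as elements of the alternating group. -/
theorem alt8_data_aux (a h g : Equiv.Perm (Fin 8)) (ha : a ∈ alternatingGroup (Fin 8))
    (hh : h ∈ alternatingGroup (Fin 8)) (hg : g ∈ alternatingGroup (Fin 8)) (h1 : a * a = 1)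
    (h2 : h * a = a * h) (h3 : g * a = h * h * g) (h4 : a * (h * h) ≠ 1) :
    ∃ a h g : alternatingGroup (Fin 8),
      a * a = 1 ∧ h * a = a * h ∧ g * a * g⁻¹ = h * h ∧ a * (h * h) ≠ 1 :=
  ⟨⟨a, ha⟩, ⟨h, hh⟩, ⟨g, hg⟩, Subtype.ext h1, Subtype.ext h2,
    mul_inv_eq_iff_eq_mul.mpr (Subtype.ext h3), fun h' => h4 (congrArg Subtype.val h')⟩

/-- Elements of `A_8` producing a non-central involution in its double cover. -/
theorem alt8_data : ∃ a h g : alternatingGroup (Fin 8),
    a * a = 1 ∧ h * a = a * h ∧ g * a * g⁻¹ = h * h ∧ a * (h * h) ≠ 1 := by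
  have hh2 : (Equiv.swap 0 1 * (Equiv.swap 4 5 * Equiv.swap 5 6 * Equiv.swap 6 7) :
      Equiv.Perm (Fin 8)) * (Equiv.swap 0 1 * (Equiv.swap 4 5 * Equiv.swap 5 6 * Equiv.swap 6 7)) =
      Equiv.swap 4 6 * Equiv.swap 5 7 := by
    decide +kernel
  refine alt8_data_aux (Equiv.swap 0 1 * Equiv.swap 2 3)
    (Equiv.swap 0 1 * (Equiv.swap 4 5 * Equiv.swap 5 6 * Equiv.swap 6 7))
    (Equiv.swap 0 4 * Equiv.swap 1 6 * Equiv.swap 2 5 * Equiv.swap 3 7)
    (Equiv.Perm.mem_alternatingGroup.mpr (by decide +kernel))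
    (Equiv.Perm.mem_alternatingGroup.mpr (by decide +kernel))
    (Equiv.Perm.mem_alternatingGroup.mpr (by decide +kernel))
    (by decide +kernel) (by decide +kernel) ?_ ?_
  · rw [hh2]
    decide +kernel
  · rw [hh2]
    decide +kernel

/-- In a non-split double cover of `A_n`, `n ≤ 7`, every involution is central. -/
theorem dcover_alt_no_invol (n : ℕ) (hn : n ≤ 7) (H : Type*) [Group H] [Finite H]
    (hH : Cfsg.IsNonsplitDoubleCover H (alternatingGroup (Fin n))) (t : H) (ht : t * t = 1) :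
    t ∈ center H := by
  by_contra htZ
  obtain ⟨h2, ⟨e⟩, hns⟩ := hH
  by_cases h3 : n ≤ 3
  · have hodd := card_alt_fin_odd n h3
    have hidx : (center H).index = Nat.card (alternatingGroup (Fin n)) := by
      rw [Subgroup.index_eq_card]
      exact Nat.card_congr e.toEquiv
    have hcop : Nat.Coprime (Nat.card (center H)) (center H).index := by
      rw [h2, hidx]
      exact Nat.coprime_two_left.mpr hodd
    obtain ⟨K, hK⟩ := Subgroup.exists_right_complement'_of_coprime hcop
    exact hns K hK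
  · push Not at h3
    obtain ⟨a, b, ha, hb, hord, hab, hodd⟩ := alt_split_data n (by omega) hn
    have hsurj : Function.Surjective (e.toMonoidHom.comp (QuotientGroup.mk' (center H))) :=
      e.surjective.comp (QuotientGroup.mk'_surjective _)
    have hker : (e.toMonoidHom.comp (QuotientGroup.mk' (center H))).ker = center H := by
      ext g
      rw [MonoidHom.mem_ker, MonoidHom.comp_apply, MulEquiv.coe_toMonoidHom,
        MulEquiv.map_eq_one_iff, QuotientGroup.mk'_apply, QuotientGroup.eq_one_iff]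
    obtain ⟨K, hK⟩ := dcover_split (e.toMonoidHom.comp (QuotientGroup.mk' (center H))) hsurj hker
      h2 (alt_invol_conj n hn) t ht htZ a b ha hb hord hab hodd
    exact hns K hK

end Cfsg.Agent.Helper48
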