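import Mathlib
import Cfsg.Agent.Helper48.ES2Iso

/-!
# Classification of extraspecial 2-groups, part 2 (helper48)

`es2_iso`: two finite groups with central commutators and centre of order two, of the same order
`2 ^ (2 m + 1)` and of the same type (`ES2Plus`), are isomorphic.
-/

set_option autoImplicit false

universe u v

namespace Cfsg.Agent.Helper48

open Subgroup
open scoped Classical Pointwise

section ES2b

/-- In the closure of a set of pairwise commuting involutions every element squares to one. -/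
theorem sq_eq_one_of_mem_closure_of_comm {L : Type*} [Group L] (X : Set L)
    (hcomm : ∀ x ∈ X, ∀ y ∈ X, x * y = y * x) (hsq : ∀ x ∈ X, x ^ 2 = 1) {g : L}
    (hg : g ∈ closure X) : g ^ 2 = 1 := by
  have hcl : ∀ x ∈ closure X, ∀ y ∈ closure X, x * y = y * x := by
    have hle : closure X ≤ centralizer (closure X : Set L) := by
      rw [Subgroup.centralizer_closure]
      refine (Subgroup.closure_le_centralizer_centralizer X).trans ?_
      apply Subgroup.centralizer_le
      intro x hx
      rw [SetLike.mem_coe, Subgroup.mem_centralizer_iff]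
      intro y hy
      exact hcomm y hy x hx
    intro x hx y hy
    exact (Subgroup.mem_centralizer_iff.mp (hle hy) x hx)
  induction hg using Subgroup.closure_induction with
  | mem x hx => exact hsq x hx
  | one => exact one_pow 2
  | mul x y hx hy ihx ihy =>
    rw [(show Commute x y from hcl x hx y hy).mul_pow, ihx, ihy, one_mul]
  | inv x hx ih => rw [inv_pow, ih, inv_one]

variable {E : Type*} [Group E]

/-- Extending an elementary abelian subgroup of order `2 ^ m` by a commuting involution outside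
it gives plus type. -/
theorem es2Plus_of_extend (hc : ∀ x y : E, x * y * x⁻¹ * y⁻¹ ∈ center E)
    (h2 : Nat.card (center E) = 2) [Finite E] (m : ℕ) (hcard : Nat.card E = 2 ^ (2 * m + 1))
    (B : Subgroup E) (hB : ∀ b ∈ B, b ^ 2 = 1) (hBc : Nat.card B = 2 ^ m) (t : E)
    (ht : t * t = 1) (htB : t ∉ B) (hcomm : ∀ b ∈ B, t * b = b * t) : ES2Plus E m := by
  obtain ⟨S, hS⟩ : ∃ S : Subgroup E, S = closure ((B : Set E) ∪ {t}) := ⟨_, rfl⟩
  have hBS : B ≤ S := by
    rw [hS]; exact fun b hb => subset_closure (Or.inl hb)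
  have htS : t ∈ S := by
    rw [hS]; exact subset_closure (Or.inr rfl)
  have hSsq : ∀ a ∈ S, a ^ 2 = 1 := by
    intro a ha
    rw [hS] at ha
    refine sq_eq_one_of_mem_closure_of_comm _ ?_ ?_ ha
    · have hBcomm := isMulCommutative_of_sq_eq_one B hB
      rintro x (hx | hx) y (hy | hy)
      · exact congrArg Subtype.val (hBcomm.is_comm.comm ⟨x, hx⟩ ⟨y, hy⟩)
      · rw [Set.mem_singleton_iff] at hy
        subst hy
        exact (hcomm x hx).symm
      · rw [Set.mem_singleton_iff] at hx
        subst hx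
        exact hcomm y hy
      · rw [Set.mem_singleton_iff] at hx hy
        rw [hx, hy]
    · rintro x (hx | hx)
      · exact hB x hx
      · rw [Set.mem_singleton_iff] at hx
        rw [hx, pow_two, ht]
  have hle := card_le_of_sq_eq_one hc h2 m hcard S hSsq
  have hdvd : Nat.card B ∣ Nat.card S := Subgroup.card_dvd_of_le hBS
  have hne : Nat.card S ≠ Nat.card B := by
    intro h
    have := Subgroup.eq_of_le_of_card_ge hBS h.le
    exact htB (this ▸ htS)
  have hpos : 0 < Nat.card S := Nat.card_pos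
  refine ⟨S, hSsq, ?_⟩
  obtain ⟨k, hk⟩ := hdvd
  rw [hBc] at hk hne
  have h2m : 0 < 2 ^ m := by positivity
  have hk2 : 2 ≤ k := by
    rcases k with _ | _ | k
    · rw [hk] at hpos; simp at hpos
    · exact absurd (by simpa using hk) hne
    · omega
  have hk2' : k ≤ 2 := by
    by_contra hlt
    have : 2 ^ m * 3 ≤ 2 ^ m * k := Nat.mul_le_mul_left _ (by omega)
    rw [hk, pow_succ] at hle
    omega
  have hk' : k = 2 := le_antisymm hk2' hk2
  rw [hk, hk', pow_succ]

theorem exists_involution_pair (hc : ∀ x y : E, x * y * x⁻¹ * y⁻¹ ∈ center E)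
    (h2 : Nat.card (center E) = 2) (t : E) (ht : t * t = 1) (htz : t ∉ center E) :
    ∃ u : E, u * u = 1 ∧ t * u ≠ u * t := by
  obtain ⟨z, hz, hz1, hzz, hzall⟩ := es2_exists_z h2
  have hex : ∃ y : E, y * t ≠ t * y := by
    by_contra hcon
    push Not at hcon
    exact htz (Subgroup.mem_center_iff.mpr hcon)
  obtain ⟨y, hy⟩ := hex
  rcases es2_sq_or hc h2 hzall y with hyy | hyy
  · exact ⟨y, hyy, fun h => hy h.symm⟩
  · have hyt : y * t = t * y * z := by
      rcases es2_comm_or hc hz hzall y t with h | h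
      · exact absurd h hy
      · exact h
    have hzc : ∀ g : E, g * z = z * g := Subgroup.mem_center_iff.mp hz
    refine ⟨t * y, ?_, ?_⟩
    · calc t * y * (t * y) = t * (y * t) * y := by group
        _ = t * (t * y * z) * y := by rw [hyt]
        _ = (t * t) * y * (z * y) := by group
        _ = (t * t) * y * (y * z) := by rw [hzc y]
        _ = (t * t) * (y * y) * z := by group
        _ = 1 := by rw [ht, hyy, one_mul, hzz]
    · intro h
      apply hy
      have h' : t * (t * y) = t * (y * t) := by rw [h, mul_assoc]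
      exact (mul_left_cancel h').symm

theorem exists_noncentral_of_card (h2 : Nat.card (center E) = 2) [Finite E] (A : Subgroup E)
    (hA : 2 < Nat.card A) : ∃ t ∈ A, t ∉ center E := by
  by_contra hcon
  push Not at hcon
  have hle : A ≤ center E := hcon
  have := Subgroup.card_le_of_le hle
  omega

theorem exists_plus_pair (hc : ∀ x y : E, x * y * x⁻¹ * y⁻¹ ∈ center E)
    (h2 : Nat.card (center E) = 2) [Finite E] (m : ℕ)
    (hcard : Nat.card E = 2 ^ (2 * (m + 1) + 1)) (hP : ES2Plus E (m + 1)) :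
    ∃ t u : E, t * t = 1 ∧ u * u = 1 ∧ t * u ≠ u * t ∧ ES2Plus (cent2 t u) m := by
  obtain ⟨A, hA, hAc⟩ := hP
  have hA4 : 2 < Nat.card A := by
    rw [hAc]
    have : 0 < 2 ^ m := by positivity
    have : 2 ^ (m + 1 + 1) = 4 * 2 ^ m := by ring
    omega
  obtain ⟨t, htA, htz⟩ := exists_noncentral_of_card h2 A hA4
  have ht : t * t = 1 := by rw [← pow_two]; exact hA t htA
  obtain ⟨u, hu, htu⟩ := exists_involution_pair hc h2 t ht htz
  refine ⟨t, u, ht, hu, htu, ?_⟩
  have hAcomm := isMulCommutative_of_sq_eq_one A hA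
  obtain ⟨B', hB'⟩ : ∃ B' : Subgroup (cent2 t u), B' = A.subgroupOf (cent2 t u) := ⟨_, rfl⟩
  have hB'sq : ∀ b ∈ B', b ^ 2 = 1 := by
    intro b hb
    rw [hB', Subgroup.mem_subgroupOf] at hb
    apply Subtype.ext
    exact hA _ hb
  have hle := card_le_of_sq_eq_one (cent2_comm_mem_center hc t u) (card_center_cent2 hc h2 t u htu)
    m (card_cent2 hc h2 t u htu m hcard) B' hB'sq
  obtain ⟨φ, hφ⟩ : ∃ φ : A →* center E, ∀ a : A, φ a = commHom hc u (a : E) :=
    ⟨(commHom hc u).comp A.subtype, fun a => rfl⟩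
  have h1 : Nat.card φ.ker * φ.ker.index = Nat.card A := Subgroup.card_mul_index _
  have h3 : φ.ker.index ≤ 2 := by
    rw [Subgroup.index_ker, ← h2]
    exact Subgroup.card_le_card_group _
  have hker : ∀ a : φ.ker, ((a : A) : E) ∈ cent2 t u := by
    intro a
    rw [mem_cent2_iff]
    constructor
    · exact congrArg Subtype.val (hAcomm.is_comm.comm (a : A) ⟨t, htA⟩)
    · have := a.2
      rw [MonoidHom.mem_ker, hφ] at this
      exact (commHom_eq_one_iff hc u _).mp this
  have hinj : Nat.card φ.ker ≤ Nat.card B' := by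
    refine Nat.card_le_card_of_injective
      (fun a => (⟨⟨((a : A) : E), hker a⟩, by
        rw [hB', Subgroup.mem_subgroupOf]; exact (a : A).2⟩ : B')) ?_
    intro a b hab
    have : ((a : A) : E) = ((b : A) : E) := congrArg (fun x : B' => ((x : cent2 t u) : E)) hab
    exact Subtype.ext (Subtype.ext this)
  refine ⟨B', hB'sq, le_antisymm hle ?_⟩
  have h4 : Nat.card A ≤ Nat.card φ.ker * 2 := by
    rw [← h1]; exact Nat.mul_le_mul_left _ h3
  rw [hAc] at h4
  have : 2 ^ (m + 1 + 1) = 2 ^ (m + 1) * 2 := by ring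
  omega

theorem exists_minus_pair (hc : ∀ x y : E, x * y * x⁻¹ * y⁻¹ ∈ center E)
    (h2 : Nat.card (center E) = 2) [Finite E] (m : ℕ) (hm : 1 ≤ m)
    (hcard : Nat.card E = 2 ^ (2 * (m + 1) + 1)) (hP : ¬ ES2Plus E (m + 1)) :
    ∃ t u : E, t * t = 1 ∧ u * u = 1 ∧ t * u ≠ u * t ∧ ¬ ES2Plus (cent2 t u) m := by
  rcases es2_dichotomy hc h2 (m + 1) hcard with ⟨h, -⟩ | ⟨-, -, ⟨A, hA, hAc⟩, -⟩
  · exact absurd h hP
  have hA4 : 2 < Nat.card A := by
    rw [hAc]
    have : 2 ^ 1 ≤ 2 ^ m := Nat.pow_le_pow_right (by norm_num) hm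
    have : 2 ^ (m + 1) = 2 * 2 ^ m := by ring
    omega
  obtain ⟨t, htA, htz⟩ := exists_noncentral_of_card h2 A hA4
  have ht : t * t = 1 := by rw [← pow_two]; exact hA t htA
  obtain ⟨u, hu, htu⟩ := exists_involution_pair hc h2 t ht htz
  refine ⟨t, u, ht, hu, htu, ?_⟩
  rintro ⟨B, hB, hBc⟩
  apply hP
  refine es2Plus_of_extend hc h2 (m + 1) hcard (B.map (cent2 t u).subtype) ?_ ?_ t ht ?_ ?_
  · rintro _ ⟨b, hb, rfl⟩
    have := hB b hb
    exact congrArg Subtype.val this
  · rw [Subgroup.card_map_of_injective (Subgroup.subtype_injective _), hBc]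
  · rintro ⟨b, -, hbt⟩
    have := (mem_cent2_iff.mp b.2).2
    rw [Subgroup.coe_subtype] at hbt
    rw [hbt] at this
    exact htu this
  · rintro _ ⟨b, -, rfl⟩
    exact ((mem_cent2_iff.mp b.2).1).symm

theorem exists_quaternion_pair (hc : ∀ x y : E, x * y * x⁻¹ * y⁻¹ ∈ center E)
    (h2 : Nat.card (center E) = 2) [Finite E]
    (hcard : Nat.card E = 2 ^ (2 * (0 + 1) + 1)) (hP : ¬ ES2Plus E (0 + 1)) {z : E}
    (hzall : ∀ c ∈ center E, c = 1 ∨ c = z) :
    ∃ i j : E, i * i = z ∧ j * j = z ∧ i * j ≠ j * i := by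
  have key : ∀ x : E, x ∉ center E → x * x = z := by
    intro x hx
    rcases es2_sq_or hc h2 hzall x with h | h
    · exfalso
      apply hP
      refine es2Plus_of_extend hc h2 (0 + 1) hcard (center E) ?_ (by rw [h2]; rfl) x h hx ?_
      · intro b hb
        have := center_mul_self h2 ⟨b, hb⟩
        rw [pow_two]
        exact congrArg Subtype.val this
      · intro b hb
        exact Subgroup.mem_center_iff.mp hb x
    · exact h
  have hex : ∃ i : E, i ∉ center E := by
    by_contra hcon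
    push Not at hcon
    have : center E = ⊤ := eq_top_iff.mpr fun x _ => hcon x
    rw [this, Subgroup.card_top, hcard] at h2
    norm_num at h2
  obtain ⟨i, hi⟩ := hex
  have hex2 : ∃ j : E, j * i ≠ i * j := by
    by_contra hcon
    push Not at hcon
    exact hi (Subgroup.mem_center_iff.mpr hcon)
  obtain ⟨j, hj⟩ := hex2
  have hjz : j ∉ center E := fun h => hj (Subgroup.mem_center_iff.mp h i).symm
  exact ⟨i, j, key i hi, key j hjz, fun h => hj h.symm⟩

theorem es2Plus_zero [Finite E] (hcard : Nat.card E = 2 ^ (2 * 0 + 1)) : ES2Plus E 0 := by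
  refine ⟨⊤, fun a _ => ?_, by rw [Subgroup.card_top, hcard]⟩
  have := pow_card_eq_one' (G := E) (x := a)
  rwa [hcard] at this

end ES2b

section Step

variable {E : Type u} {E' : Type v} [Group E] [Group E'] [Finite E] [Finite E']

/-- Inductive step: an isomorphism between the centralizers of two hyperbolic (or two
quaternion) pairs extends to the whole groups. -/
theorem es2_iso_step (hc : ∀ x y : E, x * y * x⁻¹ * y⁻¹ ∈ center E)
    (h2 : Nat.card (center E) = 2) (hc' : ∀ x y : E', x * y * x⁻¹ * y⁻¹ ∈ center E')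
    (h2' : Nat.card (center E') = 2) (hcard' : Nat.card E' = Nat.card E)
    (t u : E) (t' u' : E') (htu : t * u ≠ u * t) (htu' : t' * u' ≠ u' * t')
    (β : cent2 t u ≃* cent2 t' u')
    (hsq : (t * t = 1 ∧ u * u = 1 ∧ t' * t' = 1 ∧ u' * u' = 1) ∨
      ((t * t ≠ 1 ∧ u * u ≠ 1) ∧ t' * t' ≠ 1 ∧ u' * u' ≠ 1)) :
    Nonempty (E ≃* E') := by
  obtain ⟨z, hz, hz1, hzz, hzall⟩ := es2_exists_z h2
  obtain ⟨z', hz', hz1', hzz', hzall'⟩ := es2_exists_z h2'
  obtain ⟨zc, hzc⟩ : ∃ zc : cent2 t u, (zc : E) = z := ⟨⟨z, center_le_cent2 t u hz⟩, rfl⟩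
  have hzcc : zc ∈ center (cent2 t u) := by
    rw [Subgroup.mem_center_iff]
    intro g
    apply Subtype.ext
    show (g : E) * (zc : E) = (zc : E) * (g : E)
    rw [hzc]
    exact Subgroup.mem_center_iff.mp hz (g : E)
  have hβz : ((β zc : cent2 t' u') : E') = z' := by
    have hβc : β zc ∈ center (cent2 t' u') := by
      rw [Subgroup.mem_center_iff]
      intro g
      have h := Subgroup.mem_center_iff.mp hzcc (β.symm g)
      have := congrArg β h
      rwa [map_mul, map_mul, MulEquiv.apply_symm_apply] at this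
    have := coe_mem_center_of_mem_center_cent2 hc' h2' t' u' htu' (β zc) hβc
    rcases hzall' _ this with h | h
    · exfalso
      have h1 : β zc = 1 := Subtype.ext h
      have h3 : zc = 1 := by
        rw [← β.symm_apply_apply zc, h1, map_one]
      apply hz1
      rw [← hzc, h3]
      rfl
    · exact h
  have hut : u * t = t * u * z := by
    rcases es2_comm_or hc hz hzall u t with h | h
    · exact absurd h.symm htu
    · exact h
  have hut' : u' * t' = t' * u' * z' := by
    rcases es2_comm_or hc' hz' hzall' u' t' with h | h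
    · exact absurd h.symm htu'
    · exact h
  have hsq1 : ∀ x : E, x * x ≠ 1 → x * x = z := by
    intro x hx
    rcases es2_sq_or hc h2 hzall x with h | h
    · exact absurd h hx
    · exact h
  have hsq1' : ∀ x : E', x * x ≠ 1 → x * x = z' := by
    intro x hx
    rcases es2_sq_or hc' h2' hzall' x with h | h
    · exact absurd h hx
    · exact h
  have htt : ∃ c : cent2 t u, t * t = c ∧ t' * t' = β c := by
    rcases hsq with ⟨h1, -, h3, -⟩ | ⟨⟨h1, -⟩, h3, -⟩
    · exact ⟨1, by rw [h1]; rfl, by rw [h3, map_one]; rfl⟩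
    · exact ⟨zc, by rw [hzc]; exact hsq1 t h1, by rw [hβz]; exact hsq1' t' h3⟩
  have huu : ∃ c : cent2 t u, u * u = c ∧ u' * u' = β c := by
    rcases hsq with ⟨-, h1, -, h3⟩ | ⟨⟨-, h1⟩, -, h3⟩
    · exact ⟨1, by rw [h1]; rfl, by rw [h3, map_one]; rfl⟩
    · exact ⟨zc, by rw [hzc]; exact hsq1 u h1, by rw [hβz]; exact hsq1' u' h3⟩
  exact nonempty_mulEquiv_of_ext (cent2 t u) (cent2 t' u') β t u t' u'
    (fun c hcm => ((mem_cent2_iff.mp hcm).1).symm) (fun c hcm => ((mem_cent2_iff.mp hcm).2).symm)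
    (fun c hcm => ((mem_cent2_iff.mp hcm).1).symm) (fun c hcm => ((mem_cent2_iff.mp hcm).2).symm)
    htt huu ⟨zc, by rw [hzc]; exact hut, by rw [hβz]; exact hut'⟩
    (closure_cent2_eq_top hc h2 t u htu) (closure_cent2_eq_top hc' h2' t' u' htu')
    (card_eq_four_mul_card_cent2 hc h2 t u htu) hcard'

end Step

/-- **Classification of extraspecial 2-groups**: same order and same type implies isomorphic. -/
theorem es2_iso (m : ℕ) : ∀ (E : Type u) (E' : Type v) [Group E] [Group E'] [Finite E]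
    [Finite E'], (∀ x y : E, x * y * x⁻¹ * y⁻¹ ∈ center E) → Nat.card (center E) = 2 →
    (∀ x y : E', x * y * x⁻¹ * y⁻¹ ∈ center E') → Nat.card (center E') = 2 →
    Nat.card E = 2 ^ (2 * m + 1) → Nat.card E' = 2 ^ (2 * m + 1) →
    (ES2Plus E m ↔ ES2Plus E' m) → Nonempty (E ≃* E') := by
  induction m with
  | zero =>
    intro E E' _ _ _ _ hc h2 hc' h2' hcard hcard' _
    have : Fact (Nat.Prime 2) := ⟨Nat.prime_two⟩
    exact ⟨mulEquivOfPrimeCardEq (p := 2) (by simpa using hcard) (by simpa using hcard')⟩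
  | succ m ih =>
    intro E E' _ _ _ _ hc h2 hc' h2' hcard hcard' hiff
    by_cases hP : ES2Plus E (m + 1)
    · have hP' := hiff.mp hP
      obtain ⟨t, u, ht, hu, htu, hC⟩ := exists_plus_pair hc h2 m hcard hP
      obtain ⟨t', u', ht', hu', htu', hC'⟩ := exists_plus_pair hc' h2' m hcard' hP'
      obtain ⟨β⟩ := ih (cent2 t u) (cent2 t' u') (cent2_comm_mem_center hc t u)
        (card_center_cent2 hc h2 t u htu) (cent2_comm_mem_center hc' t' u')
        (card_center_cent2 hc' h2' t' u' htu') (card_cent2 hc h2 t u htu m hcard)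
        (card_cent2 hc' h2' t' u' htu' m hcard') ⟨fun _ => hC', fun _ => hC⟩
      exact es2_iso_step hc h2 hc' h2' (by rw [hcard, hcard']) t u t' u' htu htu' β
        (Or.inl ⟨ht, hu, ht', hu'⟩)
    · have hP' : ¬ ES2Plus E' (m + 1) := fun h => hP (hiff.mpr h)
      rcases Nat.eq_zero_or_pos m with rfl | hm
      · obtain ⟨z, hz, hz1, hzz, hzall⟩ := es2_exists_z h2
        obtain ⟨z', hz', hz1', hzz', hzall'⟩ := es2_exists_z h2'
        obtain ⟨t, u, ht, hu, htu⟩ := exists_quaternion_pair hc h2 hcard hP hzall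
        obtain ⟨t', u', ht', hu', htu'⟩ := exists_quaternion_pair hc' h2' hcard' hP' hzall'
        have hcC := card_cent2 hc h2 t u htu 0 hcard
        have hcC' := card_cent2 hc' h2' t' u' htu' 0 hcard'
        obtain ⟨β⟩ := ih (cent2 t u) (cent2 t' u') (cent2_comm_mem_center hc t u)
          (card_center_cent2 hc h2 t u htu) (cent2_comm_mem_center hc' t' u')
          (card_center_cent2 hc' h2' t' u' htu') hcC hcC'
          ⟨fun _ => es2Plus_zero hcC', fun _ => es2Plus_zero hcC⟩
        exact es2_iso_step hc h2 hc' h2' (by rw [hcard, hcard']) t u t' u' htu htu' β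
          (Or.inr ⟨⟨by rw [ht]; exact hz1, by rw [hu]; exact hz1⟩,
            by rw [ht']; exact hz1', by rw [hu']; exact hz1'⟩)
      · obtain ⟨t, u, ht, hu, htu, hC⟩ := exists_minus_pair hc h2 m hm hcard hP
        obtain ⟨t', u', ht', hu', htu', hC'⟩ := exists_minus_pair hc' h2' m hm hcard' hP'
        obtain ⟨β⟩ := ih (cent2 t u) (cent2 t' u') (cent2_comm_mem_center hc t u)
          (card_center_cent2 hc h2 t u htu) (cent2_comm_mem_center hc' t' u')
          (card_center_cent2 hc' h2' t' u' htu') (card_cent2 hc h2 t u htu m hcard)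
          (card_cent2 hc' h2' t' u' htu' m hcard')
          ⟨fun h => absurd h hC, fun h => absurd h hC'⟩
        exact es2_iso_step hc h2 hc' h2' (by rw [hcard, hcard']) t u t' u' htu htu' β
          (Or.inl ⟨ht, hu, ht', hu'⟩)

section Crit

variable {E : Type*} [Group E] [Finite E]

theorem es2Plus_iff_card (hc : ∀ x y : E, x * y * x⁻¹ * y⁻¹ ∈ center E)
    (h2 : Nat.card (center E) = 2) (m : ℕ) (hcard : Nat.card E = 2 ^ (2 * m + 1)) :
    ES2Plus E m ↔ Nat.card {x : E // x ^ 2 = 1} = 2 ^ (2 * m) + 2 ^ m := by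
  constructor
  · rintro ⟨A, hA, hAc⟩
    exact card_sq_eq_one_of_plus hc h2 m hcard A hA hAc
  · intro hN
    rcases es2_dichotomy hc h2 m hcard with ⟨h, -⟩ | ⟨-, -, -, hN'⟩
    · exact h
    · exfalso
      rw [hN] at hN'
      have hpos : 0 < 2 ^ m := by positivity
      omega

theorem es2Plus_iff_not_pRankLE (hc : ∀ x y : E, x * y * x⁻¹ * y⁻¹ ∈ center E)
    (h2 : Nat.card (center E) = 2) (m : ℕ) (hcard : Nat.card E = 2 ^ (2 * m + 1)) :
    ES2Plus E m ↔ ¬ Cfsg.PRankLE 2 m E := by
  constructor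
  · rintro ⟨A, hA, hAc⟩ hR
    have := hR A (isMulCommutative_of_sq_eq_one A hA) hA
    rw [hAc, pow_succ] at this
    have hpos : 0 < 2 ^ m := by positivity
    omega
  · intro hR
    unfold Cfsg.PRankLE at hR
    push Not at hR
    obtain ⟨A, -, hA, hAc⟩ := hR
    have hle := card_le_of_sq_eq_one hc h2 m hcard A hA
    have hdvd : Nat.card A ∣ 2 ^ (2 * m + 1) := hcard ▸ Subgroup.card_subgroup_dvd_card A
    obtain ⟨j, -, hj⟩ := (Nat.dvd_prime_pow Nat.prime_two).mp hdvd
    rw [hj] at hAc hle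
    have h1 : m < j := (Nat.pow_lt_pow_iff_right (by norm_num)).mp hAc
    have h3 : j ≤ m + 1 := (Nat.pow_le_pow_iff_right (by norm_num)).mp hle
    have : j = m + 1 := by omega
    exact ⟨A, hA, by rw [hj, this]⟩

theorem pRankLE_succ_of_es2 (hc : ∀ x y : E, x * y * x⁻¹ * y⁻¹ ∈ center E)
    (h2 : Nat.card (center E) = 2) (m : ℕ) (hcard : Nat.card E = 2 ^ (2 * m + 1)) :
    Cfsg.PRankLE 2 (m + 1) E := by
  intro A _ hA
  exact card_le_of_sq_eq_one hc h2 m hcard A hA

end Crit

end Cfsg.Agent.Helper48
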