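import Mathlib
import Cfsg.Agent.Helper48.ES2Iso2

/-!
# Automorphisms of extraspecial 2-groups: transvections (helper48)

Setting: `hc : ∀ x y, x * y * x⁻¹ * y⁻¹ ∈ center E`, `h2 : Nat.card (center E) = 2`.

* `commute_mul_iff` : parity of commutation.
* `exists_transvection` : for `a` with `a * a = z` (the central involution) the map fixing the
  centralizer of `a` and multiplying the other elements by `a` is an automorphism.
* `exists_five_involutions` : in the extraspecial group of order 32 of minus type there are five
  pairwise noncommuting involutions representing all noncentral involutions modulo the centre.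
-/

set_option autoImplicit false

namespace Cfsg.Agent.Helper48

open Subgroup
open scoped Classical

section ES2Aut

variable {E : Type*} [Group E]

theorem commute_mul_iff (hc : ∀ x y : E, x * y * x⁻¹ * y⁻¹ ∈ center E)
    (h2 : Nat.card (center E) = 2) (x y w : E) :
    x * y * w = w * (x * y) ↔ (x * w = w * x ↔ y * w = w * y) := by
  rw [← commHom_eq_one_iff hc w (x * y), ← commHom_eq_one_iff hc w x,
    ← commHom_eq_one_iff hc w y, map_mul]
  by_cases hx : commHom hc w x = 1
  · rw [hx, one_mul]
    simp
  · by_cases hy : commHom hc w y = 1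
    · rw [hy, mul_one]
      simp [hx]
    · have h := center_cases h2 hx (commHom hc w y)
      rcases h with h | h
      · exact absurd h hy
      · rw [h, center_mul_self h2]
        simp [hy, ← h]

theorem commute_mul_iff' (hc : ∀ x y : E, x * y * x⁻¹ * y⁻¹ ∈ center E)
    (h2 : Nat.card (center E) = 2) (x y w : E) :
    w * (x * y) = x * y * w ↔ (w * x = x * w ↔ w * y = y * w) := by
  rw [eq_comm, commute_mul_iff hc h2, eq_comm (a := x * w), eq_comm (a := y * w)]

/-- Noncommuting elements commute up to the central involution, in the other order. -/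
theorem es2_comm_of_ne (hc : ∀ x y : E, x * y * x⁻¹ * y⁻¹ ∈ center E) {z : E}
    (hz : z ∈ center E) (hzall : ∀ c ∈ center E, c = 1 ∨ c = z) {x y : E} (h : x * y ≠ y * x) :
    x * y = y * x * z := by
  rcases es2_comm_or hc hz hzall x y with h' | h'
  · exact absurd h' h
  · exact h'

/-- The transvection defined by an element `a` with `a * a = z`. -/
theorem exists_transvection [Finite E] (hc : ∀ x y : E, x * y * x⁻¹ * y⁻¹ ∈ center E) {z : E}
    (hz : z ∈ center E) (hzz : z * z = 1)
    (hzall : ∀ c ∈ center E, c = 1 ∨ c = z) (a : E) (haa : a * a = z) :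
    ∃ τ : MulAut E, (∀ x, x * a = a * x → τ x = x) ∧ (∀ x, x * a ≠ a * x → τ x = x * a) := by
  have hzc : ∀ g : E, g * z = z * g := Subgroup.mem_center_iff.mp hz
  obtain ⟨f, hf⟩ : ∃ f : E → E, ∀ x, f x = if x * a = a * x then x else x * a := ⟨_, fun _ => rfl⟩
  have hfc : ∀ x, x * a = a * x → f x = x := fun x h => by rw [hf, if_pos h]
  have hfn : ∀ x, x * a ≠ a * x → f x = x * a := fun x h => by rw [hf, if_neg h]
  have hne : ∀ x, x * a ≠ a * x → x * a = a * x * z := fun x h => es2_comm_of_ne hc hz hzall h
  have hne' : ∀ x, x * a ≠ a * x → a * x = x * a * z := by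
    intro x h
    rw [hne x h, mul_assoc (a * x), hzz, mul_one]
  have hmul : ∀ x y, f (x * y) = f x * f y := by
    intro x y
    by_cases hx : x * a = a * x <;> by_cases hy : y * a = a * y
    · have hxy : x * y * a = a * (x * y) := by
        rw [mul_assoc, hy, ← mul_assoc, hx, mul_assoc]
      rw [hfc _ hxy, hfc _ hx, hfc _ hy]
    · have hxy : x * y * a ≠ a * (x * y) := by
        intro h
        apply hy
        have h1 : x * (y * a) = x * (a * y) := by
          rw [← mul_assoc, h, ← mul_assoc, ← hx, mul_assoc]
        exact mul_left_cancel h1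
      rw [hfn _ hxy, hfc _ hx, hfn _ hy, mul_assoc]
    · have hxy : x * y * a ≠ a * (x * y) := by
        intro h
        apply hx
        have h1 : x * a * y = a * x * y := by
          rw [mul_assoc x a y, ← hy, ← mul_assoc, h, mul_assoc]
        exact mul_right_cancel h1
      rw [hfn _ hxy, hfn _ hx, hfc _ hy, mul_assoc x a y, ← hy, mul_assoc]
    · have hxy : x * y * a = a * (x * y) := by
        calc x * y * a = x * (y * a) := by rw [mul_assoc]
          _ = x * (a * y * z) := by rw [hne y hy]
          _ = (x * a) * y * z := by rw [mul_assoc, mul_assoc, mul_assoc]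
          _ = (a * x * z) * y * z := by rw [hne x hx]
          _ = a * x * (z * y) * z := by rw [mul_assoc (a * x) z y]
          _ = a * x * (y * z) * z := by rw [hzc y]
          _ = a * (x * y) * (z * z) := by simp only [mul_assoc]
          _ = a * (x * y) := by rw [hzz, mul_one]
      rw [hfc _ hxy, hfn _ hx, hfn _ hy]
      calc x * y = x * y * (z * z) := by rw [hzz, mul_one]
        _ = x * (y * z) * z := by simp only [mul_assoc]
        _ = x * (z * y) * z := by rw [hzc y]
        _ = x * (a * a * y) * z := by rw [haa]
        _ = x * a * (a * y * z) := by simp only [mul_assoc]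
        _ = x * a * (y * a) := by rw [← hne y hy]
  have hinj : Function.Injective f := by
    intro x y hxy
    by_cases hx : x * a = a * x <;> by_cases hy : y * a = a * y
    · rw [hfc _ hx, hfc _ hy] at hxy
      exact hxy
    · exfalso
      rw [hfc _ hx, hfn _ hy] at hxy
      apply hy
      have h1 : y * a * a = a * (y * a) := by rw [← hxy]; exact hx
      have h2 : y * a * a = a * y * a := by rw [h1, mul_assoc]
      exact mul_right_cancel h2
    · exfalso
      rw [hfn _ hx, hfc _ hy] at hxy
      apply hx
      have h1 : x * a * a = a * (x * a) := by rw [hxy]; exact hy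
      have h2 : x * a * a = a * x * a := by rw [h1, mul_assoc]
      exact mul_right_cancel h2
    · rw [hfn _ hx, hfn _ hy] at hxy
      exact mul_right_cancel hxy
  obtain ⟨F, hF⟩ : ∃ F : E →* E, ∀ x, F x = f x :=
    ⟨{ toFun := f
       map_one' := by rw [hfc 1 (by rw [one_mul, mul_one])]
       map_mul' := hmul }, fun _ => rfl⟩
  have hFinj : Function.Injective F := by
    intro x y h
    rw [hF, hF] at h
    exact hinj h
  refine ⟨MulEquiv.ofBijective F (Finite.injective_iff_bijective.mp hFinj), ?_, ?_⟩
  · intro x hx
    show F x = x
    rw [hF, hfc x hx]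
  · intro x hx
    show F x = x * a
    rw [hF, hfn x hx]

end ES2Aut

end Cfsg.Agent.Helper48
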