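import Mathlib
import Cfsg.Agent.Helper48.ES2Aut

/-!
# The extraspecial group of order 32 of minus type: five involutions (helper48)
-/

set_option autoImplicit false
set_option linter.unusedSimpArgs false

namespace Cfsg.Agent.Helper48

open Subgroup
open scoped Classical

section ES2Aut2

variable {E : Type*} [Group E]

/-- In the extraspecial group of order 32 of minus type there are five pairwise noncommuting
involutions, the first four of which generate the group, and every involution is central or
congruent modulo the centre to one of the five. -/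
theorem exists_five_involutions [Finite E] (hc : ∀ x y : E, x * y * x⁻¹ * y⁻¹ ∈ center E)
    (h2 : Nat.card (center E) = 2) (hcard : Nat.card E = 2 ^ (2 * (1 + 1) + 1))
    (hP : ¬ ES2Plus E (1 + 1)) {z : E} (hz : z ∈ center E) (hz1 : z ≠ 1) (hzz : z * z = 1)
    (hzall : ∀ c ∈ center E, c = 1 ∨ c = z) :
    ∃ s : Fin 5 → E, (∀ k, s k * s k = 1) ∧ (∀ k l, k ≠ l → s k * s l ≠ s l * s k) ∧
      closure {s 0, s 1, s 2, s 3} = ⊤ ∧
      ∀ x : E, x * x = 1 → x = 1 ∨ x = z ∨ ∃ k, x = s k ∨ x = s k * z := by
  have hzc : ∀ g : E, g * z = z * g := Subgroup.mem_center_iff.mp hz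
  obtain ⟨t, u, ht, hu, htu, hC⟩ := exists_minus_pair hc h2 1 le_rfl hcard hP
  have hcC := cent2_comm_mem_center hc t u
  have h2C := card_center_cent2 hc h2 t u htu
  have hcardC8 : Nat.card (cent2 t u) = 8 := by
    have := card_cent2 hc h2 t u htu 1 hcard
    simpa using this
  have hcardC : Nat.card (cent2 t u) = 2 ^ (2 * (0 + 1) + 1) := by
    rw [hcardC8]; norm_num
  obtain ⟨zC, hzC, hzC1, hzCzC, hzCall⟩ := es2_exists_z h2C
  have hzCz : (zC : E) = z := by
    have h1 := coe_mem_center_of_mem_center_cent2 hc h2 t u htu zC hzC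
    rcases hzall _ h1 with h | h
    · exact absurd (Subtype.ext h) hzC1
    · exact h
  obtain ⟨i', j', hi', hj', hij'⟩ := exists_quaternion_pair hcC h2C hcardC hC hzCall
  obtain ⟨i, hi⟩ : ∃ i : E, i = (i' : E) := ⟨_, rfl⟩
  obtain ⟨j, hj⟩ : ∃ j : E, j = (j' : E) := ⟨_, rfl⟩
  have hii : i * i = z := by
    rw [hi, ← hzCz]; exact congrArg Subtype.val hi'
  have hjj : j * j = z := by
    rw [hj, ← hzCz]; exact congrArg Subtype.val hj'
  have hij : i * j ≠ j * i := by
    rw [hi, hj]; exact fun h => hij' (Subtype.ext h)
  have hji : j * i ≠ i * j := fun h => hij h.symm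
  have hut : u * t ≠ t * u := fun h => htu h.symm
  have hiC : i ∈ cent2 t u := by rw [hi]; exact i'.2
  have hjC : j ∈ cent2 t u := by rw [hj]; exact j'.2
  have hit : i * t = t * i := (mem_cent2_iff.mp hiC).1
  have hiu : i * u = u * i := (mem_cent2_iff.mp hiC).2
  have hjt : j * t = t * j := (mem_cent2_iff.mp hjC).1
  have hju : j * u = u * j := (mem_cent2_iff.mp hjC).2
  have hti : t * i = i * t := hit.symm
  have hui : u * i = i * u := hiu.symm
  have htj : t * j = j * t := hjt.symm
  have huj : u * j = j * u := hju.symm
  -- squares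
  have htutu : t * u * (t * u) = z := by
    have h := es2_comm_of_ne hc hz hzall htu
    calc t * u * (t * u) = t * u * (u * t * z) := by rw [← h]
      _ = t * (u * u) * t * z := by simp only [mul_assoc]
      _ = z := by rw [hu, mul_one, ht, one_mul]
  have hijij : i * j * (i * j) = z := by
    have h := es2_comm_of_ne hc hz hzall hji
    calc i * j * (i * j) = i * (j * i) * j := by simp only [mul_assoc]
      _ = i * (i * j * z) * j := by rw [h]
      _ = i * i * (j * (z * j)) := by simp only [mul_assoc]
      _ = i * i * (j * (j * z)) := by rw [hzc j]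
      _ = i * i * (j * j) * z := by simp only [mul_assoc]
      _ = z := by rw [hii, hjj, hzz, one_mul]
  have hsq : ∀ y : E, y * y = z → t * u * y = y * (t * u) → t * u * y * (t * u * y) = 1 := by
    intro y hy hcomm
    calc t * u * y * (t * u * y) = t * u * (y * (t * u)) * y := by simp only [mul_assoc]
      _ = t * u * (t * u * y) * y := by rw [hcomm]
      _ = t * u * (t * u) * (y * y) := by simp only [mul_assoc]
      _ = 1 := by rw [htutu, hy, hzz]
  have hcomm_i : t * u * i = i * (t * u) := by
    rw [mul_assoc, hui, ← mul_assoc, hti, mul_assoc]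
  have hcomm_j : t * u * j = j * (t * u) := by
    rw [mul_assoc, huj, ← mul_assoc, htj, mul_assoc]
  have hcomm_ij : t * u * (i * j) = i * j * (t * u) := by
    calc t * u * (i * j) = t * u * i * j := by rw [mul_assoc (t * u)]
      _ = i * (t * u) * j := by rw [hcomm_i]
      _ = i * (t * u * j) := by rw [mul_assoc]
      _ = i * (j * (t * u)) := by rw [hcomm_j]
      _ = i * j * (t * u) := by rw [mul_assoc]
  obtain ⟨s, hs⟩ : ∃ s : Fin 5 → E, s = ![t, u, t * u * i, t * u * j, t * u * (i * j)] :=
    ⟨_, rfl⟩
  have hs0 : s 0 = t := by rw [hs]; rfl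
  have hs1 : s 1 = u := by rw [hs]; rfl
  have hs2 : s 2 = t * u * i := by rw [hs]; rfl
  have hs3 : s 3 = t * u * j := by rw [hs]; rfl
  have hs4 : s 4 = t * u * (i * j) := by rw [hs]; rfl
  have hinvol : ∀ k, s k * s k = 1 := by
    intro k
    fin_cases k
    · show s 0 * s 0 = 1
      rw [hs0]; exact ht
    · show s 1 * s 1 = 1
      rw [hs1]; exact hu
    · show s 2 * s 2 = 1
      rw [hs2]; exact hsq i hii hcomm_i
    · show s 3 * s 3 = 1
      rw [hs3]; exact hsq j hjj hcomm_j
    · show s 4 * s 4 = 1
      rw [hs4]; exact hsq (i * j) hijij hcomm_ij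
  have hnc : ∀ k l, k ≠ l → s k * s l ≠ s l * s k := by
    have h01 : s 0 * s 1 ≠ s 1 * s 0 := by
      rw [hs0, hs1]
      simp only [ne_eq, commute_mul_iff hc h2, commute_mul_iff' hc h2, htu, hut, hij, hji,
        iff_true_intro hit, iff_true_intro hiu, iff_true_intro hjt, iff_true_intro hju,
        iff_true_intro hti, iff_true_intro hui, iff_true_intro htj, iff_true_intro huj,
        not_true_eq_false, not_false_eq_true, iff_true, iff_false, true_iff, false_iff, iff_self]
    have h02 : s 0 * s 2 ≠ s 2 * s 0 := by
      rw [hs0, hs2]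
      simp only [ne_eq, commute_mul_iff hc h2, commute_mul_iff' hc h2, htu, hut, hij, hji,
        iff_true_intro hit, iff_true_intro hiu, iff_true_intro hjt, iff_true_intro hju,
        iff_true_intro hti, iff_true_intro hui, iff_true_intro htj, iff_true_intro huj,
        not_true_eq_false, not_false_eq_true, iff_true, iff_false, true_iff, false_iff, iff_self]
    have h03 : s 0 * s 3 ≠ s 3 * s 0 := by
      rw [hs0, hs3]
      simp only [ne_eq, commute_mul_iff hc h2, commute_mul_iff' hc h2, htu, hut, hij, hji,
        iff_true_intro hit, iff_true_intro hiu, iff_true_intro hjt, iff_true_intro hju,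
        iff_true_intro hti, iff_true_intro hui, iff_true_intro htj, iff_true_intro huj,
        not_true_eq_false, not_false_eq_true, iff_true, iff_false, true_iff, false_iff, iff_self]
    have h04 : s 0 * s 4 ≠ s 4 * s 0 := by
      rw [hs0, hs4]
      simp only [ne_eq, commute_mul_iff hc h2, commute_mul_iff' hc h2, htu, hut, hij, hji,
        iff_true_intro hit, iff_true_intro hiu, iff_true_intro hjt, iff_true_intro hju,
        iff_true_intro hti, iff_true_intro hui, iff_true_intro htj, iff_true_intro huj,
        not_true_eq_false, not_false_eq_true, iff_true, iff_false, true_iff, false_iff, iff_self]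
    have h12 : s 1 * s 2 ≠ s 2 * s 1 := by
      rw [hs1, hs2]
      simp only [ne_eq, commute_mul_iff hc h2, commute_mul_iff' hc h2, htu, hut, hij, hji,
        iff_true_intro hit, iff_true_intro hiu, iff_true_intro hjt, iff_true_intro hju,
        iff_true_intro hti, iff_true_intro hui, iff_true_intro htj, iff_true_intro huj,
        not_true_eq_false, not_false_eq_true, iff_true, iff_false, true_iff, false_iff, iff_self]
    have h13 : s 1 * s 3 ≠ s 3 * s 1 := by
      rw [hs1, hs3]
      simp only [ne_eq, commute_mul_iff hc h2, commute_mul_iff' hc h2, htu, hut, hij, hji,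
        iff_true_intro hit, iff_true_intro hiu, iff_true_intro hjt, iff_true_intro hju,
        iff_true_intro hti, iff_true_intro hui, iff_true_intro htj, iff_true_intro huj,
        not_true_eq_false, not_false_eq_true, iff_true, iff_false, true_iff, false_iff, iff_self]
    have h14 : s 1 * s 4 ≠ s 4 * s 1 := by
      rw [hs1, hs4]
      simp only [ne_eq, commute_mul_iff hc h2, commute_mul_iff' hc h2, htu, hut, hij, hji,
        iff_true_intro hit, iff_true_intro hiu, iff_true_intro hjt, iff_true_intro hju,
        iff_true_intro hti, iff_true_intro hui, iff_true_intro htj, iff_true_intro huj,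
        not_true_eq_false, not_false_eq_true, iff_true, iff_false, true_iff, false_iff, iff_self]
    have h23 : s 2 * s 3 ≠ s 3 * s 2 := by
      rw [hs2, hs3]
      simp only [ne_eq, commute_mul_iff hc h2, commute_mul_iff' hc h2, htu, hut, hij, hji,
        iff_true_intro hit, iff_true_intro hiu, iff_true_intro hjt, iff_true_intro hju,
        iff_true_intro hti, iff_true_intro hui, iff_true_intro htj, iff_true_intro huj,
        not_true_eq_false, not_false_eq_true, iff_true, iff_false, true_iff, false_iff, iff_self]
    have h24 : s 2 * s 4 ≠ s 4 * s 2 := by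
      rw [hs2, hs4]
      simp only [ne_eq, commute_mul_iff hc h2, commute_mul_iff' hc h2, htu, hut, hij, hji,
        iff_true_intro hit, iff_true_intro hiu, iff_true_intro hjt, iff_true_intro hju,
        iff_true_intro hti, iff_true_intro hui, iff_true_intro htj, iff_true_intro huj,
        not_true_eq_false, not_false_eq_true, iff_true, iff_false, true_iff, false_iff, iff_self]
    have h34 : s 3 * s 4 ≠ s 4 * s 3 := by
      rw [hs3, hs4]
      simp only [ne_eq, commute_mul_iff hc h2, commute_mul_iff' hc h2, htu, hut, hij, hji,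
        iff_true_intro hit, iff_true_intro hiu, iff_true_intro hjt, iff_true_intro hju,
        iff_true_intro hti, iff_true_intro hui, iff_true_intro htj, iff_true_intro huj,
        not_true_eq_false, not_false_eq_true, iff_true, iff_false, true_iff, false_iff, iff_self]
    intro k l hkl
    fin_cases k <;> fin_cases l
    · exact absurd rfl hkl
    · exact h01
    · exact h02
    · exact h03
    · exact h04
    · exact fun h => h01 h.symm
    · exact absurd rfl hkl
    · exact h12
    · exact h13
    · exact h14
    · exact fun h => h02 h.symm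
    · exact fun h => h12 h.symm
    · exact absurd rfl hkl
    · exact h23
    · exact h24
    · exact fun h => h03 h.symm
    · exact fun h => h13 h.symm
    · exact fun h => h23 h.symm
    · exact absurd rfl hkl
    · exact h34
    · exact fun h => h04 h.symm
    · exact fun h => h14 h.symm
    · exact fun h => h24 h.symm
    · exact fun h => h34 h.symm
    · exact absurd rfl hkl
  refine ⟨s, hinvol, hnc, ?_, ?_⟩
  · -- generation
    obtain ⟨H, hH⟩ : ∃ H : Subgroup E, H = closure {s 0, s 1, s 2, s 3} := ⟨_, rfl⟩
    rw [← hH]
    have htH : t ∈ H := by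
      rw [hH, ← hs0]; exact subset_closure (by simp)
    have huH : u ∈ H := by
      rw [hH, ← hs1]; exact subset_closure (by simp)
    have htuiH : t * u * i ∈ H := by
      rw [hH, ← hs2]; exact subset_closure (by simp)
    have htujH : t * u * j ∈ H := by
      rw [hH, ← hs3]; exact subset_closure (by simp)
    have hiH : i ∈ H := by
      have : i = (t * u)⁻¹ * (t * u * i) := by group
      rw [this]; exact H.mul_mem (H.inv_mem (H.mul_mem htH huH)) htuiH
    have hjH : j ∈ H := by
      have : j = (t * u)⁻¹ * (t * u * j) := by group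
      rw [this]; exact H.mul_mem (H.inv_mem (H.mul_mem htH huH)) htujH
    -- `closure {i, j} = cent2 t u`
    have hKle : closure {i, j} ≤ cent2 t u := by
      rw [closure_le]
      rintro x (rfl | hx)
      · exact hiC
      · rw [Set.mem_singleton_iff] at hx
        rw [hx]; exact hjC
    have hKeq : closure {i, j} = cent2 t u := by
      apply Subgroup.eq_of_le_of_card_ge hKle
      have hf2 : Fact (Nat.Prime 2) := ⟨Nat.prime_two⟩
      have hoi : orderOf i = 2 ^ (1 + 1) := by
        apply orderOf_eq_prime_pow
        · rw [pow_one, pow_two, hii]; exact hz1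
        · have e : 2 ^ (1 + 1) = 2 * 2 := by norm_num
          rw [e, pow_mul, pow_two i, hii, pow_two, hzz]
      have hiK : zpowers i ≤ closure {i, j} := by
        rw [zpowers_le]; exact subset_closure (by simp)
      have hjK : j ∈ closure {i, j} := subset_closure (by simp)
      have h4 : Nat.card (zpowers i) = 4 := by rw [Nat.card_zpowers, hoi]; norm_num
      have hdvd1 : 4 ∣ Nat.card (closure {i, j}) := by
        rw [← h4]; exact Subgroup.card_dvd_of_le hiK
      have hdvd2 : Nat.card (closure {i, j}) ∣ 8 := by
        rw [← hcardC8]; exact Subgroup.card_dvd_of_le hKle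
      have hne4 : Nat.card (closure {i, j}) ≠ 4 := by
        intro h
        have heq : zpowers i = closure {i, j} :=
          Subgroup.eq_of_le_of_card_ge hiK (by rw [h, h4])
        rw [← heq] at hjK
        obtain ⟨n, hn⟩ := mem_zpowers_iff.mp hjK
        apply hij
        rw [← hn]
        exact ((Commute.refl i).zpow_right n).eq
      rw [hcardC8]
      obtain ⟨c, hc'⟩ := hdvd1
      rw [hc'] at hdvd2 hne4 ⊢
      have hc8 : 4 * c ≤ 8 := Nat.le_of_dvd (by norm_num) hdvd2
      have hc2 : c ≤ 2 := by omega
      interval_cases c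
      · norm_num at hdvd2
      · exact absurd rfl hne4
      · norm_num
    have hCH : cent2 t u ≤ H := by
      rw [← hKeq, closure_le]
      rintro x (rfl | hx)
      · exact hiH
      · rw [Set.mem_singleton_iff] at hx
        rw [hx]; exact hjH
    rw [eq_top_iff, ← closure_cent2_eq_top hc h2 t u htu, closure_le]
    rintro x (hx | hx)
    · rcases hx with rfl | hx
      · exact htH
      · rw [Set.mem_singleton_iff] at hx
        rw [hx]; exact huH
    · exact hCH hx
  · -- exhaustion by counting
    have hcount : Nat.card {x : E // x ^ 2 = 1} = 12 := by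
      rcases es2_dichotomy hc h2 (1 + 1) hcard with ⟨h, -⟩ | ⟨-, -, -, h⟩
      · exact absurd h hP
      · rw [h]; norm_num
    have hzpow : ∀ e : Fin 2, (z ^ (e : ℕ)) * (z ^ (e : ℕ)) = 1 := by
      intro e
      fin_cases e
      · simp
      · simpa using hzz
    have hzcpow : ∀ (e : Fin 2) (g : E), g * z ^ (e : ℕ) = z ^ (e : ℕ) * g := by
      intro e g
      fin_cases e
      · simp
      · simpa using hzc g
    have hsnc : ∀ k, s k ∉ center E := by
      intro k hk
      obtain ⟨l, hl⟩ : ∃ l : Fin 5, l ≠ k := by
        by_cases h0 : k = 0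
        · exact ⟨1, by rw [h0]; decide⟩
        · exact ⟨0, fun h => h0 h.symm⟩
      exact hnc l k hl (Subgroup.mem_center_iff.mp hk (s l))
    obtain ⟨g, hg⟩ : ∃ g : Option (Fin 5) × Fin 2 → {x : E // x ^ 2 = 1},
        ∀ o e, ((g (o, e) : {x : E // x ^ 2 = 1}) : E) = o.elim 1 s * z ^ (e : ℕ) := by
      refine ⟨fun p => ⟨p.1.elim 1 s * z ^ (p.2 : ℕ), ?_⟩, fun o e => rfl⟩
      rcases p with ⟨o, e⟩
      rcases o with _ | k
      · show (1 * z ^ (e : ℕ)) ^ 2 = 1
        rw [one_mul, pow_two, hzpow]
      · show (s k * z ^ (e : ℕ)) ^ 2 = 1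
        rw [pow_two]
        calc s k * z ^ (e : ℕ) * (s k * z ^ (e : ℕ))
            = s k * (z ^ (e : ℕ) * s k) * z ^ (e : ℕ) := by simp only [mul_assoc]
          _ = s k * (s k * z ^ (e : ℕ)) * z ^ (e : ℕ) := by rw [hzcpow e (s k)]
          _ = s k * s k * (z ^ (e : ℕ) * z ^ (e : ℕ)) := by simp only [mul_assoc]
          _ = 1 := by rw [hinvol, hzpow, one_mul]
    have hzpow_inj : ∀ e e' : Fin 2, z ^ (e : ℕ) = z ^ (e' : ℕ) → e = e' := by
      intro e e' h
      fin_cases e <;> fin_cases e'
      · rfl
      · exfalso; apply hz1; simpa using h.symm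
      · exfalso; apply hz1; simpa using h
      · rfl
    have hzpow_mem : ∀ e : Fin 2, z ^ (e : ℕ) ∈ center E := fun e => (center E).pow_mem hz _
    have hginj : Function.Injective g := by
      rintro ⟨o, e⟩ ⟨o', e'⟩ h
      have h' : ((g (o, e) : {x : E // x ^ 2 = 1}) : E) = g (o', e') := congrArg Subtype.val h
      rw [hg, hg] at h'
      rcases o with _ | k <;> rcases o' with _ | k'
      · simp only [Option.elim, one_mul] at h'
        rw [hzpow_inj e e' h']
      · exfalso
        simp only [Option.elim, one_mul] at h'
        apply hsnc k'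
        have : s k' = z ^ (e : ℕ) * (z ^ (e' : ℕ))⁻¹ := by rw [h']; group
        rw [this]
        exact (center E).mul_mem (hzpow_mem e) ((center E).inv_mem (hzpow_mem e'))
      · exfalso
        simp only [Option.elim, one_mul] at h'
        apply hsnc k
        have : s k = z ^ (e' : ℕ) * (z ^ (e : ℕ))⁻¹ := by rw [← h']; group
        rw [this]
        exact (center E).mul_mem (hzpow_mem e') ((center E).inv_mem (hzpow_mem e))
      · simp only [Option.elim] at h'
        by_cases hkk : k = k'
        · subst hkk
          rw [hzpow_inj e e' (mul_left_cancel h')]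
        · exfalso
          apply hnc k k' hkk
          have h1 : s k = s k' * (z ^ (e' : ℕ) * (z ^ (e : ℕ))⁻¹) := by
            rw [← mul_assoc, ← h']; group
          have hcm : z ^ (e' : ℕ) * (z ^ (e : ℕ))⁻¹ ∈ center E :=
            (center E).mul_mem (hzpow_mem e') ((center E).inv_mem (hzpow_mem e))
          have h2' := Subgroup.mem_center_iff.mp hcm (s k')
          rw [h1, mul_assoc, h2', ← mul_assoc]
    have hbij : Function.Bijective g := by
      apply hginj.bijective_of_nat_card_le
      rw [hcount, Nat.card_prod, Finite.card_option, Nat.card_fin, Nat.card_fin]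
    intro x hx
    obtain ⟨⟨o, e⟩, hoe⟩ := hbij.2 ⟨x, by rw [pow_two]; exact hx⟩
    have hxe : x = o.elim 1 s * z ^ (e : ℕ) := by
      rw [← hg, hoe]
    rcases o with _ | k
    · simp only [Option.elim, one_mul] at hxe
      fin_cases e
      · left; simpa using hxe
      · right; left; simpa using hxe
    · simp only [Option.elim] at hxe
      right; right
      refine ⟨k, ?_⟩
      fin_cases e
      · left; simpa using hxe
      · right; simpa using hxe

end ES2Aut2

end Cfsg.Agent.Helper48
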