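import Mathlib
import Cfsg.Agent.Helper48.ES2Aut2

/-!
# Automorphisms of the extraspecial group of order 32 of minus type (helper48)

`aut_es2_minus_32`: the automorphism group maps onto `Sym(5)` with kernel the group of inner
automorphisms, of order 16.
-/

set_option autoImplicit false

namespace Cfsg.Agent.Helper48

open Subgroup
open scoped Classical

section ES2Aut3

variable {E : Type*} [Group E]

theorem aut_es2_minus_32 [Finite E] (hc : ∀ x y : E, x * y * x⁻¹ * y⁻¹ ∈ center E)
    (h2 : Nat.card (center E) = 2) (hcard : Nat.card E = 2 ^ (2 * (1 + 1) + 1))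
    (hP : ¬ ES2Plus E (1 + 1)) :
    ∃ ρ : MulAut E →* Equiv.Perm (Fin 5), Function.Surjective ρ ∧
      ρ.ker = (MulAut.conj : E →* MulAut E).range ∧
      Nat.card (MulAut.conj : E →* MulAut E).range = 16 := by
  obtain ⟨z, hz, hz1, hzz, hzall⟩ := es2_exists_z h2
  have hzc : ∀ g : E, g * z = z * g := Subgroup.mem_center_iff.mp hz
  obtain ⟨s, hinvol, hnc, hgen, hex⟩ := exists_five_involutions hc h2 hcard hP hz hz1 hzz hzall
  have hαz : ∀ α : MulAut E, α z = z := by
    intro α
    have hmem : α z ∈ center E := by
      rw [Subgroup.mem_center_iff]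
      intro g
      have h := hzc (α⁻¹ g)
      have h' := congrArg α h
      rw [map_mul, map_mul] at h'
      have h3 : α (α⁻¹ g) = g := by rw [← MulAut.mul_apply, mul_inv_cancel]; rfl
      rw [h3] at h'
      exact h'
    rcases hzall _ hmem with h | h
    · exact absurd ((MulEquiv.map_eq_one_iff α).mp h) hz1
    · exact h
  have hother : ∀ k : Fin 5, ∃ l : Fin 5, l ≠ k := by
    intro k
    by_cases h0 : k = 0
    · exact ⟨1, by rw [h0]; decide⟩
    · exact ⟨0, fun h => h0 h.symm⟩
  have hs1 : ∀ k, s k ≠ 1 := by
    intro k h
    obtain ⟨l, hl⟩ := hother k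
    apply hnc l k hl
    rw [h, mul_one, one_mul]
  have hsz : ∀ k, s k ≠ z := by
    intro k h
    obtain ⟨l, hl⟩ := hother k
    apply hnc l k hl
    rw [h]
    exact hzc (s l)
  have huniq : ∀ k l : Fin 5, (s k = s l ∨ s k = s l * z) → k = l := by
    intro k l h
    by_contra hkl
    apply hnc k l hkl
    rcases h with h | h
    · rw [h]
    · rw [h, mul_assoc, ← hzc (s l), ← mul_assoc]
  have key : ∀ (α : MulAut E) (k : Fin 5), ∃ l, α (s k) = s l ∨ α (s k) = s l * z := by
    intro α k
    have h1 : α (s k) * α (s k) = 1 := by rw [← map_mul, hinvol, map_one]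
    rcases hex _ h1 with h | h | h
    · exact absurd ((MulEquiv.map_eq_one_iff α).mp h) (hs1 k)
    · exfalso
      apply hsz k
      have : α (s k) = α z := by rw [h, hαz]
      exact α.injective this
    · exact h
  choose π hπ using key
  have hπuniq : ∀ (α : MulAut E) (k l : Fin 5), (α (s k) = s l ∨ α (s k) = s l * z) →
      π α k = l := by
    intro α k l h
    apply huniq
    rcases hπ α k with h1 | h1 <;> rcases h with h2' | h2'
    · left; rw [← h1, h2']
    · right; rw [← h1, h2']
    · right
      have : s (π α k) * z = s l := by rw [← h1, h2']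
      rw [← this, mul_assoc, hzz, mul_one]
    · left
      have : s (π α k) * z = s l * z := by rw [← h1, h2']
      exact mul_right_cancel this
  have hπ1 : ∀ k, π 1 k = k := fun k => hπuniq 1 k k (Or.inl rfl)
  have hπmul : ∀ (α β : MulAut E) (k : Fin 5), π (α * β) k = π α (π β k) := by
    intro α β k
    apply hπuniq
    rw [MulAut.mul_apply]
    rcases hπ β k with h1 | h1 <;> rcases hπ α (π β k) with h2' | h2'
    · left; rw [h1, h2']
    · right; rw [h1, h2']
    · right; rw [h1, map_mul, hαz, h2']
    · left; rw [h1, map_mul, hαz, h2', mul_assoc, hzz, mul_one]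
  obtain ⟨ρ, hρ⟩ : ∃ ρ : MulAut E →* Equiv.Perm (Fin 5), ∀ α k, ρ α k = π α k := by
    refine ⟨{ toFun := fun α => ⟨π α, π α⁻¹, fun k => by rw [← hπmul, inv_mul_cancel, hπ1],
                fun k => by rw [← hπmul, mul_inv_cancel, hπ1]⟩
              map_one' := Equiv.ext fun k => hπ1 k
              map_mul' := fun α β => Equiv.ext fun k => hπmul α β k }, fun α k => rfl⟩
  have hinn : (MulAut.conj : E →* MulAut E).range ≤ ρ.ker := by
    rintro _ ⟨g, rfl⟩
    rw [MonoidHom.mem_ker]
    apply Equiv.ext
    intro k
    rw [hρ]
    show π (MulAut.conj g) k = k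
    apply hπuniq
    rcases es2_comm_or hc hz hzall g (s k) with h | h
    · left
      show g * s k * g⁻¹ = s k
      rw [h, mul_inv_cancel_right]
    · right
      show g * s k * g⁻¹ = s k * z
      rw [h, mul_assoc (s k) g z, hzc g, ← mul_assoc, mul_inv_cancel_right]
  have hkercard : Nat.card ρ.ker ≤ 16 := by
    have hmem : ∀ α ∈ ρ.ker, ∀ k, α (s k) = s k ∨ α (s k) = s k * z := by
      intro α hα k
      have h1 : π α k = k := by
        rw [← hρ, MonoidHom.mem_ker.mp hα]; rfl
      have := hπ α k
      rwa [h1] at this
    have hszne : ∀ k, s k * z ≠ s k := by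
      intro k h
      exact hz1 (mul_left_cancel (h.trans (mul_one _).symm))
    obtain ⟨f, hf⟩ : ∃ f : ρ.ker → (Fin 4 → Bool), ∀ α k,
        f α k = decide ((α : MulAut E) (s k.castSucc) = s k.castSucc) := ⟨_, fun _ _ => rfl⟩
    have hfinj : Function.Injective f := by
      intro α β hαβ
      apply Subtype.ext
      have hag : ∀ k : Fin 4, (α : MulAut E) (s k.castSucc) = (β : MulAut E) (s k.castSucc) := by
        intro k
        have h1 := congrFun hαβ k
        rw [hf, hf] at h1
        rcases hmem α α.2 k.castSucc with ha | ha <;> rcases hmem β β.2 k.castSucc with hb | hb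
        · rw [ha, hb]
        · exfalso
          rw [ha, hb] at h1
          simp [hszne] at h1
        · exfalso
          rw [ha, hb] at h1
          simp [hszne] at h1
        · rw [ha, hb]
      have heq : (α : MulAut E).toMonoidHom = (β : MulAut E).toMonoidHom := by
        apply MonoidHom.eq_of_eqOn_dense hgen
        rintro x (rfl | rfl | rfl | hx)
        · exact hag 0
        · exact hag 1
        · exact hag 2
        · rw [Set.mem_singleton_iff] at hx
          rw [hx]; exact hag 3
      apply MulEquiv.ext
      intro x
      exact congrArg (fun φ : E →* E => φ x) heq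
    have := Nat.card_le_card_of_injective f hfinj
    rw [Nat.card_fun, Nat.card_fin, Nat.card_eq_fintype_card (α := Bool), Fintype.card_bool] at this
    norm_num at this
    exact this
  have hker_conj : (MulAut.conj : E →* MulAut E).ker = center E := by
    ext g
    rw [MonoidHom.mem_ker, Subgroup.mem_center_iff]
    constructor
    · intro h x
      have h' : g * x * g⁻¹ = x := congrArg (fun φ : MulAut E => φ x) h
      calc x * g = (g * x * g⁻¹) * g := by rw [h']
        _ = g * x := by rw [inv_mul_cancel_right]
    · intro h
      apply MulEquiv.ext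
      intro x
      show g * x * g⁻¹ = x
      rw [← h x, mul_inv_cancel_right]
  have hInn : Nat.card (MulAut.conj : E →* MulAut E).range = 16 := by
    have h1 := Subgroup.card_mul_index (MulAut.conj : E →* MulAut E).ker
    rw [Subgroup.index_ker, hker_conj, h2, hcard] at h1
    have h3 : (2:ℕ) ^ (2 * (1 + 1) + 1) = 32 := by norm_num
    rw [h3] at h1
    omega
  have hsurj : Function.Surjective ρ := by
    rw [← MonoidHom.range_eq_top, eq_top_iff, ← Equiv.Perm.closure_isSwap, closure_le]
    rintro σ ⟨k, l, hkl, rfl⟩
    have haa : s k * s l * (s k * s l) = z := by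
      have h := es2_comm_of_ne hc hz hzall (hnc l k (Ne.symm hkl))
      calc s k * s l * (s k * s l) = s k * (s l * s k) * s l := by simp only [mul_assoc]
        _ = s k * (s k * s l * z) * s l := by rw [h]
        _ = s k * s k * (s l * (z * s l)) := by simp only [mul_assoc]
        _ = s k * s k * (s l * (s l * z)) := by rw [← hzc (s l)]
        _ = (s k * s k) * (s l * s l) * z := by simp only [mul_assoc]
        _ = z := by rw [hinvol, hinvol, one_mul, one_mul]
    obtain ⟨τ, hτc, hτn⟩ := exists_transvection hc hz hzz hzall (s k * s l) haa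
    refine ⟨τ, ?_⟩
    apply Equiv.ext
    intro m
    rw [hρ]
    by_cases hmk : m = k
    · subst hmk
      rw [Equiv.swap_apply_left]
      apply hπuniq
      left
      have hne : s m * (s m * s l) ≠ s m * s l * s m := by
        rw [← mul_assoc, hinvol, one_mul]
        intro h
        apply hnc m l hkl
        calc s m * s l = s m * (s m * s l * s m) := by rw [← h]
          _ = (s m * s m) * s l * s m := by simp only [mul_assoc]
          _ = s l * s m := by rw [hinvol, one_mul]
      rw [hτn _ hne, ← mul_assoc, hinvol, one_mul]
    · by_cases hml : m = l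
      · subst hml
        rw [Equiv.swap_apply_right]
        apply hπuniq
        right
        have hcomm := es2_comm_of_ne hc hz hzall (hnc m k hmk)
        have hval : s m * (s k * s m) = s k * z := by
          calc s m * (s k * s m) = (s m * s k) * s m := by rw [mul_assoc]
            _ = (s k * s m * z) * s m := by rw [hcomm]
            _ = s k * (s m * (z * s m)) := by simp only [mul_assoc]
            _ = s k * (s m * (s m * z)) := by rw [← hzc (s m)]
            _ = s k * ((s m * s m) * z) := by simp only [mul_assoc]
            _ = s k * z := by rw [hinvol, one_mul]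
        have hne : s m * (s k * s m) ≠ s k * s m * s m := by
          rw [hval, mul_assoc, hinvol, mul_one]
          intro h
          exact hz1 (mul_left_cancel (h.trans (mul_one _).symm))
        rw [hτn _ hne, hval]
      · rw [Equiv.swap_apply_of_ne_of_ne hmk hml]
        apply hπuniq
        left
        apply hτc
        have h1 := es2_comm_of_ne hc hz hzall (hnc m k hmk)
        have h2' := es2_comm_of_ne hc hz hzall (hnc m l hml)
        calc s m * (s k * s l) = (s m * s k) * s l := by rw [mul_assoc]
          _ = (s k * s m * z) * s l := by rw [h1]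
          _ = s k * (s m * (z * s l)) := by simp only [mul_assoc]
          _ = s k * (s m * (s l * z)) := by rw [← hzc (s l)]
          _ = s k * ((s m * s l) * z) := by simp only [mul_assoc]
          _ = s k * ((s l * s m * z) * z) := by rw [h2']
          _ = s k * s l * s m * (z * z) := by simp only [mul_assoc]
          _ = s k * s l * s m := by rw [hzz, mul_one]
  exact ⟨ρ, hsurj, (Subgroup.eq_of_le_of_card_ge hinn (by rw [hInn]; exact hkercard)).symm, hInn⟩

end ES2Aut3

end Cfsg.Agent.Helper48
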