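import Cfsg.Agent.Helper48.ExtraP2

/-!
# Faithful action of an extraspecial `p`-group on an elementary abelian `r`-group (helper48)

Elementary proof of the bound `|A| ≥ r^(n p^w)`.
-/

set_option autoImplicit false

namespace Cfsg.Agent.Helper48

open Subgroup
open scoped Classical

section Act

variable {E : Type*} [Group E] [Fintype E] {A : Type*} [CommGroup A] {p r : ℕ}

/-- The norm with respect to the centre: the product of the conjugates under `Z(E)`. -/
noncomputable def normZ (ρ : E →* MulAut A) : A →* A where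
  toFun a := ∏ u : center E, ρ (u : E) a
  map_one' := by simp
  map_mul' a b := by simp [Finset.prod_mul_distrib]

theorem normZ_apply (ρ : E →* MulAut A) (a : A) :
    normZ ρ a = ∏ u : center E, ρ (u : E) a := rfl

theorem normZ_act (ρ : E →* MulAut A) (e : E) (a : A) :
    normZ ρ (ρ e a) = ρ e (normZ ρ a) := by
  rw [normZ_apply, normZ_apply, map_prod]
  apply Finset.prod_congr rfl
  intro u _
  have h : (u : E) * e = e * u := (Subgroup.mem_center_iff.mp u.2 e).symm
  rw [← MulAut.mul_apply, ← map_mul, h, map_mul, MulAut.mul_apply]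

theorem mem_ker_normZ_act (ρ : E →* MulAut A) (e : E) {a : A} (ha : a ∈ (normZ ρ).ker) :
    ρ e a ∈ (normZ ρ).ker := by
  rw [MonoidHom.mem_ker] at ha ⊢
  rw [normZ_act, ha, map_one]

/-- If a nontrivial central element fixes `a`, the whole centre does. -/
theorem center_fix_of_fix [Fact p.Prime] (hp : Nat.card (center E) = p) (ρ : E →* MulAut A)
    {u : E} (hu : u ∈ center E) (hu1 : u ≠ 1) {a : A} (hfix : ρ u a = a) (u' : center E) :
    ρ (u' : E) a = a := by
  have htop : zpowers (⟨u, hu⟩ : center E) = ⊤ :=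
    zpowers_eq_top_of_prime_card hp (fun h => hu1 (congrArg Subtype.val h))
  have hmem : u' ∈ zpowers (⟨u, hu⟩ : center E) := by rw [htop]; exact mem_top _
  obtain ⟨k, hk⟩ := Subgroup.mem_zpowers_iff.mp hmem
  have hk' : (u' : E) = u ^ k := by rw [← hk]; simp
  have hstab : ρ u ∈ MulAction.stabilizer (MulAut A) a := by
    rw [MulAction.mem_stabilizer_iff]
    exact hfix
  have h2 : (ρ u) ^ k ∈ MulAction.stabilizer (MulAut A) a := zpow_mem hstab k
  rw [MulAction.mem_stabilizer_iff] at h2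
  rw [hk', map_zpow]
  exact h2

theorem eq_one_of_pow_eq_one_of_coprime {a : A} {m r : ℕ} (hm : a ^ m = 1) (hr : a ^ r = 1)
    (hcop : Nat.Coprime m r) : a = 1 := by
  have h1 : orderOf a ∣ Nat.gcd m r :=
    Nat.dvd_gcd (orderOf_dvd_of_pow_eq_one hm) (orderOf_dvd_of_pow_eq_one hr)
  rw [hcop, Nat.dvd_one] at h1
  exact orderOf_eq_one_iff.mp h1

/-- A nontrivial central element has no nontrivial fixed point in the kernel of the norm. -/
theorem eq_one_of_center_fix [Fact p.Prime] [Fact r.Prime] (hpr : p ≠ r)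
    (hp : Nat.card (center E) = p) (ρ : E →* MulAut A) (hr : ∀ a : A, a ^ r = 1)
    {u : E} (hu : u ∈ center E) (hu1 : u ≠ 1) {a : A} (ha : a ∈ (normZ ρ).ker)
    (hfix : ρ u a = a) : a = 1 := by
  have h1 : normZ ρ a = a ^ p := by
    rw [normZ_apply, Finset.prod_congr rfl (fun u' _ => center_fix_of_fix hp ρ hu hu1 hfix u'),
      Finset.prod_const, Finset.card_univ, ← Nat.card_eq_fintype_card, hp]
  rw [MonoidHom.mem_ker, h1] at ha
  exact eq_one_of_pow_eq_one_of_coprime ha (hr a)
    ((Nat.coprime_primes Fact.out Fact.out).mpr hpr)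

/-- Orthogonality: the product of the conjugates of `a ∈ ker N` under a nontrivial homomorphic
family of central elements is trivial. -/
theorem prod_hom_center_eq_one [Fact p.Prime] [Fact r.Prime] (hpr : p ≠ r)
    (hp : Nat.card (center E) = p) (ρ : E →* MulAut A) (hr : ∀ a : A, a ^ r = 1)
    {S : Type*} [Group S] [Fintype S] (ψ : S →* center E) (hψ : ∃ s, ψ s ≠ 1)
    {a : A} (ha : a ∈ (normZ ρ).ker) : ∏ s : S, ρ (ψ s : E) a = 1 := by
  obtain ⟨s₀, hs₀⟩ := hψ
  apply eq_one_of_center_fix hpr hp ρ hr (ψ s₀).2 (fun h => hs₀ (Subtype.ext h))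
  · exact Subgroup.prod_mem _ (fun s _ => mem_ker_normZ_act ρ _ ha)
  · rw [map_prod]
    have h1 : ∀ s : S, ρ (ψ s₀ : E) (ρ (ψ s : E) a) = ρ (ψ (s₀ * s) : E) a := by
      intro s
      rw [← MulAut.mul_apply, ← map_mul, map_mul ψ, Subgroup.coe_mul]
    rw [Finset.prod_congr rfl (fun s _ => h1 s)]
    exact Fintype.prod_equiv (Equiv.mulLeft s₀) _ _ (fun s => rfl)

/-- The fixed points of `D` in the kernel of the norm. -/
def fixV (ρ : E →* MulAut A) (D : Subgroup E) : Subgroup A where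
  carrier := {a | a ∈ (normZ ρ).ker ∧ ∀ d ∈ D, ρ d a = a}
  one_mem' := ⟨one_mem _, fun d _ => map_one _⟩
  mul_mem' := fun ha hb => ⟨mul_mem ha.1 hb.1, fun d hd => by rw [map_mul, ha.2 d hd, hb.2 d hd]⟩
  inv_mem' := fun ha => ⟨inv_mem ha.1, fun d hd => by rw [map_inv, ha.2 d hd]⟩

theorem mem_fixV {ρ : E →* MulAut A} {D : Subgroup E} {a : A} :
    a ∈ fixV ρ D ↔ a ∈ (normZ ρ).ker ∧ ∀ d ∈ D, ρ d a = a := Iff.rfl

/-- `C_E(D)` preserves the fixed points of `D`. -/
theorem fixV_act (ρ : E →* MulAut A) (D : Subgroup E) {x : E}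
    (hx : x ∈ centralizer (D : Set E)) {a : A} (ha : a ∈ fixV ρ D) : ρ x a ∈ fixV ρ D := by
  refine ⟨mem_ker_normZ_act ρ x ha.1, fun d hd => ?_⟩
  have h : d * x = x * d := mem_centralizer_iff.mp hx d hd
  rw [← MulAut.mul_apply, ← map_mul, h, map_mul, MulAut.mul_apply, ha.2 d hd]

/-- For `D` meeting the centre trivially, `D` has a nontrivial fixed point in `ker N`. -/
theorem exists_fixV_ne_one [Fact p.Prime] [Fact r.Prime] (hpr : p ≠ r)
    (hc : ∀ x y : E, x * y * x⁻¹ * y⁻¹ ∈ center E)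
    (hp : Nat.card (center E) = p) (k : ℕ) (hcard : Nat.card E = p ^ k) (ρ : E →* MulAut A)
    (hr : ∀ a : A, a ^ r = 1) (D : Subgroup E) (hD : D ⊓ center E = ⊥) {a : A}
    (ha : a ∈ (normZ ρ).ker) (ha1 : a ≠ 1) : ∃ b ∈ fixV ρ D, b ≠ 1 := by
  by_contra hcon
  push Not at hcon
  have hM : ∀ e : E, ∏ d : D, ρ ((d : E) * e) a = 1 := by
    intro e
    apply hcon
    refine ⟨Subgroup.prod_mem _ (fun d _ => mem_ker_normZ_act ρ _ ha), fun d' hd' => ?_⟩
    rw [map_prod]
    have h1 : ∀ d : D, ρ d' (ρ ((d : E) * e) a) = ρ (((⟨d', hd'⟩ * d : D) : E) * e) a := by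
      intro d
      rw [← MulAut.mul_apply, ← map_mul, Subgroup.coe_mul, mul_assoc]
    rw [Finset.prod_congr rfl (fun d _ => h1 d)]
    exact Fintype.prod_equiv (Equiv.mulLeft (⟨d', hd'⟩ : D)) _ _ (fun d => rfl)
  have h2 : ∏ e : E, ρ e⁻¹ (∏ d : D, ρ ((d : E) * e) a) = 1 := by
    apply Finset.prod_eq_one
    intro e _
    rw [hM e, map_one]
  have h3 : ∏ e : E, ρ e⁻¹ (∏ d : D, ρ ((d : E) * e) a) =
      ∏ d : D, ∏ e : E, ρ (e⁻¹ * d * e) a := by
    rw [Finset.prod_comm]
    apply Finset.prod_congr rfl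
    intro e _
    rw [map_prod]
    apply Finset.prod_congr rfl
    intro d _
    rw [← MulAut.mul_apply, ← map_mul, mul_assoc]
  have h4 : ∀ d : D, ∏ e : E, ρ (e⁻¹ * d * e) a = if d = 1 then a ^ Fintype.card E else 1 := by
    intro d
    split_ifs with hd
    · subst hd
      simp
    · have hdc : (d : E) ∉ center E := by
        intro hdc
        have h : (d : E) ∈ D ⊓ center E := Subgroup.mem_inf.mpr ⟨d.2, hdc⟩
        rw [hD, Subgroup.mem_bot] at h
        exact hd (Subtype.ext h)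
      have h5 : ∀ e : E, ρ (e⁻¹ * d * e) a = ρ d (ρ (commHom hc d e⁻¹ : E) a) := by
        intro e
        have h6 : e⁻¹ * d * e = d * (commHom hc d e⁻¹ : E) := by
          have hcen := Subgroup.mem_center_iff.mp (commHom hc d e⁻¹).2 d
          rw [hcen, commHom_apply_coe]
          group
        rw [h6, map_mul, MulAut.mul_apply]
      rw [Finset.prod_congr rfl (fun e _ => h5 e), ← map_prod]
      have h7 : ∏ e : E, ρ (commHom hc d e⁻¹ : E) a = 1 := by
        have h8 := prod_hom_center_eq_one hpr hp ρ hr (commHom hc d) (by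
          by_contra hall
          push Not at hall
          apply hdc
          rw [Subgroup.mem_center_iff]
          intro g
          exact (commHom_eq_one_iff hc d g).mp (hall g)) ha
        rw [← h8]
        exact Fintype.prod_equiv (Equiv.inv E) _ _ (fun e => rfl)
      rw [h7, map_one]
  rw [h3, Finset.prod_congr rfl (fun d _ => h4 d)] at h2
  simp only [Finset.prod_ite_eq', Finset.mem_univ, if_true] at h2
  apply ha1
  apply eq_one_of_pow_eq_one_of_coprime h2 (hr a)
  rw [← Nat.card_eq_fintype_card, hcard]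
  exact Nat.Coprime.pow_left k ((Nat.coprime_primes Fact.out Fact.out).mpr hpr)

/-- The fixed-point group of `D` in `ker N` has order `r^m` with `m ≥ n`. -/
theorem card_fixV_ge [Fact p.Prime] [Fact r.Prime] [Finite A] (hpr : p ≠ r)
    (hp : Nat.card (center E) = p) (ρ : E →* MulAut A) (hr : ∀ a : A, a ^ r = 1)
    (D : Subgroup E) (hW : ∃ b ∈ fixV ρ D, b ≠ 1) (n : ℕ)
    (hmin : ∀ k : ℕ, 1 ≤ k → p ∣ r ^ k - 1 → n ≤ k) :
    ∃ m, n ≤ m ∧ 1 ≤ m ∧ Nat.card (fixV ρ D) = r ^ m := by
  have hPG : IsPGroup r (fixV ρ D) := fun g => ⟨1, by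
    rw [pow_one]
    exact Subtype.ext (by simpa using hr g)⟩
  obtain ⟨m, hm⟩ := IsPGroup.iff_card.mp hPG
  have hm1 : 1 ≤ m := by
    by_contra h
    have h0 : m = 0 := by omega
    subst h0
    rw [pow_zero, Subgroup.card_eq_one] at hm
    obtain ⟨b, hb, hb1⟩ := hW
    rw [hm, Subgroup.mem_bot] at hb
    exact hb1 hb
  refine ⟨m, ?_, hm1, hm⟩
  apply hmin m hm1
  have hp' : p.Prime := Fact.out
  have hnt : Nontrivial (center E) := by
    rw [← Finite.one_lt_card_iff_nontrivial, hp]
    exact hp'.one_lt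
  obtain ⟨z, hz⟩ := exists_ne (1 : center E)
  let _ : MulAction (center E) (fixV ρ D) :=
    { smul := fun u w => ⟨ρ (u : E) w, fixV_act ρ D (Subgroup.center_le_centralizer _ u.2) w.2⟩
      one_smul := fun w => Subtype.ext (by
        show ρ ((1 : center E) : E) (w : A) = w
        simp)
      mul_smul := fun u v w => Subtype.ext (by
        show ρ ((u * v : center E) : E) (w : A) = ρ (u : E) (ρ (v : E) (w : A))
        rw [Subgroup.coe_mul, map_mul, MulAut.mul_apply]) }
  have hfp := (IsPGroup.of_card (n := 1) (by rw [hp, pow_one]) :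
    IsPGroup p (center E)).card_modEq_card_fixedPoints (fixV ρ D)
  have hfix1 : Nat.card (MulAction.fixedPoints (center E) (fixV ρ D)) = 1 := by
    rw [Nat.card_eq_one_iff_unique]
    have hone : ∀ a : MulAction.fixedPoints (center E) (fixV ρ D), a = ⟨1, fun u =>
        Subtype.ext (by
          show ρ (u : E) ((1 : fixV ρ D) : A) = ((1 : fixV ρ D) : A)
          simp)⟩ := by
      rintro ⟨a, ha⟩
      have h1 : ρ (z : E) (a : A) = a := congrArg Subtype.val (ha z)
      have ha1 : (a : A) = 1 := eq_one_of_center_fix hpr hp ρ hr z.2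
        (fun h => hz (Subtype.ext h)) a.2.1 h1
      exact Subtype.ext (Subtype.ext ha1)
    exact ⟨⟨fun a b => (hone a).trans (hone b).symm⟩, ⟨⟨1, fun u => Subtype.ext (by
          show ρ (u : E) ((1 : fixV ρ D) : A) = ((1 : fixV ρ D) : A)
          simp)⟩⟩⟩
  rw [hfix1, hm] at hfp
  exact (Nat.modEq_iff_dvd' (Nat.one_le_pow _ _ (Fact.out : r.Prime).pos)).mp hfp.symm

/-- If `C_E(D)` is nonabelian, the fixed-point group of `D` in `ker N` does not have order `r`. -/
theorem card_fixV_ne_prime [Fact p.Prime] [Fact r.Prime] (hpr : p ≠ r)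
    (hc : ∀ x y : E, x * y * x⁻¹ * y⁻¹ ∈ center E)
    (hp : Nat.card (center E) = p) (ρ : E →* MulAut A) (hr : ∀ a : A, a ^ r = 1)
    (D : Subgroup E) (hW : ∃ b ∈ fixV ρ D, b ≠ 1) {x y : E}
    (hx : x ∈ centralizer (D : Set E)) (hy : y ∈ centralizer (D : Set E))
    (hxy : x * y ≠ y * x) : Nat.card (fixV ρ D) ≠ r := by
  intro hcardW
  have hcyc : IsCyclic (fixV ρ D) := isCyclic_of_prime_card hcardW
  obtain ⟨g₀, hg₀⟩ := hcyc.exists_generator
  obtain ⟨i, hi⟩ := Subgroup.mem_zpowers_iff.mp (hg₀ ⟨ρ x g₀, fixV_act ρ D hx g₀.2⟩)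
  obtain ⟨j, hj⟩ := Subgroup.mem_zpowers_iff.mp (hg₀ ⟨ρ y g₀, fixV_act ρ D hy g₀.2⟩)
  have hi' : ρ x (g₀ : A) = (g₀ : A) ^ i := by
    have := congrArg Subtype.val hi
    simpa using this.symm
  have hj' : ρ y (g₀ : A) = (g₀ : A) ^ j := by
    have := congrArg Subtype.val hj
    simpa using this.symm
  have h1 : ρ (x * y) (g₀ : A) = ρ (y * x) (g₀ : A) := by
    rw [map_mul, map_mul, MulAut.mul_apply, MulAut.mul_apply, hj', hi', map_zpow, map_zpow,
      hi', hj', ← zpow_mul, ← zpow_mul, mul_comm]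
  have hu : (y * x)⁻¹ * (x * y) ∈ center E := by
    have h := hc x⁻¹ y⁻¹
    have e : (y * x)⁻¹ * (x * y) = x⁻¹ * y⁻¹ * x⁻¹⁻¹ * y⁻¹⁻¹ := by group
    rw [e]
    exact h
  have hu1 : (y * x)⁻¹ * (x * y) ≠ 1 := by
    intro h
    exact hxy (inv_mul_eq_one.mp h).symm
  have hfix : ρ ((y * x)⁻¹ * (x * y)) (g₀ : A) = g₀ := by
    rw [map_mul, MulAut.mul_apply, h1, ← MulAut.mul_apply, ← map_mul, inv_mul_cancel, map_one,
      MulAut.one_apply]
  have hg1 : (g₀ : A) = 1 := eq_one_of_center_fix hpr hp ρ hr hu hu1 g₀.2.1 hfix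
  obtain ⟨b, hb, hb1⟩ := hW
  obtain ⟨k, hk⟩ := Subgroup.mem_zpowers_iff.mp (hg₀ ⟨b, hb⟩)
  apply hb1
  have := congrArg Subtype.val hk
  simp only [Subgroup.coe_zpow, hg1, one_zpow] at this
  exact this.symm

/-- Independence of the fixed-point groups of the conjugates of `D`. -/
theorem card_fixV_pow_le [Fact p.Prime] [Fact r.Prime] [Finite A] (hpr : p ≠ r)
    (hc : ∀ x y : E, x * y * x⁻¹ * y⁻¹ ∈ center E)
    (hp : Nat.card (center E) = p) (k : ℕ) (hcard : Nat.card E = p ^ k) (ρ : E →* MulAut A)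
    (hr : ∀ a : A, a ^ r = 1) (D : Subgroup E) :
    Nat.card (fixV ρ D) ^ (centralizer (D : Set E)).index ≤ Nat.card A := by
  rw [Subgroup.index, ← Nat.card_fun]
  apply Nat.card_le_card_of_injective
    (fun f : E ⧸ centralizer (D : Set E) → fixV ρ D =>
      ∏ c : E ⧸ centralizer (D : Set E), ρ (Quotient.out c) (f c : A))
  intro f f' hff'
  funext c₀
  have hN : ∀ (g : E ⧸ centralizer (D : Set E) → fixV ρ D),
      ∏ d : D, ρ (Quotient.out c₀ * d * (Quotient.out c₀)⁻¹)
        (∏ c : E ⧸ centralizer (D : Set E), ρ (Quotient.out c) (g c : A)) =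
      (ρ (Quotient.out c₀) (g c₀ : A)) ^ Fintype.card D := by
    intro g
    have h1 : ∀ d : D, ρ (Quotient.out c₀ * d * (Quotient.out c₀)⁻¹)
        (∏ c : E ⧸ centralizer (D : Set E), ρ (Quotient.out c) (g c : A)) =
        ∏ c : E ⧸ centralizer (D : Set E),
          ρ (Quotient.out c₀ * d * (Quotient.out c₀)⁻¹ * Quotient.out c) (g c : A) := by
      intro d
      rw [map_prod]
      apply Finset.prod_congr rfl
      intro c _
      rw [← MulAut.mul_apply, ← map_mul]
    rw [Finset.prod_congr rfl (fun d _ => h1 d), Finset.prod_comm, Finset.prod_eq_single c₀]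
    · rw [← Finset.card_univ, ← Finset.prod_const]
      apply Finset.prod_congr rfl
      intro d _
      have h2 : Quotient.out c₀ * d * (Quotient.out c₀)⁻¹ * Quotient.out c₀ =
          Quotient.out c₀ * d := by group
      rw [h2, map_mul, MulAut.mul_apply, (g c₀).2.2 d d.2]
    · intro c _ hcc
      obtain ⟨x, hxdef⟩ : ∃ x : E, x = (Quotient.out c)⁻¹ * Quotient.out c₀ := ⟨_, rfl⟩
      have hx : x ∉ centralizer (D : Set E) := by
        intro hx
        apply hcc
        rw [hxdef] at hx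
        have := QuotientGroup.eq.mpr hx
        rwa [QuotientGroup.out_eq', QuotientGroup.out_eq'] at this
      have h3 : ∀ d : D, ρ (Quotient.out c₀ * d * (Quotient.out c₀)⁻¹ * Quotient.out c) (g c : A) =
          ρ (Quotient.out c) (ρ (commHom hc x⁻¹ (d : E) : E) (g c : A)) := by
        intro d
        have h4 : Quotient.out c₀ * d * (Quotient.out c₀)⁻¹ * Quotient.out c =
            Quotient.out c * ((commHom hc x⁻¹ (d : E) : E) * d) := by
          rw [← commHom_swap hc d x, commHom_apply_coe, hxdef]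
          group
        rw [h4, map_mul, map_mul, MulAut.mul_apply, MulAut.mul_apply, (g c).2.2 d d.2]
      rw [Finset.prod_congr rfl (fun d _ => h3 d), ← map_prod]
      have h5 : ∏ d : D, ρ (commHom hc x⁻¹ (d : E) : E) (g c : A) = 1 := by
        apply prod_hom_center_eq_one hpr hp ρ hr ((commHom hc x⁻¹).comp D.subtype) _ (g c).2.1
        by_contra hall
        push Not at hall
        apply hx
        have h6 : x⁻¹ ∈ centralizer (D : Set E) := by
          rw [mem_centralizer_iff]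
          intro d hd
          exact (commHom_eq_one_iff hc x⁻¹ d).mp (hall ⟨d, hd⟩)
        simpa using inv_mem h6
      rw [h5, map_one]
    · intro h
      exact absurd (Finset.mem_univ _) h
  have e1 := hN f
  have e2 := hN f'
  have hff'' : (∏ c : E ⧸ centralizer (D : Set E), ρ (Quotient.out c) (f c : A)) =
      ∏ c : E ⧸ centralizer (D : Set E), ρ (Quotient.out c) (f' c : A) := hff'
  rw [hff''] at e1
  have e3 : (ρ (Quotient.out c₀) (f c₀ : A)) ^ Fintype.card D =
      (ρ (Quotient.out c₀) (f' c₀ : A)) ^ Fintype.card D := e1.symm.trans e2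
  have hcop : Nat.Coprime (Fintype.card D) r := by
    have hdvd : Fintype.card D ∣ p ^ k := by
      rw [← hcard, ← Nat.card_eq_fintype_card]
      exact Subgroup.card_subgroup_dvd_card D
    obtain ⟨j, -, hj⟩ := (Nat.dvd_prime_pow Fact.out).mp hdvd
    rw [hj]
    exact Nat.Coprime.pow_left j ((Nat.coprime_primes Fact.out Fact.out).mpr hpr)
  have e4 : ρ (Quotient.out c₀) (f c₀ : A) * (ρ (Quotient.out c₀) (f' c₀ : A))⁻¹ = 1 := by
    apply eq_one_of_pow_eq_one_of_coprime _ (hr _) hcop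
    rw [mul_pow, inv_pow, e3, mul_inv_cancel]
  have e5 : ρ (Quotient.out c₀) (f c₀ : A) = ρ (Quotient.out c₀) (f' c₀ : A) :=
    mul_inv_eq_one.mp e4
  exact Subtype.ext ((ρ (Quotient.out c₀)).injective e5)

end Act

section Main

variable {E : Type*} [Group E] [Finite E] {A : Type*} [CommGroup A] [Finite A] {p r : ℕ}

/-- **Faithful modules of extraspecial groups.** If an extraspecial group `E` of order `p^(2w+1)`
acts on an elementary abelian `r`-group `A` (`r ≠ p`) with its centre acting nontrivially, and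
`n` is the order of `r` modulo `p`, then `|A| ≥ r^(n p^w)`. -/
theorem extraspecial_faithful_card_ge [Fact p.Prime] [Fact r.Prime] (hpr : p ≠ r)
    (hE : IsExtraspecial p E) (w : ℕ) (hcard : Nat.card E = p ^ (2 * w + 1))
    (ρ : E →* MulAut A) (hfaith : ∀ z ∈ center E, z ≠ 1 → ρ z ≠ 1)
    (hr : ∀ a : A, a ^ r = 1) (n : ℕ) (hn : 1 ≤ n)
    (hmin : ∀ k : ℕ, 1 ≤ k → p ∣ r ^ k - 1 → n ≤ k) :
    r ^ (n * p ^ w) ≤ Nat.card A := by
  have := Fintype.ofFinite E
  have hc := comm_mem_center_of_isExtraspecial hE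
  have hp : Nat.card (center E) = p := hE.2
  have hp' : p.Prime := Fact.out
  have hr' : r.Prime := Fact.out
  -- the kernel of the norm is nontrivial
  have hnt : Nontrivial (center E) := by
    rw [← Finite.one_lt_card_iff_nontrivial, hp]
    exact hp'.one_lt
  obtain ⟨z, hz⟩ := exists_ne (1 : center E)
  have hρz : ρ (z : E) ≠ 1 := hfaith z z.2 (fun h => hz (Subtype.ext h))
  obtain ⟨a, ha⟩ : ∃ a : A, ρ (z : E) a ≠ a := by
    by_contra hall
    push Not at hall
    exact hρz (MulEquiv.ext hall)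
  have hb : a⁻¹ * ρ (z : E) a ∈ (normZ ρ).ker := by
    rw [MonoidHom.mem_ker, map_mul, map_inv]
    have h1 : normZ ρ (ρ (z : E) a) = normZ ρ a := by
      rw [normZ_apply, normZ_apply]
      have h2 : ∀ u : center E, ρ (u : E) (ρ (z : E) a) = ρ ((u * z : center E) : E) a := by
        intro u
        rw [← MulAut.mul_apply, ← map_mul, Subgroup.coe_mul]
      rw [Finset.prod_congr rfl (fun u _ => h2 u)]
      exact Fintype.prod_equiv (Equiv.mulRight z) _ _ (fun u => rfl)
    rw [h1, inv_mul_cancel]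
  have hb1 : a⁻¹ * ρ (z : E) a ≠ 1 := by
    intro h
    exact ha (inv_mul_eq_one.mp h).symm
  -- a maximal complement
  obtain ⟨D, hD, hmax⟩ := exists_max_complement (E := E)
  have hW := exists_fixV_ne_one hpr hc hp (2 * w + 1) hcard ρ hr D hD hb hb1
  obtain ⟨m, hnm, hm1, hm⟩ := card_fixV_ge hpr hp ρ hr D hW n hmin
  have hindep := card_fixV_pow_le hpr hc hp (2 * w + 1) hcard ρ hr D
  have hidx : (centralizer (D : Set E)).index = Nat.card D := by
    have h1 := card_centralizer_mul_card_of_inf_eq_bot hc hp D hD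
    have h2 := Subgroup.card_mul_index (centralizer (D : Set E))
    rw [← h2] at h1
    have hpos : 0 < Nat.card (centralizer (D : Set E)) := Nat.card_pos
    exact (Nat.eq_of_mul_eq_mul_left hpos h1).symm
  rw [hidx, hm] at hindep
  rcases card_max_complement hc hp w hcard D hD hmax with hDc | ⟨hp2, hw1, hDc, x, hx, y, hy, hxy⟩
  · rw [hDc, ← pow_mul] at hindep
    calc r ^ (n * p ^ w) ≤ r ^ (m * p ^ w) :=
          Nat.pow_le_pow_right hr'.pos (Nat.mul_le_mul_right _ hnm)
      _ ≤ Nat.card A := hindep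
  · subst hp2
    have hne := card_fixV_ne_prime hpr hc hp ρ hr D hW hx hy hxy
    have hm2 : 2 ≤ m := by
      by_contra h
      have h1 : m = 1 := by omega
      rw [hm, h1, pow_one] at hne
      exact hne rfl
    have hn1 : n = 1 := by
      have h2 : 2 ∣ r ^ 1 - 1 := by
        rw [pow_one]
        have hodd : Odd r := hr'.odd_of_ne_two (Ne.symm hpr)
        obtain ⟨t, ht⟩ := hodd
        exact ⟨t, by omega⟩
      have := hmin 1 le_rfl h2
      omega
    rw [hDc, ← pow_mul] at hindep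
    have hexp : n * 2 ^ w ≤ m * 2 ^ (w - 1) := by
      rw [hn1, one_mul]
      have h3 : 2 ^ w = 2 * 2 ^ (w - 1) := by
        rw [← pow_succ']
        congr 1
        omega
      rw [h3]
      exact Nat.mul_le_mul_right _ hm2
    calc r ^ (n * 2 ^ w) ≤ r ^ (m * 2 ^ (w - 1)) := Nat.pow_le_pow_right hr'.pos hexp
      _ ≤ Nat.card A := hindep

end Main

end Cfsg.Agent.Helper48
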