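import Mathlib
import Cfsg.Agent.Helper48.SL23Recog

/-!
# Recognition of `GL₂(3)` by generators and relations (helper48)

`GLRel i j x t` : the relations of `SL₂(3) ⋊ C₂ ≅ GL₂(3)` on four generators.  A group of order at
least 48 generated by such a quadruple is isomorphic to `GL₂(3)`.
-/

set_option autoImplicit false
set_option linter.unusedSimpArgs false

namespace Cfsg.Agent.Helper48

open Subgroup

/-- The relations of `GL₂(3) = SL₂(3) ⋊ C₂` on generators `i, j, x, t`. -/
structure GLRel {H : Type*} [Group H] (i j x t : H) : Prop where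
  qc : QCRel i j x
  tt : t * t = 1
  ti : t * i = j⁻¹ * t
  tj : t * j = i⁻¹ * t
  tx : t * x = x⁻¹ * t

namespace GLRel

variable {H : Type*} [Group H] {i j x t : H}

theorem swap_of_rel {a b : H} (htt : t * t = 1) (h : t * a = b⁻¹ * t) : a * t = t * b⁻¹ := by
  have h1 : a = t * b⁻¹ * t := by
    calc a = (t * t) * a := by rw [htt, one_mul]
      _ = t * (t * a) := by rw [mul_assoc]
      _ = t * (b⁻¹ * t) := by rw [h]
      _ = t * b⁻¹ * t := by rw [mul_assoc]
  calc a * t = t * b⁻¹ * t * t := by rw [← h1]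
    _ = t * b⁻¹ * (t * t) := by rw [mul_assoc]
    _ = t * b⁻¹ := by rw [htt, mul_one]

theorem swap_inv_of_rel {a b : H} (htt : t * t = 1) (h : t * a = b⁻¹ * t) : a⁻¹ * t = t * b := by
  have h1 := swap_of_rel htt h
  calc a⁻¹ * t = a⁻¹ * (t * b⁻¹ * b) := by rw [inv_mul_cancel_right]
    _ = a⁻¹ * (a * t * b) := by rw [h1]
    _ = t * b := by rw [mul_assoc, inv_mul_cancel_left]

/-- Every element of `⟨i, j, x, t⟩` lies in `⟨i, j, x⟩` or in `⟨i, j, x⟩ t`. -/
theorem mem_or (h : GLRel i j x t) {g : H} (hg : g ∈ closure ({i, j, x, t} : Set H)) :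
    g ∈ closure ({i, j, x} : Set H) ∨ g * t ∈ closure ({i, j, x} : Set H) := by
  have hi : i ∈ closure ({i, j, x} : Set H) := Subgroup.subset_closure (by simp)
  have hj : j ∈ closure ({i, j, x} : Set H) := Subgroup.subset_closure (by simp)
  have hx : x ∈ closure ({i, j, x} : Set H) := Subgroup.subset_closure (by simp)
  have tinv : t⁻¹ = t := inv_eq_of_mul_eq_one_left h.tt
  induction hg using Subgroup.closure_induction_right with
  | one => exact Or.inl (one_mem _)
  | mul_right w _ y hy ih =>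
    simp only [Set.mem_insert_iff, Set.mem_singleton_iff] at hy
    rcases ih with ih | ih
    · rcases hy with rfl | rfl | rfl | rfl
      · exact Or.inl (mul_mem ih hi)
      · exact Or.inl (mul_mem ih hj)
      · exact Or.inl (mul_mem ih hx)
      · right
        rw [mul_assoc, h.tt, mul_one]
        exact ih
    · rcases hy with rfl | rfl | rfl | rfl
      · right
        rw [mul_assoc, swap_of_rel h.tt h.ti, ← mul_assoc]
        exact mul_mem ih (inv_mem hj)
      · right
        rw [mul_assoc, swap_of_rel h.tt h.tj, ← mul_assoc]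
        exact mul_mem ih (inv_mem hi)
      · right
        rw [mul_assoc, swap_of_rel h.tt h.tx, ← mul_assoc]
        exact mul_mem ih (inv_mem hx)
      · exact Or.inl ih
  | mul_inv_cancel w _ y hy ih =>
    simp only [Set.mem_insert_iff, Set.mem_singleton_iff] at hy
    rcases ih with ih | ih
    · rcases hy with rfl | rfl | rfl | rfl
      · exact Or.inl (mul_mem ih (inv_mem hi))
      · exact Or.inl (mul_mem ih (inv_mem hj))
      · exact Or.inl (mul_mem ih (inv_mem hx))
      · right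
        rw [tinv, mul_assoc, h.tt, mul_one]
        exact ih
    · rcases hy with rfl | rfl | rfl | rfl
      · right
        rw [mul_assoc, swap_inv_of_rel h.tt h.ti, ← mul_assoc]
        exact mul_mem ih hj
      · right
        rw [mul_assoc, swap_inv_of_rel h.tt h.tj, ← mul_assoc]
        exact mul_mem ih hi
      · right
        rw [mul_assoc, swap_inv_of_rel h.tt h.tx, ← mul_assoc]
        exact mul_mem ih hx
      · left
        rw [tinv]
        exact ih

/-- The subgroup generated by `i, j, x, t` has at most 48 elements. -/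
theorem card_closure_le_gl (h : GLRel i j x t) :
    Finite ↥(closure ({i, j, x, t} : Set H)) ∧ Nat.card ↥(closure ({i, j, x, t} : Set H)) ≤ 48 := by
  classical
  obtain ⟨hfin, hcard⟩ := h.qc.card_closure_le
  obtain ⟨f, hf⟩ : ∃ f : ↥(closure ({i, j, x, t} : Set H)) → ↥(closure ({i, j, x} : Set H)) × Bool,
      ∀ g, (((f g).1 : H) = g ∧ (f g).2 = false) ∨ (((f g).1 : H) = g * t ∧ (f g).2 = true) := by
    have key : ∀ g : ↥(closure ({i, j, x, t} : Set H)),
        ∃ p : ↥(closure ({i, j, x} : Set H)) × Bool,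
          ((p.1 : H) = g ∧ p.2 = false) ∨ ((p.1 : H) = g * t ∧ p.2 = true) := by
      rintro ⟨g, hg⟩
      rcases h.mem_or hg with h1 | h1
      · exact ⟨(⟨g, h1⟩, false), Or.inl ⟨rfl, rfl⟩⟩
      · exact ⟨(⟨g * t, h1⟩, true), Or.inr ⟨rfl, rfl⟩⟩
    choose f hf using key
    exact ⟨f, hf⟩
  have hinj : Function.Injective f := by
    intro g g' hgg
    apply Subtype.ext
    rcases hf g with ⟨h1, h2⟩ | ⟨h1, h2⟩ <;> rcases hf g' with ⟨h1', h2'⟩ | ⟨h1', h2'⟩
    · rw [← h1, ← h1', hgg]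
    · rw [hgg, h2'] at h2
      exact absurd h2 (by decide)
    · rw [hgg, h2'] at h2
      exact absurd h2 (by decide)
    · have e : (g : H) * t = g' * t := by rw [← h1, ← h1', hgg]
      exact mul_right_cancel e
  have hfin2 : Finite ↥(closure ({i, j, x, t} : Set H)) := Finite.of_injective f hinj
  refine ⟨hfin2, ?_⟩
  have := Nat.card_le_card_of_injective f hinj
  rw [Nat.card_prod, Nat.card_eq_fintype_card (α := Bool), Fintype.card_bool] at this
  omega

/-- Two groups of order at least 48 generated by quadruples satisfying `GLRel` are isomorphic. -/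
theorem nonempty_mulEquiv {H₁ H₂ : Type*} [Group H₁] [Group H₂] {i₁ j₁ x₁ t₁ : H₁}
    {i₂ j₂ x₂ t₂ : H₂} (h₁ : GLRel i₁ j₁ x₁ t₁) (h₂ : GLRel i₂ j₂ x₂ t₂)
    (hg₁ : closure ({i₁, j₁, x₁, t₁} : Set H₁) = ⊤)
    (hg₂ : closure ({i₂, j₂, x₂, t₂} : Set H₂) = ⊤)
    (hc₁ : 48 ≤ Nat.card H₁) (hc₂ : 48 ≤ Nat.card H₂) : Nonempty (H₁ ≃* H₂) := by
  have h : GLRel ((i₁, i₂) : H₁ × H₂) (j₁, j₂) (x₁, x₂) (t₁, t₂) :=
    { qc :=
        { i4 := Prod.ext h₁.qc.i4 h₂.qc.i4
          jj := Prod.ext h₁.qc.jj h₂.qc.jj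
          ji := Prod.ext h₁.qc.ji h₂.qc.ji
          xi := Prod.ext h₁.qc.xi h₂.qc.xi
          xj := Prod.ext h₁.qc.xj h₂.qc.xj
          x3 := Prod.ext h₁.qc.x3 h₂.qc.x3 }
      tt := Prod.ext h₁.tt h₂.tt
      ti := Prod.ext h₁.ti h₂.ti
      tj := Prod.ext h₁.tj h₂.tj
      tx := Prod.ext h₁.tx h₂.tx }
  obtain ⟨hfin, hcard⟩ := h.card_closure_le_gl
  obtain ⟨Γ, hΓ⟩ : ∃ Γ : Subgroup (H₁ × H₂), Γ = closure ({(i₁, i₂), (j₁, j₂), (x₁, x₂), (t₁, t₂)} :
      Set (H₁ × H₂)) := ⟨_, rfl⟩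
  rw [← hΓ] at hfin hcard
  have hmap₁ : Γ.map (MonoidHom.fst H₁ H₂) = ⊤ := by
    rw [hΓ, MonoidHom.map_closure, ← hg₁]
    congr 1
    simp [Set.image_insert_eq]
  have hmap₂ : Γ.map (MonoidHom.snd H₁ H₂) = ⊤ := by
    rw [hΓ, MonoidHom.map_closure, ← hg₂]
    congr 1
    simp [Set.image_insert_eq]
  obtain ⟨e₁⟩ := nonempty_mulEquiv_of_map_eq Γ (MonoidHom.fst H₁ H₂) _ hmap₁
    (by rw [Subgroup.card_top]; exact hcard.trans hc₁)
  obtain ⟨e₂⟩ := nonempty_mulEquiv_of_map_eq Γ (MonoidHom.snd H₁ H₂) _ hmap₂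
    (by rw [Subgroup.card_top]; exact hcard.trans hc₂)
  exact ⟨(Subgroup.topEquiv.symm.trans e₁.symm).trans (e₂.trans Subgroup.topEquiv)⟩

end GLRel

/-! ### The model `GL₂(3)` -/

/-- `GL₂(3)`. -/
abbrev GL23 : Type := GL (Fin 2) (ZMod 3)

/-- Generators of `GL₂(3)`. -/
def gl23I : GL23 := ⟨!![0, 1; 2, 0], !![0, 2; 1, 0], by decide, by decide⟩
/-- Generators of `GL₂(3)`. -/
def gl23J : GL23 := ⟨!![2, 1; 1, 1], !![1, 2; 2, 2], by decide, by decide⟩
/-- Generators of `GL₂(3)`. -/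
def gl23X : GL23 := ⟨!![1, 0; 1, 1], !![1, 0; 2, 1], by decide, by decide⟩
/-- Generators of `GL₂(3)`. -/
def gl23T : GL23 := ⟨!![1, 0; 1, 2], !![1, 0; 1, 2], by decide, by decide⟩

theorem gl23_ext {a b : GL23} (h : (a : Matrix (Fin 2) (Fin 2) (ZMod 3)) = b) : a = b :=
  Units.ext h

set_option maxRecDepth 100000 in
theorem gl23_rel : GLRel gl23I gl23J gl23X gl23T :=
  { qc :=
      { i4 := gl23_ext (by decide)
        jj := gl23_ext (by decide)
        ji := gl23_ext (by decide)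
        xi := gl23_ext (by decide)
        xj := gl23_ext (by decide)
        x3 := gl23_ext (by decide) }
    tt := gl23_ext (by decide)
    ti := gl23_ext (by decide)
    tj := gl23_ext (by decide)
    tx := gl23_ext (by decide) }

theorem gl23_card : Nat.card GL23 = 48 := by
  have : Fact (Nat.Prime 3) := ⟨by norm_num⟩
  rw [Matrix.card_GL_field, Fin.prod_univ_two, ZMod.card]
  rfl

end Cfsg.Agent.Helper48
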