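import Mathlib
import Cfsg.Agent.Helper95.OTSDefs

/-!
# CALL S5972 (helper95), piece REFPROD

An involution of the isometry group of the standard odd orthogonal space is the product of the
reflections in an orthogonal basis of its `(-1)`-eigenspace `range (g - 1)`.
-/

set_option autoImplicit false

namespace Cfsg.Agent.Helper48.OTS

open Module Polynomial
open Cfsg.Agent.Helper13.TIsp Cfsg.Agent.Helper42.SpGroup Cfsg.Agent.Helper42.SpModels
open Cfsg.Agent.Helper95.OTS
open Matrix

/-- one reflection applied to a vector -/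
theorem refprod_refl_mulVec {F : Type*} [Field F] (d : ℕ) (v x : Unit ⊕ (Fin d ⊕ Fin d) → F) :
    Cfsg.reflectionMatrix (Cfsg.quadFormOdd d F) v *ᵥ x =
      x - ((Cfsg.quadFormOdd d F v)⁻¹ * oB d F v x) • v :=
  Cfsg.Agent.Helper43.reflectionMatrix_mulVec (Cfsg.Agent.Helper43.oddQF d F) v x

/-- a product of reflections in vectors orthogonal to `x` fixes `x` -/
theorem refprod_fix {F : Type*} [Field F] (d : ℕ) (x : Unit ⊕ (Fin d ⊕ Fin d) → F) :
    ∀ vs : List (Unit ⊕ (Fin d ⊕ Fin d) → F), (∀ v ∈ vs, oB d F v x = 0) →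
      (vs.map (fun v => Cfsg.reflectionMatrix (Cfsg.quadFormOdd d F) v)).prod *ᵥ x = x := by
  intro vs
  induction vs with
  | nil =>
    intro _
    rw [List.map_nil, List.prod_nil, Matrix.one_mulVec]
  | cons v vs ih =>
    intro h
    rw [List.map_cons, List.prod_cons, ← Matrix.mulVec_mulVec,
      ih (fun w hw => h w (List.mem_cons_of_mem _ hw)), refprod_refl_mulVec,
      h v List.mem_cons_self, mul_zero, zero_smul, sub_zero]

/-- a product of reflections in pairwise orthogonal non-singular vectors negates each of them -/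
theorem refprod_neg {F : Type*} [Field F] (h2 : (2 : F) ≠ 0) (d : ℕ) :
    ∀ vs : List (Unit ⊕ (Fin d ⊕ Fin d) → F),
      vs.Pairwise (fun u v => oB d F u v = 0) →
      (∀ v ∈ vs, Cfsg.quadFormOdd d F v ≠ 0) →
      ∀ w ∈ vs,
        (vs.map (fun v => Cfsg.reflectionMatrix (Cfsg.quadFormOdd d F) v)).prod *ᵥ w = -w := by
  intro vs
  induction vs with
  | nil =>
    intro _ _ w hw
    exact absurd hw List.not_mem_nil
  | cons v vs ih =>
    intro hp hQ w hw
    rw [List.pairwise_cons] at hp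
    obtain ⟨hv, hp'⟩ := hp
    rw [List.map_cons, List.prod_cons, ← Matrix.mulVec_mulVec]
    by_cases hwv : w = v
    · subst hwv
      have hq := hQ w List.mem_cons_self
      rw [refprod_fix d w vs (fun u hu => by rw [oB_symm]; exact hv u hu), refprod_refl_mulVec,
        oB_self]
      have h3 : (Cfsg.quadFormOdd d F w)⁻¹ * (2 * Cfsg.quadFormOdd d F w) = 2 := by
        field_simp
      rw [h3, two_smul]
      abel
    · have hw' : w ∈ vs := by
        rcases List.mem_cons.mp hw with h | h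
        · exact absurd h hwv
        · exact h
      rw [ih hp' (fun u hu => hQ u (List.mem_cons_of_mem _ hu)) w hw', refprod_refl_mulVec,
        map_neg, hv w hw', neg_zero, mul_zero, zero_smul, sub_zero]

/-- PIECE REFPROD: an involution of the isometry group is the product of the reflections in an
orthogonal basis of its `(-1)`-eigenspace `range (g - 1)`. -/
theorem orefprod {F : Type*} [Field F] [Fintype F] (h2 : (2 : F) ≠ 0) (d : ℕ)
    (g : ↥(Cfsg.isometryGroup F (Cfsg.quadFormOdd d F))) (hg2 : g ^ 2 = 1)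
    (vs : List (Unit ⊕ (Fin d ⊕ Fin d) → F))
    (hmem : ∀ v ∈ vs, v ∈ LinearMap.range (oEnd g - 1))
    (hort : vs.Pairwise (fun u v => oB d F u v = 0))
    (hQ : ∀ v ∈ vs, Cfsg.quadFormOdd d F v ≠ 0)
    (hspan : Submodule.span F {v | v ∈ vs} = LinearMap.range (oEnd g - 1)) :
    ((g : GL (Unit ⊕ (Fin d ⊕ Fin d)) F) :
      Matrix (Unit ⊕ (Fin d ⊕ Fin d)) (Unit ⊕ (Fin d ⊕ Fin d)) F) =
      (vs.map (fun v => Cfsg.reflectionMatrix (Cfsg.quadFormOdd d F) v)).prod := by
  classical
  have hT2 : oEnd g ^ 2 = 1 := by rw [← oEnd_pow, hg2, oEnd_one]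
  obtain ⟨hcompl, horth⟩ := Cfsg.Agent.Helper4.c3o_zdec (oB d F) 2 (by exact_mod_cast h2)
    (oEnd g) hT2 (oEnd_pres g)
  have hTk : ∀ k ∈ LinearMap.ker (oEnd g - 1), oEnd g k = k := by
    intro k hk
    rw [LinearMap.mem_ker, LinearMap.sub_apply, Module.End.one_apply] at hk
    exact sub_eq_zero.mp hk
  have hTr : ∀ r ∈ LinearMap.range (oEnd g - 1), oEnd g r = -r := by
    rintro r ⟨y, rfl⟩
    have h3 : oEnd g (oEnd g y) = y := by
      have h4 := LinearMap.congr_fun hT2 y
      rwa [pow_two, Module.End.mul_apply, Module.End.one_apply] at h4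
    rw [LinearMap.sub_apply, Module.End.one_apply, map_sub, h3, neg_sub]
  have hneg : ∀ r ∈ Submodule.span F {v | v ∈ vs},
      (vs.map (fun v => Cfsg.reflectionMatrix (Cfsg.quadFormOdd d F) v)).prod *ᵥ r = -r := by
    intro r hr
    induction hr using Submodule.span_induction with
    | mem w hw => exact refprod_neg h2 d vs hort hQ w hw
    | zero => rw [Matrix.mulVec_zero, neg_zero]
    | add a b _ _ ha hb => rw [Matrix.mulVec_add, ha, hb, neg_add]
    | smul c a _ ha => rw [Matrix.mulVec_smul, ha, smul_neg]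
  apply Cfsg.Agent.Helper43.mat_ext_mulVec
  intro x
  have hx : x ∈ LinearMap.ker (oEnd g - 1) ⊔ LinearMap.range (oEnd g - 1) := by
    rw [hcompl.sup_eq_top]
    exact Submodule.mem_top
  obtain ⟨k, hk, r, hr, rfl⟩ := Submodule.mem_sup.mp hx
  rw [Matrix.mulVec_add, Matrix.mulVec_add]
  have h1 : ((g : GL (Unit ⊕ (Fin d ⊕ Fin d)) F) :
      Matrix (Unit ⊕ (Fin d ⊕ Fin d)) (Unit ⊕ (Fin d ⊕ Fin d)) F) *ᵥ k = k := hTk k hk
  have h5 : ((g : GL (Unit ⊕ (Fin d ⊕ Fin d)) F) :
      Matrix (Unit ⊕ (Fin d ⊕ Fin d)) (Unit ⊕ (Fin d ⊕ Fin d)) F) *ᵥ r = -r := hTr r hr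
  have h6 : (vs.map (fun v => Cfsg.reflectionMatrix (Cfsg.quadFormOdd d F) v)).prod *ᵥ k = k :=
    refprod_fix d k vs (fun v hv => by rw [oB_symm]; exact horth k hk v (hmem v hv))
  have h7 : (vs.map (fun v => Cfsg.reflectionMatrix (Cfsg.quadFormOdd d F) v)).prod *ᵥ r = -r :=
    hneg r (by rw [hspan]; exact hr)
  rw [h1, h5, h6, h7]

end Cfsg.Agent.Helper48.OTS
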