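import Mathlib
import Cfsg.Prelude.Def_CaseTheorems
import Cfsg.Agent.Helper55.TwoClosed
import Cfsg.Agent.Helper5.QuatRecog
import Cfsg.Agent.S3742
import Cfsg.Agent.Helper48.AutQ

/-!
# Groups whose Sylow 2-intersections have rank at most one: reductions (helper48)

* `rank1_transfer` : the hypothesis "distinct Sylow 2-subgroups meet in rank ≤ 1" passes to a
  quotient by a normal subgroup of odd order (in elementwise form).
* `rank1_unique_invol` : then `O_2` has at most one involution.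
* `rank1_odd_sylow` : odd Sylow subgroups when `C(R) ≤ R` and `R` has one involution.
* `rank1_card` : the conjugation map into `Aut(R) ≅ S₄` when `R` is quaternion of order 8.
-/

set_option autoImplicit false

namespace Cfsg.Agent.Helper48

open Subgroup

section Rank1A

theorem rank1_mem_zpowers_of_mul_self {G : Type*} [Group G] {z g : G} (hzz : z * z = 1) :
    g ∈ zpowers z ↔ g = 1 ∨ g = z := by
  constructor
  · intro hg
    obtain ⟨k, rfl⟩ := Subgroup.mem_zpowers_iff.mp hg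
    rcases Int.even_or_odd k with ⟨m, rfl⟩ | ⟨m, rfl⟩
    · left
      rw [zpow_add, ← (Commute.refl z).mul_zpow, hzz, one_zpow]
    · right
      rw [zpow_add, zpow_one, zpow_mul, zpow_two, hzz, one_zpow, one_mul]
  · rintro (rfl | rfl)
    · exact one_mem _
    · exact mem_zpowers g

/-- The four-group generated by two commuting involutions. -/
theorem rank1_four_subgroup {G : Type*} [Group G] (a b : G) (ha : a * a = 1) (hb : b * b = 1)
    (hab : a * b = b * a) :
    ∃ A : Subgroup G, ∀ g, g ∈ A ↔ g = 1 ∨ g = a ∨ g = b ∨ g = a * b := by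
  have e1 : a * (a * b) = b := by rw [← mul_assoc, ha, one_mul]
  have e2 : b * (a * b) = a := by rw [hab, ← mul_assoc, hb, one_mul]
  have e3 : a * b * a = b := by rw [hab, mul_assoc, ha, mul_one]
  have e4 : a * b * b = a := by rw [mul_assoc, hb, mul_one]
  have e5 : a * b * (a * b) = 1 := by rw [← mul_assoc, e3, hb]
  refine ⟨{ carrier := {g | g = 1 ∨ g = a ∨ g = b ∨ g = a * b}
            mul_mem' := ?_
            one_mem' := Or.inl rfl
            inv_mem' := ?_ }, fun g => Iff.rfl⟩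
  · intro u v hu hv
    show u * v = 1 ∨ u * v = a ∨ u * v = b ∨ u * v = a * b
    rcases hu with h | h | h | h
    · rw [h, one_mul]; exact hv
    · rcases hv with h' | h' | h' | h'
      · rw [h, h']; exact Or.inr (Or.inl (mul_one a))
      · rw [h, h']; exact Or.inl ha
      · rw [h, h']; exact Or.inr (Or.inr (Or.inr rfl))
      · rw [h, h']; exact Or.inr (Or.inr (Or.inl e1))
    · rcases hv with h' | h' | h' | h'
      · rw [h, h']; exact Or.inr (Or.inr (Or.inl (mul_one b)))
      · rw [h, h']; exact Or.inr (Or.inr (Or.inr hab.symm))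
      · rw [h, h']; exact Or.inl hb
      · rw [h, h']; exact Or.inr (Or.inl e2)
    · rcases hv with h' | h' | h' | h'
      · rw [h, h']; exact Or.inr (Or.inr (Or.inr (mul_one _)))
      · rw [h, h']; exact Or.inr (Or.inr (Or.inl e3))
      · rw [h, h']; exact Or.inr (Or.inl e4)
      · rw [h, h']; exact Or.inl e5
  · intro u hu
    show u⁻¹ = 1 ∨ u⁻¹ = a ∨ u⁻¹ = b ∨ u⁻¹ = a * b
    rcases hu with h | h | h | h
    · rw [h, inv_one]; exact Or.inl rfl
    · rw [h, inv_eq_of_mul_eq_one_left ha]; exact Or.inr (Or.inl rfl)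
    · rw [h, inv_eq_of_mul_eq_one_left hb]; exact Or.inr (Or.inr (Or.inl rfl))
    · rw [h, inv_eq_of_mul_eq_one_left e5]; exact Or.inr (Or.inr (Or.inr rfl))

/-- Transfer of the rank one condition on Sylow intersections to a quotient by an odd order
normal subgroup, in elementwise form. -/
theorem rank1_transfer {G G' : Type*} [Group G] [Group G'] [Finite G] (f : G →* G')
    (hf : Function.Surjective f) (hker : Odd (Nat.card f.ker))
    (hI : ∀ S T : Sylow 2 G, S ≠ T → Cfsg.PRankLE 2 1 ↥((S : Subgroup G) ⊓ (T : Subgroup G)))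
    (S T : Sylow 2 G') (hST : S ≠ T) (x y : G')
    (hxS : x ∈ (S : Subgroup G')) (hxT : x ∈ (T : Subgroup G'))
    (hyS : y ∈ (S : Subgroup G')) (hyT : y ∈ (T : Subgroup G'))
    (hxx : x * x = 1) (hyy : y * y = 1) (hxy : x * y = y * x) (hx1 : x ≠ 1) (hy1 : y ≠ 1) :
    x = y := by
  have : Fact (Nat.Prime 2) := ⟨Nat.prime_two⟩
  have hD : IsPGroup 2 ↥((S : Subgroup G') ⊓ T) := S.2.to_le inf_le_left
  obtain ⟨R, hR, hRD⟩ := Cfsg.Agent.Helper55.exists_isPGroup_map_eq hf _ hD
  obtain ⟨S', hRS, hS'⟩ :=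
    Cfsg.Agent.Helper55.exists_sylow_map_eq_of_le hf S R hR (hRD.le.trans inf_le_left)
  obtain ⟨T', hRT, hT'⟩ :=
    Cfsg.Agent.Helper55.exists_sylow_map_eq_of_le hf T R hR (hRD.le.trans inf_le_right)
  have hne : S' ≠ T' := by
    rintro rfl
    exact hST (Sylow.ext (hS'.symm.trans hT'))
  have hRker : ∀ r ∈ R, f r = 1 → r = 1 := by
    intro r hr hfr
    obtain ⟨k, hk⟩ := hR ⟨r, hr⟩
    have hk' : r ^ 2 ^ k = 1 := congrArg Subtype.val hk
    have h1 : orderOf r ∣ 2 ^ k := orderOf_dvd_of_pow_eq_one hk'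
    have h2 : orderOf r ∣ Nat.card f.ker := by
      have := orderOf_dvd_natCard (⟨r, hfr⟩ : f.ker)
      rwa [← Subgroup.orderOf_coe] at this
    have hcop : Nat.Coprime (2 ^ k) (Nat.card f.ker) :=
      Nat.Coprime.pow_left k (Nat.coprime_two_left.mpr hker)
    have h3 : orderOf r ∣ 1 := by
      have := Nat.dvd_gcd h1 h2
      rwa [hcop.gcd_eq_one] at this
    exact orderOf_eq_one_iff.mp (Nat.dvd_one.mp h3)
  have hxD : x ∈ R.map f := by rw [hRD]; exact ⟨hxS, hxT⟩
  have hyD : y ∈ R.map f := by rw [hRD]; exact ⟨hyS, hyT⟩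
  obtain ⟨a, haR, rfl⟩ := hxD
  obtain ⟨b, hbR, rfl⟩ := hyD
  have haa : a * a = 1 := hRker _ (R.mul_mem haR haR) (by rw [map_mul]; exact hxx)
  have hbb : b * b = 1 := hRker _ (R.mul_mem hbR hbR) (by rw [map_mul]; exact hyy)
  have hab : a * b = b * a := by
    have h1 : a * b * (b * a)⁻¹ = 1 :=
      hRker _ (R.mul_mem (R.mul_mem haR hbR) (R.inv_mem (R.mul_mem hbR haR)))
        (by rw [map_mul, map_inv, map_mul, map_mul, hxy, mul_inv_cancel])
    exact mul_inv_eq_one.mp h1
  have ha1 : a ≠ 1 := by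
    rintro rfl
    exact hx1 (map_one f)
  have hb1 : b ≠ 1 := by
    rintro rfl
    exact hy1 (map_one f)
  by_contra hne2
  have hab_ne : a ≠ b := fun h => hne2 (by rw [h])
  obtain ⟨A, hA⟩ := rank1_four_subgroup a b haa hbb hab
  have hAle : A ≤ (S' : Subgroup G) ⊓ T' := by
    intro g hg
    have hRle : R ≤ (S' : Subgroup G) ⊓ T' := le_inf hRS hRT
    rcases (hA g).mp hg with h | h | h | h
    · rw [h]; exact one_mem _
    · rw [h]; exact hRle haR
    · rw [h]; exact hRle hbR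
    · rw [h]; exact hRle (R.mul_mem haR hbR)
  have hAsq : ∀ g ∈ A, g * g = 1 := by
    intro g hg
    rcases (hA g).mp hg with h | h | h | h
    · rw [h, one_mul]
    · rw [h]; exact haa
    · rw [h]; exact hbb
    · rw [h]
      calc a * b * (a * b) = a * b * (b * a) := by rw [hab]
        _ = a * (b * b) * a := by simp only [mul_assoc]
        _ = 1 := by rw [hbb, mul_one, haa]
  obtain ⟨A', hA'⟩ : ∃ A' : Subgroup ↥((S' : Subgroup G) ⊓ T'),
      A' = A.subgroupOf ((S' : Subgroup G) ⊓ T') := ⟨_, rfl⟩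
  have hA'sq : ∀ u ∈ A', u ^ 2 = 1 := by
    intro u hu
    rw [hA', Subgroup.mem_subgroupOf] at hu
    apply Subtype.ext
    rw [Subgroup.coe_pow, pow_two]
    exact hAsq _ hu
  have hA'comm : IsMulCommutative A' := by
    refine ⟨⟨fun u v => ?_⟩⟩
    have hu := hA'sq u u.2
    have hv := hA'sq v v.2
    have huv := hA'sq (u * v) (A'.mul_mem u.2 v.2)
    apply Subtype.ext
    rw [pow_two] at hu hv huv
    have e1 : (u : ↥((S' : Subgroup G) ⊓ T')) * v = (↑u)⁻¹ * (↑v)⁻¹ := by
      rw [← mul_inv_rev, eq_inv_iff_mul_eq_one]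
      calc (u : ↥((S' : Subgroup G) ⊓ T')) * v * (v * u) = u * (v * v) * u := by
            simp only [mul_assoc]
        _ = 1 := by rw [hv, mul_one, hu]
    have e2 : ((u : ↥((S' : Subgroup G) ⊓ T')))⁻¹ = u := inv_eq_of_mul_eq_one_left hu
    have e3 : ((v : ↥((S' : Subgroup G) ⊓ T')))⁻¹ = v := inv_eq_of_mul_eq_one_left hv
    show (u : ↥((S' : Subgroup G) ⊓ T')) * v = v * u
    have e4 : (v : ↥((S' : Subgroup G) ⊓ T')) * u = (↑v)⁻¹ * (↑u)⁻¹ := by rw [e2, e3]
    rw [e4, ← mul_inv_rev, eq_inv_iff_mul_eq_one]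
    exact huv
  have hcard := hI S' T' hne A' hA'comm hA'sq
  -- but `A'` contains the three distinct elements `1, a, b`
  have haST : a ∈ (S' : Subgroup G) ⊓ T' := hAle ((hA a).mpr (Or.inr (Or.inl rfl)))
  have hbST : b ∈ (S' : Subgroup G) ⊓ T' := hAle ((hA b).mpr (Or.inr (Or.inr (Or.inl rfl))))
  obtain ⟨a', ha'⟩ : ∃ a' : ↥((S' : Subgroup G) ⊓ T'), a' = ⟨a, haST⟩ := ⟨_, rfl⟩
  obtain ⟨b', hb'⟩ : ∃ b' : ↥((S' : Subgroup G) ⊓ T'), b' = ⟨b, hbST⟩ := ⟨_, rfl⟩
  have ha'A : a' ∈ A' := by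
    rw [hA', Subgroup.mem_subgroupOf, ha']
    exact (hA a).mpr (Or.inr (Or.inl rfl))
  have hb'A : b' ∈ A' := by
    rw [hA', Subgroup.mem_subgroupOf, hb']
    exact (hA b).mpr (Or.inr (Or.inr (Or.inl rfl)))
  have ha'a' : a' * a' = 1 := by
    rw [ha']; exact Subtype.ext haa
  have ha'1 : a' ≠ 1 := by
    rw [ha']
    intro h
    exact ha1 (congrArg Subtype.val h)
  have hord : orderOf a' = 2 := orderOf_eq_prime (by rw [pow_two]; exact ha'a') ha'1
  have hzle : zpowers a' ≤ A' := by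
    rw [zpowers_le]; exact ha'A
  have heq : zpowers a' = A' := by
    apply Subgroup.eq_of_le_of_card_ge hzle
    rw [Nat.card_zpowers, hord]
    exact hcard
  have hb'z : b' ∈ zpowers a' := by rw [heq]; exact hb'A
  rcases (rank1_mem_zpowers_of_mul_self ha'a').mp hb'z with h | h
  · rw [hb'] at h
    exact hb1 (congrArg Subtype.val h)
  · rw [hb', ha'] at h
    exact hab_ne (congrArg Subtype.val h).symm

/-- If two distinct Sylow 2-subgroups meet in a group of rank at most one (elementwise form), then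
`O_2` has at most one involution. -/
theorem rank1_unique_invol {K : Type*} [Group K] [Finite K] (P T : Sylow 2 K)
    (hI : ∀ x y : K, x ∈ (P : Subgroup K) → x ∈ (T : Subgroup K) → y ∈ (P : Subgroup K) →
      y ∈ (T : Subgroup K) → x * x = 1 → y * y = 1 → x * y = y * x → x ≠ 1 → y ≠ 1 → x = y)
    (hne : (P : Subgroup K).normalCore ≠ ⊥) :
    ∃ z ∈ (P : Subgroup K).normalCore, z ≠ 1 ∧ z * z = 1 ∧
      ∀ s ∈ (P : Subgroup K).normalCore, s * s = 1 → s = 1 ∨ s = z := by
  have hf2 : Fact (Nat.Prime 2) := ⟨Nat.prime_two⟩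
  obtain ⟨R, hRdef⟩ : ∃ R : Subgroup K, R = (P : Subgroup K).normalCore := ⟨_, rfl⟩
  rw [← hRdef] at hne ⊢
  have hRn : R.Normal := by rw [hRdef]; exact Subgroup.normalCore_normal _
  have hRP : R ≤ (P : Subgroup K) := by rw [hRdef]; exact Subgroup.normalCore_le _
  have hR2 : IsPGroup 2 R := P.2.to_le hRP
  have hRT : R ≤ (T : Subgroup K) :=
    (Cfsg.Agent.Helper55.le_normalCore_sylow T R hR2).trans (Subgroup.normalCore_le _)
  have hnt : Nontrivial ↥R := (Subgroup.nontrivial_iff_ne_bot R).mpr hne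
  have hcnt : Nontrivial ↥(center ↥R) := hR2.center_nontrivial
  have hc2 : IsPGroup 2 ↥(center ↥R) := hR2.to_subgroup _
  obtain ⟨k, hk⟩ := IsPGroup.iff_card.mp hc2
  have hk0 : k ≠ 0 := by
    rintro rfl
    have := Finite.one_lt_card (α := ↥(center ↥R))
    rw [hk] at this
    norm_num at this
  have h2dvd : 2 ∣ Nat.card ↥(center ↥R) := by
    rw [hk]; exact dvd_pow_self 2 hk0
  obtain ⟨c, hc⟩ := exists_prime_orderOf_dvd_card' (G := ↥(center ↥R)) 2 h2dvd
  obtain ⟨z, hz⟩ : ∃ z : K, z = ((c : ↥R) : K) := ⟨_, rfl⟩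
  have hzR : z ∈ R := by rw [hz]; exact (c : ↥R).2
  have hc1 : c ≠ 1 := by
    rintro rfl
    rw [orderOf_one] at hc
    norm_num at hc
  have hz1 : z ≠ 1 := by
    intro h
    apply hc1
    apply Subtype.ext
    apply Subtype.ext
    rw [← hz, h]; rfl
  have hzz : z * z = 1 := by
    have h1 : c ^ 2 = 1 := by rw [← hc]; exact pow_orderOf_eq_one c
    have h2 := congrArg (fun u : ↥(center ↥R) => ((u : ↥R) : K)) h1
    simp only [Subgroup.coe_pow, Subgroup.coe_one] at h2
    rw [hz, ← pow_two]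
    exact h2
  have hzc : ∀ r ∈ R, z * r = r * z := by
    intro r hr
    have h1 := Subgroup.mem_center_iff.mp c.2 ⟨r, hr⟩
    have h2 := congrArg (fun u : ↥R => (u : K)) h1
    simp only [Subgroup.coe_mul] at h2
    rw [hz]
    exact h2.symm
  refine ⟨z, hzR, hz1, hzz, ?_⟩
  intro s hs hss
  by_cases hs1 : s = 1
  · exact Or.inl hs1
  · right
    exact (hI z s (hRP hzR) (hRT hzR) (hRP hs) (hRT hs) hzz hss (hzc s hs) hz1 hs1).symm

/-- Odd Sylow subgroups of a group with a self-centralizing normal 2-subgroup with at most one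
involution. -/
theorem rank1_odd_sylow {K : Type*} [Group K] [Finite K] (R : Subgroup K) [hRn : R.Normal]
    (hR2 : IsPGroup 2 R) (hCR : centralizer (R : Set K) ≤ R)
    (hinv : ∀ s ∈ R, ∀ t ∈ R, s * s = 1 → t * t = 1 → s ≠ 1 → t ≠ 1 → s = t)
    {p : ℕ} [hp : Fact p.Prime] (hp2 : p ≠ 2) (Sp : Sylow p K) (hSp : (Sp : Subgroup K) ≠ ⊥) :
    p = 3 ∧ Nat.card R = 8 ∧ Nat.card (Sp : Subgroup K) = 3 ∧ ∃ x ∈ R, ∃ y ∈ R, x * y ≠ y * x := by
  have : Fact (Nat.Prime 2) := ⟨Nat.prime_two⟩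
  obtain ⟨φ, hφ⟩ : ∃ φ : K →* MulAut ↥R, ∀ g (h : ↥R), ((φ g h : ↥R) : K) = g * h * g⁻¹ :=
    ⟨MulAut.conjNormal, fun g h => MulAut.conjNormal_apply g h⟩
  have hker : ∀ g : K, φ g = 1 → g ∈ R := by
    intro g hg
    apply hCR
    rw [Subgroup.mem_centralizer_iff]
    intro h hh
    have h1 := congrArg (fun σ : MulAut ↥R => ((σ ⟨h, hh⟩ : ↥R) : K)) hg
    simp only [hφ] at h1
    have h2 : g * h * g⁻¹ = h := h1
    calc h * g = (g * h * g⁻¹) * g := by rw [h2]
      _ = g * h := by rw [inv_mul_cancel_right]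
  have hSpR : ∀ g ∈ (Sp : Subgroup K), g ∈ R → g = 1 := by
    intro g hg hgR
    obtain ⟨a, ha⟩ := Sp.2 ⟨g, hg⟩
    obtain ⟨b, hb⟩ := hR2 ⟨g, hgR⟩
    have ha' : g ^ p ^ a = 1 := congrArg Subtype.val ha
    have hb' : g ^ 2 ^ b = 1 := congrArg Subtype.val hb
    have hcop : Nat.Coprime (p ^ a) (2 ^ b) :=
      Nat.Coprime.pow _ _ ((Nat.coprime_primes hp.out Nat.prime_two).mpr hp2)
    have h3 : g ^ Nat.gcd (p ^ a) (2 ^ b) = 1 := pow_gcd_eq_one.mpr ⟨ha', hb'⟩
    rwa [hcop.gcd_eq_one, pow_one] at h3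
  obtain ⟨D, hD⟩ : ∃ D : Subgroup (MulAut ↥R), D = (Sp : Subgroup K).map φ := ⟨_, rfl⟩
  have hDp : IsPGroup p D := by rw [hD]; exact Sp.2.map φ
  have hinvX : ∀ s t : ↥R, orderOf s = 2 → orderOf t = 2 → s = t := by
    intro s t hs ht
    have hs2 : s ^ 2 = 1 := by rw [← hs]; exact pow_orderOf_eq_one s
    have ht2 : t ^ 2 = 1 := by rw [← ht]; exact pow_orderOf_eq_one t
    have hs1 : s ≠ 1 := by
      rintro rfl
      rw [orderOf_one] at hs
      norm_num at hs
    have ht1 : t ≠ 1 := by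
      rintro rfl
      rw [orderOf_one] at ht
      norm_num at ht
    apply Subtype.ext
    apply hinv s s.2 t t.2
    · have h := congrArg Subtype.val hs2
      rw [Subgroup.coe_pow, pow_two] at h
      exact h
    · have h := congrArg Subtype.val ht2
      rw [Subgroup.coe_pow, pow_two] at h
      exact h
    · exact fun h => hs1 (Subtype.ext h)
    · exact fun h => ht1 (Subtype.ext h)
  rcases autQ hR2 hinvX hp2 D hDp with hbot | ⟨h3, h8, hD3, ⟨x, y, hxy⟩, -⟩
  · exfalso
    apply hSp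
    rw [Subgroup.eq_bot_iff_forall]
    intro g hg
    apply hSpR g hg
    apply hker
    have hmem : φ g ∈ D := by rw [hD]; exact Subgroup.mem_map_of_mem φ hg
    rw [hbot, Subgroup.mem_bot] at hmem
    exact hmem
  · refine ⟨h3, h8, ?_, x, x.2, y, y.2, fun h => hxy (Subtype.ext h)⟩
    have hinj : Function.Injective (φ.comp (Sp : Subgroup K).subtype) := by
      rw [injective_iff_map_eq_one]
      intro g hg
      apply Subtype.ext
      exact hSpR g g.2 (hker g hg)
    have hrange : (φ.comp (Sp : Subgroup K).subtype).range = D := by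
      rw [MonoidHom.range_comp, Subgroup.range_subtype, hD]
    rw [← hD3, ← hrange]
    exact Nat.card_congr (MonoidHom.ofInjective hinj).toEquiv

set_option maxRecDepth 100000 in
theorem rank1_quat_center : ∀ q : QuaternionGroup 2, (∀ w : QuaternionGroup 2, w * q = q * w) →
    q * q = 1 := by decide

/-- The conjugation map into the automorphism group of a normal quaternion subgroup of order 8
containing its centralizer. -/
theorem rank1_card {K : Type*} [Group K] [Finite K] (R : Subgroup K) [hRn : R.Normal]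
    (hR2 : IsPGroup 2 R) (hCR : centralizer (R : Set K) ≤ R)
    (z : K) (hzR : z ∈ R) (hz1 : z ≠ 1) (hzz : z * z = 1)
    (hinv : ∀ s ∈ R, s * s = 1 → s = 1 ∨ s = z)
    (h8 : Nat.card R = 8) (hnc : ∃ x ∈ R, ∃ y ∈ R, x * y ≠ y * x) :
    (∀ g : K, g * z = z * g) ∧
    ∃ φ : K →* MulAut ↥R, (∀ g (h : ↥R), ((φ g h : ↥R) : K) = g * h * g⁻¹) ∧
      (∀ g : K, φ g = 1 ↔ g = 1 ∨ g = z) ∧ Nat.card φ.ker = 2 ∧
      Nonempty (MulAut ↥R ≃* Equiv.Perm (Fin 4)) ∧ Nat.card K ∣ 48 := by
  have hf2 : Fact (Nat.Prime 2) := ⟨Nat.prime_two⟩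
  have hzc : ∀ g : K, g * z = z * g := by
    intro g
    have h1 : g * z * g⁻¹ ∈ R := hRn.conj_mem z hzR g
    have h2 : g * z * g⁻¹ * (g * z * g⁻¹) = 1 := by
      calc g * z * g⁻¹ * (g * z * g⁻¹) = g * (z * z) * g⁻¹ := by
            simp only [mul_assoc, inv_mul_cancel_left]
        _ = 1 := by rw [hzz, mul_one, mul_inv_cancel]
    rcases hinv _ h1 h2 with h | h
    · exfalso
      apply hz1
      have : g * z = g := by
        calc g * z = g * z * g⁻¹ * g := by rw [inv_mul_cancel_right]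
          _ = g := by rw [h, one_mul]
      exact mul_left_cancel (this.trans (mul_one g).symm)
    · calc g * z = g * z * g⁻¹ * g := by rw [inv_mul_cancel_right]
        _ = z * g := by rw [h]
  refine ⟨hzc, ?_⟩
  obtain ⟨φ, hφ⟩ : ∃ φ : K →* MulAut ↥R, ∀ g (h : ↥R), ((φ g h : ↥R) : K) = g * h * g⁻¹ :=
    ⟨MulAut.conjNormal, fun g h => MulAut.conjNormal_apply g h⟩
  -- the isomorphism with the quaternion group
  have hinvX : ∀ s t : ↥R, s ^ 2 = 1 → t ^ 2 = 1 → s ≠ 1 → t ≠ 1 → s = t := by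
    intro s t hs ht hs1 ht1
    have hs' : (s : K) * s = 1 := by
      have h := congrArg Subtype.val hs
      rw [Subgroup.coe_pow, pow_two] at h
      exact h
    have ht' : (t : K) * t = 1 := by
      have h := congrArg Subtype.val ht
      rw [Subgroup.coe_pow, pow_two] at h
      exact h
    apply Subtype.ext
    rcases hinv _ s.2 hs' with h | h
    · exact absurd (Subtype.ext h) hs1
    · rcases hinv _ t.2 ht' with h' | h'
      · exact absurd (Subtype.ext h') ht1
      · rw [h, h']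
  have hncX : ¬ ∀ u v : ↥R, u * v = v * u := by
    obtain ⟨x, hx, y, hy, hxy⟩ := hnc
    intro h
    exact hxy (congrArg Subtype.val (h ⟨x, hx⟩ ⟨y, hy⟩))
  obtain ⟨k, hk1, ⟨e⟩⟩ := Cfsg.Agent.Helper5.quat_of_unique_involution hR2 hinvX hncX
  have hn : NeZero (2 ^ k) := ⟨by positivity⟩
  have hk : k = 1 := by
    have h1 : Nat.card ↥R = Nat.card (QuaternionGroup (2 ^ k)) := Nat.card_congr e.toEquiv
    rw [h8, Nat.card_eq_fintype_card, QuaternionGroup.card] at h1
    have h2 : 2 ^ k = 2 ^ 1 := by omega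
    exact Nat.pow_right_injective (le_refl 2) h2
  subst hk
  have e' : ↥R ≃* QuaternionGroup 2 := e
  have hker : ∀ g : K, φ g = 1 ↔ g = 1 ∨ g = z := by
    intro g
    constructor
    · intro hg
      have hcomm : ∀ h ∈ R, h * g = g * h := by
        intro h hh
        have h1 := congrArg (fun σ : MulAut ↥R => ((σ ⟨h, hh⟩ : ↥R) : K)) hg
        simp only [hφ] at h1
        have h2 : g * h * g⁻¹ = h := h1
        calc h * g = (g * h * g⁻¹) * g := by rw [h2]
          _ = g * h := by rw [inv_mul_cancel_right]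
      have hgR : g ∈ R := hCR (Subgroup.mem_centralizer_iff.mpr hcomm)
      have hq : ∀ w : QuaternionGroup 2, w * e' ⟨g, hgR⟩ = e' ⟨g, hgR⟩ * w := by
        intro w
        have h1 : (e'.symm w) * ⟨g, hgR⟩ = ⟨g, hgR⟩ * (e'.symm w) :=
          Subtype.ext (hcomm _ (e'.symm w).2)
        have h2 := congrArg e' h1
        rw [map_mul, map_mul, MulEquiv.apply_symm_apply] at h2
        exact h2
      have h3 := rank1_quat_center _ hq
      rw [← map_mul, MulEquiv.map_eq_one_iff] at h3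
      exact hinv g hgR (congrArg Subtype.val h3)
    · rintro (rfl | rfl)
      · exact map_one φ
      · apply MulEquiv.ext
        intro h
        apply Subtype.ext
        rw [hφ]
        show g * h * g⁻¹ = h
        rw [← hzc (h : K), mul_inv_cancel_right]
  have hkereq : φ.ker = zpowers z := by
    ext g
    rw [MonoidHom.mem_ker, hker, rank1_mem_zpowers_of_mul_self hzz]
  have hkercard : Nat.card φ.ker = 2 := by
    rw [hkereq, Nat.card_zpowers]
    exact orderOf_eq_prime (by rw [pow_two]; exact hzz) hz1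
  obtain ⟨e4⟩ := Cfsg.Agent.S3742.result
  have eAut : MulAut ↥R ≃* Equiv.Perm (Fin 4) := (MulAut.congr e').trans e4
  have hAut : Nat.card (MulAut ↥R) = 24 := by
    rw [Nat.card_congr eAut.toEquiv, Nat.card_perm, Nat.card_fin]
    rfl
  refine ⟨φ, hφ, hker, hkercard, ⟨eAut⟩, ?_⟩
  have h1 := Subgroup.card_mul_index φ.ker
  rw [Subgroup.index_ker, hkercard] at h1
  have h2 : Nat.card φ.range ∣ 24 := by
    rw [← hAut]; exact Subgroup.card_subgroup_dvd_card _
  rw [← h1]
  exact Nat.mul_dvd_mul_left 2 h2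

end Rank1A

end Cfsg.Agent.Helper48
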