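import Mathlib
import Cfsg.Agent.Helper48.GL23Recog
import Cfsg.Agent.Helper48.AutQ

/-!
# Recognising `GL₂(3)` from a normal quaternion subgroup and a non-central involution

Let `K` be a group of order `48` with a normal subgroup `R` of order `8` which is non-abelian,
has a unique involution `z` and is centralised only by `1` and `z`.  If `K` has an involution
other than `z`, then `K ≃* GL₂(3)`.
-/

set_option linter.unusedSimpArgs false

namespace Cfsg.Agent.Helper48

open Subgroup

section Rank1B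

variable {K : Type*} [Group K]

/-- The standing hypotheses on a normal quaternion subgroup `R` with involution `z`. -/
structure Q8Sub (R : Subgroup K) (z : K) : Prop where
  normal : R.Normal
  card : Nat.card R = 8
  zR : z ∈ R
  z1 : z ≠ 1
  zz : z * z = 1
  inv : ∀ s ∈ R, s * s = 1 → s = 1 ∨ s = z
  zc : ∀ g : K, g * z = z * g
  nc : ∃ x ∈ R, ∃ y ∈ R, x * y ≠ y * x
  ker : ∀ g : K, (∀ u ∈ R, g * u = u * g) → g = 1 ∨ g = z

/-- `v = ± u`. -/
def Ax (z u v : K) : Prop := v = u ∨ v = z * u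

/-- Rewriting rules for the quaternion relations (normal form `z^e i^a j^b`). -/
structure QRules (z i j : K) : Prop where
  zz : z * z = 1
  zz' : ∀ w, z * (z * w) = w
  iz : i * z = z * i
  iz' : ∀ w, i * (z * w) = z * (i * w)
  jz : j * z = z * j
  jz' : ∀ w, j * (z * w) = z * (j * w)
  ii : i * i = z
  ii' : ∀ w, i * (i * w) = z * w
  jj : j * j = z
  jj' : ∀ w, j * (j * w) = z * w
  ji : j * i = z * (i * j)
  ji' : ∀ w, j * (i * w) = z * (i * (j * w))
  zinv : z⁻¹ = z
  iinv : i⁻¹ = z * i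
  jinv : j⁻¹ = z * j

variable {R : Subgroup K} {z : K}

theorem Q8Sub.zz' (h : Q8Sub R z) (w : K) : z * (z * w) = w := by
  rw [← mul_assoc, h.zz, one_mul]

theorem Q8Sub.zinv (h : Q8Sub R z) : z⁻¹ = z := inv_eq_of_mul_eq_one_right h.zz

theorem Q8Sub.inv_eq (h : Q8Sub R z) {u : K} (huu : u * u = z) : u⁻¹ = z * u := by
  apply inv_eq_of_mul_eq_one_right
  rw [← mul_assoc, h.zc u, mul_assoc, huu, h.zz]

theorem Q8Sub.conj_z (h : Q8Sub R z) (g : K) : MulAut.conj g z = z := by
  rw [MulAut.conj_apply, h.zc g, mul_inv_cancel_right]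

theorem Q8Sub.conj_mem (h : Q8Sub R z) (g : K) {u : K} (hu : u ∈ R) : MulAut.conj g u ∈ R := by
  rw [MulAut.conj_apply]
  exact h.normal.conj_mem u hu g

theorem Q8Sub.conj_sq (h : Q8Sub R z) (g : K) {u : K} (huu : u * u = z) :
    MulAut.conj g u * MulAut.conj g u = z := by
  rw [← map_mul, huu, h.conj_z]

theorem Ax.symm' (h : Q8Sub R z) {u v : K} (hA : Ax z u v) : Ax z v u := by
  rcases hA with rfl | rfl
  · exact Or.inl rfl
  · exact Or.inr (h.zz' u).symm

theorem Ax.trans' (h : Q8Sub R z) {u v w : K} (h1 : Ax z u v) (h2 : Ax z v w) : Ax z u w := by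
  rcases h1 with rfl | rfl
  · exact h2
  · rcases h2 with rfl | rfl
    · exact Or.inr rfl
    · exact Or.inl (h.zz' u)

theorem Ax.conj (h : Q8Sub R z) (g : K) {u v : K} (hA : Ax z u v) :
    Ax z (MulAut.conj g u) (MulAut.conj g v) := by
  rcases hA with rfl | rfl
  · exact Or.inl rfl
  · right
    rw [map_mul, h.conj_z]

theorem Ax.of_conj (h : Q8Sub R z) (g : K) {u v : K}
    (hA : Ax z (MulAut.conj g u) (MulAut.conj g v)) : Ax z u v := by
  rcases hA with h1 | h1
  · exact Or.inl ((MulAut.conj g).injective h1)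
  · right
    apply (MulAut.conj g).injective
    rw [h1, map_mul, h.conj_z]

/-- Every element of `R` is `1`, `z`, or squares to `z`. -/
theorem Q8Sub.sq [Finite K] (h : Q8Sub R z) {u : K} (hu : u ∈ R) :
    u = 1 ∨ u = z ∨ u * u = z := by
  have : Fact (Nat.Prime 2) := ⟨Nat.prime_two⟩
  have h8 : u ^ 8 = 1 := by
    have := pow_card_eq_one' (G := ↥R) (x := ⟨u, hu⟩)
    rw [h.card] at this
    exact congrArg Subtype.val this
  have hw : u * u * (u * u) ∈ R := R.mul_mem (R.mul_mem hu hu) (R.mul_mem hu hu)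
  have hww : u * u * (u * u) * (u * u * (u * u)) = 1 := by
    rw [← h8]
    simp only [pow_succ, pow_zero, one_mul, mul_assoc]
  rcases h.inv _ hw hww with h1 | h1
  · rcases h.inv _ (R.mul_mem hu hu) h1 with h2 | h2
    · rcases h.inv _ hu h2 with h3 | h3
      · exact Or.inl h3
      · exact Or.inr (Or.inl h3)
    · exact Or.inr (Or.inr h2)
  · exfalso
    have ho : orderOf u = 2 ^ (2 + 1) := by
      apply orderOf_eq_prime_pow
      · intro h4
        apply h.z1
        have h5 : u ^ 2 ^ 2 = u * u * (u * u) := by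
          show u ^ 4 = u * u * (u * u)
          simp only [pow_succ, pow_zero, one_mul, mul_assoc]
        rw [← h1, ← h5, h4]
      · exact h8
    have hle : zpowers u ≤ R := Subgroup.zpowers_le.mpr hu
    have hcard : Nat.card (zpowers u) = 8 := by rw [Nat.card_zpowers, ho]; norm_num
    have heq : zpowers u = R := Subgroup.eq_of_le_of_card_ge hle (by rw [hcard, h.card])
    obtain ⟨x, hx, y, hy, hxy⟩ := h.nc
    rw [← heq] at hx hy
    obtain ⟨a, rfl⟩ := Subgroup.mem_zpowers_iff.mp hx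
    obtain ⟨b, rfl⟩ := Subgroup.mem_zpowers_iff.mp hy
    exact hxy (Commute.zpow_zpow_self u a b).eq

/-- Two elements of `R` of order four which are not `±` each other anticommute. -/
theorem Q8Sub.anticomm [Finite K] (h : Q8Sub R z) {u v : K} (hu : u ∈ R) (hv : v ∈ R)
    (huu : u * u = z) (hvv : v * v = z) (hne : ¬ Ax z u v) : v * u = z * (u * v) := by
  have huinv := h.inv_eq huu
  have hvinv := h.inv_eq hvv
  rcases h.sq (R.mul_mem hu hv) with h1 | h1 | h1
  · exfalso
    apply hne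
    right
    rw [← huinv]
    exact eq_inv_of_mul_eq_one_right h1
  · exfalso
    apply hne
    left
    have h2 : v = u⁻¹ * z := eq_inv_mul_of_mul_eq h1
    rw [h2, huinv, mul_assoc, h.zc u, h.zz']
  · calc v * u = u⁻¹ * (u * v * (u * v)) * v⁻¹ := by group
      _ = u⁻¹ * z * v⁻¹ := by rw [h1]
      _ = z * u * z * (z * v) := by rw [huinv, hvinv]
      _ = z * (u * v) := by simp only [mul_assoc, h.zz']

/-- The rewriting rules hold for two elements of order four not `±` each other. -/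
theorem Q8Sub.rules [Finite K] (h : Q8Sub R z) {i j : K} (hi : i ∈ R) (hj : j ∈ R)
    (hii : i * i = z) (hjj : j * j = z) (hne : ¬ Ax z i j) : QRules z i j :=
  { zz := h.zz
    zz' := h.zz'
    iz := h.zc i
    iz' := fun w => by rw [← mul_assoc, h.zc i, mul_assoc]
    jz := h.zc j
    jz' := fun w => by rw [← mul_assoc, h.zc j, mul_assoc]
    ii := hii
    ii' := fun w => by rw [← mul_assoc, hii]
    jj := hjj
    jj' := fun w => by rw [← mul_assoc, hjj]
    ji := h.anticomm hi hj hii hjj hne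
    ji' := fun w => by rw [← mul_assoc, h.anticomm hi hj hii hjj hne]; simp only [mul_assoc]
    zinv := h.zinv
    iinv := h.inv_eq hii
    jinv := h.inv_eq hjj }

/-- Membership in the cyclic subgroup generated by an element of order four. -/
theorem Q8Sub.mem_zpowers [Finite K] (h : Q8Sub R z) {i : K} (hii : i * i = z) :
    orderOf i = 4 ∧ ∀ g ∈ zpowers i, g = 1 ∨ g = i ∨ g = z ∨ g = z * i := by
  classical
  have : Fact (Nat.Prime 2) := ⟨Nat.prime_two⟩
  have ho : orderOf i = 2 ^ (1 + 1) := by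
    apply orderOf_eq_prime_pow
    · intro h4
      apply h.z1
      rw [← hii, ← h4]
      simp only [pow_succ, pow_zero, one_mul]
    · show i ^ 2 ^ (1 + 1) = 1
      have : i ^ 2 ^ (1 + 1) = i * i * (i * i) := by
        show i ^ 4 = i * i * (i * i)
        simp only [pow_succ, pow_zero, one_mul, mul_assoc]
      rw [this, hii, h.zz]
  refine ⟨ho, ?_⟩
  intro g hg
  rw [mem_zpowers_iff_mem_range_orderOf, ho] at hg
  obtain ⟨n, hn, rfl⟩ := Finset.mem_image.mp hg
  have hn' : n < 4 := Finset.mem_range.mp hn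
  interval_cases n
  · left; exact pow_zero i
  · right; left; exact pow_one i
  · right; right; left
    show i ^ 2 = z
    rw [pow_two, hii]
  · right; right; right
    show i ^ 3 = z * i
    rw [pow_succ, pow_two, hii]

/-- Enumeration of `R`. -/
theorem Q8Sub.enum [Finite K] (h : Q8Sub R z) {i j : K} (hi : i ∈ R) (hj : j ∈ R)
    (hii : i * i = z) (hjj : j * j = z) (hne : ¬ Ax z i j) {u : K} (hu : u ∈ R) :
    u = 1 ∨ u = z ∨ Ax z i u ∨ Ax z j u ∨ Ax z (i * j) u := by
  have q := h.rules hi hj hii hjj hne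
  obtain ⟨ho, hmem⟩ := h.mem_zpowers hii
  have hAR : zpowers i ≤ R := Subgroup.zpowers_le.mpr hi
  have hidx : ((zpowers i).subgroupOf R).index = 2 := by
    have h1 := Subgroup.card_mul_index ((zpowers i).subgroupOf R)
    rw [Nat.card_congr (Subgroup.subgroupOfEquivOfLe hAR).toEquiv, Nat.card_zpowers, ho,
      h.card] at h1
    omega
  have hjA : j⁻¹ ∉ zpowers i := by
    intro hj'
    rcases hmem j ((zpowers i).inv_mem_iff.mp hj') with h1 | h1 | h1 | h1
    · rw [h1, one_mul] at hjj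
      exact h.z1 hjj.symm
    · exact hne (Or.inl h1)
    · rw [h1, h.zz] at hjj
      exact h.z1 hjj.symm
    · exact hne (Or.inr h1)
  by_cases huA : u ∈ zpowers i
  · rcases hmem u huA with h1 | h1 | h1 | h1
    · exact Or.inl h1
    · exact Or.inr (Or.inr (Or.inl (Or.inl h1)))
    · exact Or.inr (Or.inl h1)
    · exact Or.inr (Or.inr (Or.inl (Or.inr h1)))
  · have h2 := Subgroup.mul_mem_iff_of_index_two hidx (a := (⟨j⁻¹, R.inv_mem hj⟩ : ↥R))
      (b := (⟨u, hu⟩ : ↥R))
    rw [Subgroup.mem_subgroupOf, Subgroup.mem_subgroupOf, Subgroup.mem_subgroupOf] at h2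
    have h3 : j⁻¹ * u ∈ zpowers i := h2.mpr ⟨fun h' => absurd h' hjA, fun h' => absurd h' huA⟩
    have h4 : u = j * (j⁻¹ * u) := (mul_inv_cancel_left j u).symm
    rcases hmem _ h3 with h1 | h1 | h1 | h1
    · rw [h1, mul_one] at h4
      exact Or.inr (Or.inr (Or.inr (Or.inl (Or.inl h4))))
    · rw [h1, q.ji] at h4
      exact Or.inr (Or.inr (Or.inr (Or.inr (Or.inr h4))))
    · rw [h1, q.jz] at h4
      exact Or.inr (Or.inr (Or.inr (Or.inl (Or.inr h4))))
    · rw [h1, q.jz', q.ji, q.zz'] at h4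
      exact Or.inr (Or.inr (Or.inr (Or.inr (Or.inl h4))))

/-- Enumeration of the elements of order four of `R`. -/
theorem Q8Sub.enum4 [Finite K] (h : Q8Sub R z) {i j : K} (hi : i ∈ R) (hj : j ∈ R)
    (hii : i * i = z) (hjj : j * j = z) (hne : ¬ Ax z i j) {u : K} (hu : u ∈ R)
    (huu : u * u = z) : Ax z i u ∨ Ax z j u ∨ Ax z (i * j) u := by
  rcases h.enum hi hj hii hjj hne hu with h1 | h1 | h1
  · exfalso
    rw [h1, one_mul] at huu
    exact h.z1 huu.symm
  · exfalso
    rw [h1, h.zz] at huu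
    exact h.z1 huu.symm
  · exact h1

/-- An element commuting with two generators of `R` centralises `R`. -/
theorem Q8Sub.commute_all [Finite K] (h : Q8Sub R z) {i j : K} (hi : i ∈ R) (hj : j ∈ R)
    (hii : i * i = z) (hjj : j * j = z) (hne : ¬ Ax z i j) {g : K} (hgi : g * i = i * g)
    (hgj : g * j = j * g) {u : K} (hu : u ∈ R) : g * u = u * g := by
  have ci : Commute g i := hgi
  have cj : Commute g j := hgj
  have cz : Commute g z := h.zc g
  rcases h.enum hi hj hii hjj hne hu with h1 | h1 | h1 | h1 | h1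
  · rw [h1, mul_one, one_mul]
  · rw [h1]; exact cz.eq
  · rcases h1 with h1 | h1
    · rw [h1]; exact ci.eq
    · rw [h1]; exact (cz.mul_right ci).eq
  · rcases h1 with h1 | h1
    · rw [h1]; exact cj.eq
    · rw [h1]; exact (cz.mul_right cj).eq
  · rcases h1 with h1 | h1
    · rw [h1]; exact (ci.mul_right cj).eq
    · rw [h1]; exact (cz.mul_right (ci.mul_right cj)).eq

/-- An element of order three does not centralise an element of order four of `R`. -/
theorem Q8Sub.conj_ne [Finite K] (h : Q8Sub R z) {c : K} (hc3 : c * c * c = 1) (hc1 : c ≠ 1)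
    {u : K} (hu : u ∈ R) (huu : u * u = z) : MulAut.conj c u ≠ u := by
  have hf3 : Fact (Nat.Prime 3) := ⟨by norm_num⟩
  have hRn : R.Normal := h.normal
  obtain ⟨φ, hφ⟩ : ∃ φ : K →* MulAut ↥R, ∀ g (v : ↥R), ((φ g v : ↥R) : K) = g * v * g⁻¹ :=
    ⟨MulAut.conjNormal, fun g v => MulAut.conjNormal_apply g v⟩
  intro hcu
  rw [MulAut.conj_apply] at hcu
  have hc3' : c ^ 3 = 1 := by
    rw [← hc3]
    simp only [pow_succ, pow_zero, one_mul]
  have hD : IsPGroup 3 (zpowers (φ c)) := by
    rintro ⟨d, hd⟩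
    obtain ⟨m, rfl⟩ := Subgroup.mem_zpowers_iff.mp hd
    refine ⟨1, Subtype.ext ?_⟩
    show ((φ c) ^ m) ^ (3 ^ 1) = 1
    rw [pow_one, ← zpow_natCast, ← zpow_mul, mul_comm, zpow_mul, zpow_natCast, ← map_pow, hc3',
      map_one, one_zpow]
  have hinv : ∀ s t : ↥R, orderOf s = 2 → orderOf t = 2 → s = t := by
    have key : ∀ s : ↥R, orderOf s = 2 → (s : K) = z := by
      intro s hs
      have h1 : s ^ 2 = 1 := by rw [← hs]; exact pow_orderOf_eq_one s
      have h2 : (s : K) * s = 1 := by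
        have := congrArg Subtype.val h1
        rwa [pow_two] at this
      rcases h.inv _ s.2 h2 with h3 | h3
      · exfalso
        have h4 : s = 1 := Subtype.ext h3
        rw [h4, orderOf_one] at hs
        norm_num at hs
      · exact h3
    intro s t hs ht
    exact Subtype.ext ((key s hs).trans (key t ht).symm)
  rcases autQ_eight h.card hinv (p := 3) (by norm_num) (zpowers (φ c)) hD with hbot | ⟨-, -, hfix⟩
  · have h1 : φ c = 1 := by
      have h0 : φ c ∈ zpowers (φ c) := Subgroup.mem_zpowers _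
      rw [hbot] at h0
      exact Subgroup.mem_bot.mp h0
    have h2 : ∀ v ∈ R, c * v = v * c := by
      intro v hv
      have h3 := congrArg (fun σ : MulAut ↥R => ((σ ⟨v, hv⟩ : ↥R) : K)) h1
      simp only [hφ, MulAut.one_apply] at h3
      exact mul_inv_eq_iff_eq_mul.mp h3
    rcases h.ker c h2 with h3 | h3
    · exact hc1 h3
    · rw [h3, h.zz, one_mul] at hc3
      exact h.z1 hc3
  · have h4 := hfix ⟨u, hu⟩ (by
      intro d hd
      have hle : zpowers (φ c) ≤ MulAction.stabilizer (MulAut ↥R) (⟨u, hu⟩ : ↥R) := by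
        rw [Subgroup.zpowers_le, MulAction.mem_stabilizer_iff]
        apply Subtype.ext
        show ((φ c ⟨u, hu⟩ : ↥R) : K) = u
        rw [hφ]
        exact hcu
      exact MulAction.mem_stabilizer_iff.mp (hle hd))
    have h5 : u * u = 1 := by
      have := congrArg Subtype.val h4
      rwa [pow_two] at this
    rw [huu] at h5
    exact h.z1 h5

/-- The square of an element of order three has order three. -/
theorem Q8Sub.sq_order_three {c : K} (hc3 : c * c * c = 1) (hc1 : c ≠ 1) :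
    c * c * (c * c) * (c * c) = 1 ∧ c * c ≠ 1 := by
  constructor
  · calc c * c * (c * c) * (c * c) = c * c * c * (c * c * c) := by simp only [mul_assoc]
      _ = 1 := by rw [hc3, one_mul]
  · intro h1
    rw [h1, one_mul] at hc3
    exact hc1 hc3

/-- An element of order three fixes no axis of `R`. -/
theorem Q8Sub.nfa [Finite K] (h : Q8Sub R z) {c : K} (hc3 : c * c * c = 1) (hc1 : c ≠ 1)
    {u : K} (hu : u ∈ R) (huu : u * u = z) : ¬ Ax z u (MulAut.conj c u) := by
  rintro (h1 | h1)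
  · exact h.conj_ne hc3 hc1 hu huu h1
  · obtain ⟨hd3, hd1⟩ := Q8Sub.sq_order_three hc3 hc1
    apply h.conj_ne hd3 hd1 hu huu
    rw [map_mul, MulAut.mul_apply, h1, map_mul, h.conj_z, h1, h.zz']

/-- Conjugates of elements of order three. -/
theorem Q8Sub.conj_order_three (g : K) {c : K} (hc3 : c * c * c = 1) (hc1 : c ≠ 1) :
    g * c * g⁻¹ * (g * c * g⁻¹) * (g * c * g⁻¹) = 1 ∧ g * c * g⁻¹ ≠ 1 := by
  constructor
  · calc g * c * g⁻¹ * (g * c * g⁻¹) * (g * c * g⁻¹) = g * (c * c * c) * g⁻¹ := by group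
      _ = 1 := by rw [hc3, mul_one, mul_inv_cancel]
  · intro h1
    exact hc1 (conj_eq_one_iff.mp h1)

/-- Conjugation by a conjugate. -/
theorem Q8Sub.conj_conj_apply (g c u : K) :
    MulAut.conj (g * c * g⁻¹) u = MulAut.conj g (MulAut.conj c (MulAut.conj g⁻¹ u)) := by
  rw [map_mul, map_mul]
  rfl

/-- Step X1: some element of order three sends the axis of `i` to the axis of `j`. -/
theorem Q8Sub.exists_x1 [Finite K] (h : Q8Sub R z) {i j : K} (hi : i ∈ R) (hj : j ∈ R)
    (hii : i * i = z) (hjj : j * j = z) (hne : ¬ Ax z i j) {c₀ : K} (hc3 : c₀ * c₀ * c₀ = 1)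
    (hc1 : c₀ ≠ 1) : ∃ c : K, c * c * c = 1 ∧ c ≠ 1 ∧ Ax z j (MulAut.conj c i) := by
  rcases h.enum4 hi hj hii hjj hne (h.conj_mem c₀ hi) (h.conj_sq c₀ hii) with h1 | h1 | h1
  · exact absurd h1 (h.nfa hc3 hc1 hi hii)
  · exact ⟨c₀, hc3, hc1, h1⟩
  · rcases h.enum4 hi hj hii hjj hne (h.conj_mem c₀ hj) (h.conj_sq c₀ hjj) with h2 | h2 | h2
    · refine ⟨c₀⁻¹, ?_, inv_ne_one.mpr hc1, ?_⟩
      · calc c₀⁻¹ * c₀⁻¹ * c₀⁻¹ = (c₀ * c₀ * c₀)⁻¹ := by group
          _ = 1 := by rw [hc3, inv_one]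
      · have h3 := Ax.conj h c₀⁻¹ h2
        have h4 : MulAut.conj c₀⁻¹ (MulAut.conj c₀ j) = j := by
          rw [MulAut.conj_apply, MulAut.conj_apply]
          group
        rw [h4] at h3
        exact Ax.symm' h h3
    · exact absurd h2 (h.nfa hc3 hc1 hj hjj)
    · exfalso
      exact hne (Ax.of_conj h c₀ (Ax.trans' h (Ax.symm' h h1) h2))

/-- Step X2: some element of order three sends `i` to `j`. -/
theorem Q8Sub.exists_x2 [Finite K] (h : Q8Sub R z) {i j : K} (hi : i ∈ R) (hj : j ∈ R)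
    (hii : i * i = z) (hjj : j * j = z) (hne : ¬ Ax z i j) {c₀ : K} (hc3 : c₀ * c₀ * c₀ = 1)
    (hc1 : c₀ ≠ 1) : ∃ c : K, c * c * c = 1 ∧ c ≠ 1 ∧ MulAut.conj c i = j := by
  have q := h.rules hi hj hii hjj hne
  obtain ⟨c, hc3', hc1', h1 | h1⟩ := h.exists_x1 hi hj hii hjj hne hc3 hc1
  · exact ⟨c, hc3', hc1', h1⟩
  · obtain ⟨hd3, hd1⟩ := Q8Sub.conj_order_three i hc3' hc1'
    refine ⟨i * c * i⁻¹, hd3, hd1, ?_⟩
    have e1 : MulAut.conj i⁻¹ i = i := by
      rw [MulAut.conj_apply]
      group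
    have e2 : MulAut.conj i (z * j) = j := by
      rw [MulAut.conj_apply]
      simp only [mul_assoc, mul_inv_rev, mul_one, one_mul, q.zz, q.zz', q.iz, q.iz', q.jz, q.jz',
        q.ii, q.ii', q.jj, q.jj', q.ji, q.ji', q.zinv, q.iinv, q.jinv]
    rw [Q8Sub.conj_conj_apply, e1, h1, e2]

/-- Step X3: such an element sends the axis of `j` to the axis of `i * j`. -/
theorem Q8Sub.x3 [Finite K] (h : Q8Sub R z) {i j : K} (hi : i ∈ R) (hj : j ∈ R)
    (hii : i * i = z) (hjj : j * j = z) (hne : ¬ Ax z i j) {c : K} (hc3 : c * c * c = 1)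
    (hc1 : c ≠ 1) (hci : MulAut.conj c i = j) : Ax z (i * j) (MulAut.conj c j) := by
  rcases h.enum4 hi hj hii hjj hne (h.conj_mem c hj) (h.conj_sq c hjj) with h2 | h2 | h2
  · exfalso
    obtain ⟨hd3, hd1⟩ := Q8Sub.sq_order_three hc3 hc1
    apply h.nfa hd3 hd1 hi hii
    rw [map_mul, MulAut.mul_apply, hci]
    exact h2
  · exact absurd h2 (h.nfa hc3 hc1 hj hjj)
  · exact h2

/-- Step X4: some element of order three sends `i` to `j` and `j` to `i * j`. -/
theorem Q8Sub.exists_x4 [Finite K] (h : Q8Sub R z) {i j : K} (hi : i ∈ R) (hj : j ∈ R)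
    (hii : i * i = z) (hjj : j * j = z) (hne : ¬ Ax z i j) {c₀ : K} (hc3 : c₀ * c₀ * c₀ = 1)
    (hc1 : c₀ ≠ 1) : ∃ x : K, x * x * x = 1 ∧ x ≠ 1 ∧ MulAut.conj x i = j ∧
      MulAut.conj x j = i * j := by
  have q := h.rules hi hj hii hjj hne
  obtain ⟨c, hc3', hc1', hci⟩ := h.exists_x2 hi hj hii hjj hne hc3 hc1
  rcases h.x3 hi hj hii hjj hne hc3' hc1' hci with h1 | h1
  · exact ⟨c, hc3', hc1', hci, h1⟩
  · obtain ⟨hd3, hd1⟩ := Q8Sub.conj_order_three (i * j) hc3' hc1'
    refine ⟨i * j * c * (i * j)⁻¹, hd3, hd1, ?_, ?_⟩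
    · have e1 : MulAut.conj (i * j)⁻¹ i = z * i := by
        rw [MulAut.conj_apply]
        simp only [mul_assoc, mul_inv_rev, mul_one, one_mul, inv_inv, q.zz, q.zz', q.iz, q.iz',
          q.jz, q.jz', q.ii, q.ii', q.jj, q.jj', q.ji, q.ji', q.zinv, q.iinv, q.jinv]
      have e2 : MulAut.conj (i * j) (z * j) = j := by
        rw [MulAut.conj_apply]
        simp only [mul_assoc, mul_inv_rev, mul_one, one_mul, inv_inv, q.zz, q.zz', q.iz, q.iz',
          q.jz, q.jz', q.ii, q.ii', q.jj, q.jj', q.ji, q.ji', q.zinv, q.iinv, q.jinv]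
      rw [Q8Sub.conj_conj_apply, e1, map_mul (MulAut.conj c), h.conj_z, hci, e2]
    · have e1 : MulAut.conj (i * j)⁻¹ j = z * j := by
        rw [MulAut.conj_apply]
        simp only [mul_assoc, mul_inv_rev, mul_one, one_mul, inv_inv, q.zz, q.zz', q.iz, q.iz',
          q.jz, q.jz', q.ii, q.ii', q.jj, q.jj', q.ji, q.ji', q.zinv, q.iinv, q.jinv]
      have e2 : MulAut.conj (i * j) (i * j) = i * j := by
        rw [MulAut.conj_apply, mul_inv_cancel_right]
      rw [Q8Sub.conj_conj_apply, e1, map_mul (MulAut.conj c), h.conj_z, h1, h.zz', e2]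

/-- Step 1: a non-central involution moves some axis of `R`. -/
theorem Q8Sub.exists_moved [Finite K] (h : Q8Sub R z) {t : K} (htt : t * t = 1) (ht1 : t ≠ 1)
    (htz : t ≠ z) : ∃ i ∈ R, i * i = z ∧ ¬ Ax z i (MulAut.conj t i) := by
  by_contra hcon
  push Not at hcon
  obtain ⟨a, ha, b, hb, hab⟩ := h.nc
  have haa : a * a = z := by
    rcases h.sq ha with h1 | h1 | h1
    · exfalso; apply hab; rw [h1, one_mul, mul_one]
    · exfalso; apply hab; rw [h1]; exact (h.zc b).symm
    · exact h1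
  have hbb : b * b = z := by
    rcases h.sq hb with h1 | h1 | h1
    · exfalso; apply hab; rw [h1, one_mul, mul_one]
    · exfalso; apply hab; rw [h1]; exact h.zc a
    · exact h1
  have hne : ¬ Ax z a b := by
    rintro (h1 | h1)
    · apply hab; rw [h1]
    · apply hab; rw [h1, ← mul_assoc, h.zc a, mul_assoc]
  have q := h.rules ha hb haa hbb hne
  have key : ∀ r ∈ R, MulAut.conj r a = MulAut.conj t a → MulAut.conj r b = MulAut.conj t b →
      False := by
    intro r hr h1 h2
    rw [MulAut.conj_apply, MulAut.conj_apply] at h1 h2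
    have hga : r⁻¹ * t * a = a * (r⁻¹ * t) := by
      have h3 : t * a = r * a * r⁻¹ * t := mul_inv_eq_iff_eq_mul.mp h1.symm
      rw [mul_assoc, h3]
      group
    have hgb : r⁻¹ * t * b = b * (r⁻¹ * t) := by
      have h3 : t * b = r * b * r⁻¹ * t := mul_inv_eq_iff_eq_mul.mp h2.symm
      rw [mul_assoc, h3]
      group
    have htR : t ∈ R := by
      rcases h.ker (r⁻¹ * t) (fun u hu => h.commute_all ha hb haa hbb hne hga hgb hu) with h3 | h3
      · have h4 : t = r := (inv_mul_eq_one.mp h3).symm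
        rw [h4]
        exact hr
      · have h4 : t = r * z := eq_mul_of_inv_mul_eq h3
        rw [h4]
        exact R.mul_mem hr h.zR
    rcases h.inv t htR htt with h3 | h3
    · exact ht1 h3
    · exact htz h3
  rcases hcon a ha haa with h1 | h1 <;> rcases hcon b hb hbb with h2 | h2
  · apply key 1 R.one_mem
    · rw [h1, map_one]; rfl
    · rw [h2, map_one]; rfl
  · apply key a ha
    · rw [h1, MulAut.conj_apply, mul_inv_cancel_right]
    · rw [h2, MulAut.conj_apply]
      simp only [mul_assoc, mul_inv_rev, mul_one, one_mul, inv_inv, q.zz, q.zz', q.iz, q.iz',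
        q.jz, q.jz', q.ii, q.ii', q.jj, q.jj', q.ji, q.ji', q.zinv, q.iinv, q.jinv]
  · apply key b hb
    · rw [h1, MulAut.conj_apply]
      simp only [mul_assoc, mul_inv_rev, mul_one, one_mul, inv_inv, q.zz, q.zz', q.iz, q.iz',
        q.jz, q.jz', q.ii, q.ii', q.jj, q.jj', q.ji, q.ji', q.zinv, q.iinv, q.jinv]
    · rw [h2, MulAut.conj_apply, mul_inv_cancel_right]
  · apply key (a * b) (R.mul_mem ha hb)
    · rw [h1, MulAut.conj_apply]
      simp only [mul_assoc, mul_inv_rev, mul_one, one_mul, inv_inv, q.zz, q.zz', q.iz, q.iz',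
        q.jz, q.jz', q.ii, q.ii', q.jj, q.jj', q.ji, q.ji', q.zinv, q.iinv, q.jinv]
    · rw [h2, MulAut.conj_apply]
      simp only [mul_assoc, mul_inv_rev, mul_one, one_mul, inv_inv, q.zz, q.zz', q.iz, q.iz',
        q.jz, q.jz', q.ii, q.ii', q.jj, q.jj', q.ji, q.ji', q.zinv, q.iinv, q.jinv]

/-- Steps 2-4: the relations of `GL₂(3)` hold in `K`. -/
theorem Q8Sub.exists_glrel [Finite K] (h : Q8Sub R z) (h3 : 3 ∣ Nat.card K) {t : K}
    (htt : t * t = 1) (ht1 : t ≠ 1) (htz : t ≠ z) :
    ∃ i j x : K, i ∈ R ∧ j ∈ R ∧ i * i = z ∧ j * j = z ∧ ¬ Ax z i j ∧ x ≠ 1 ∧ GLRel i j x t := by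
  have hf3 : Fact (Nat.Prime 3) := ⟨by norm_num⟩
  obtain ⟨i, hi, hii, hmv⟩ := h.exists_moved htt ht1 htz
  have htinv : t⁻¹ = t := inv_eq_of_mul_eq_one_right htt
  obtain ⟨j, hjdef⟩ : ∃ j : K, j = MulAut.conj t i⁻¹ := ⟨_, rfl⟩
  have hj : j ∈ R := by rw [hjdef]; exact h.conj_mem t (R.inv_mem hi)
  have hjj : j * j = z := by
    rw [hjdef, ← map_mul, ← mul_inv_rev, hii, h.zinv, h.conj_z]
  have hji : MulAut.conj t i = j⁻¹ := by rw [hjdef, map_inv, inv_inv]
  have htj : MulAut.conj t j = i⁻¹ := by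
    rw [hjdef, ← MulAut.mul_apply, ← map_mul, htt, map_one]
    rfl
  have hne : ¬ Ax z i j := by
    rintro (h1 | h1)
    · apply hmv
      right
      rw [hji, h1, h.inv_eq hii]
    · apply hmv
      left
      rw [hji, h1, mul_inv_rev, h.zinv, h.inv_eq hii, mul_assoc, h.zc i, h.zz']
  have q := h.rules hi hj hii hjj hne
  obtain ⟨c₀, hc₀⟩ := exists_prime_orderOf_dvd_card' (G := K) 3 h3
  have hc3 : c₀ * c₀ * c₀ = 1 := by
    have h1 := pow_orderOf_eq_one c₀
    rw [hc₀] at h1
    rw [← h1]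
    simp only [pow_succ, pow_zero, one_mul]
  have hc1 : c₀ ≠ 1 := by
    rintro rfl
    rw [orderOf_one] at hc₀
    norm_num at hc₀
  obtain ⟨x, hx3, hx1, hxi, hxj⟩ := h.exists_x4 hi hj hii hjj hne hc3 hc1
  have hxi' : x * i = j * x := by
    rw [MulAut.conj_apply] at hxi
    exact mul_inv_eq_iff_eq_mul.mp hxi
  have hxj' : x * j = i * j * x := by
    rw [MulAut.conj_apply] at hxj
    exact mul_inv_eq_iff_eq_mul.mp hxj
  have hti' : t * i = j⁻¹ * t := by
    rw [MulAut.conj_apply] at hji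
    exact mul_inv_eq_iff_eq_mul.mp hji
  have htj' : t * j = i⁻¹ * t := by
    rw [MulAut.conj_apply] at htj
    exact mul_inv_eq_iff_eq_mul.mp htj
  have hx3' : x ^ 3 = 1 := by
    rw [← hx3]
    simp only [pow_succ, pow_zero, one_mul]
  have htx : t * x = x⁻¹ * t := by
    obtain ⟨y, hy⟩ : ∃ y : K, y = t * x * t⁻¹ := ⟨_, rfl⟩
    have hti2 : MulAut.conj t⁻¹ i = j⁻¹ := by rw [htinv]; exact hji
    have htj2 : MulAut.conj t⁻¹ j = i⁻¹ := by rw [htinv]; exact htj
    have hyi : MulAut.conj y i = i * j := by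
      rw [hy, Q8Sub.conj_conj_apply, hti2, map_inv, hxj, map_inv, map_mul (MulAut.conj t), hji,
        htj, mul_inv_rev, inv_inv, inv_inv]
    have hyj : MulAut.conj y j = i := by
      rw [hy, Q8Sub.conj_conj_apply, htj2, map_inv, hxi, map_inv, htj, inv_inv]
    have hgi : x * y * i = i * (x * y) := by
      have h1 : MulAut.conj (x * y) i = i := by
        rw [map_mul, MulAut.mul_apply, hyi, map_mul (MulAut.conj x), hxi, hxj]
        simp only [mul_assoc, mul_inv_rev, mul_one, one_mul, inv_inv, q.zz, q.zz', q.iz, q.iz',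
        q.jz, q.jz', q.ii, q.ii', q.jj, q.jj', q.ji, q.ji', q.zinv, q.iinv, q.jinv]
      rw [MulAut.conj_apply] at h1
      exact mul_inv_eq_iff_eq_mul.mp h1
    have hgj : x * y * j = j * (x * y) := by
      have h1 : MulAut.conj (x * y) j = j := by
        rw [map_mul, MulAut.mul_apply, hyj, hxi]
      rw [MulAut.conj_apply] at h1
      exact mul_inv_eq_iff_eq_mul.mp h1
    have hy3 : y ^ 3 = 1 := by
      rw [hy, conj_pow, hx3', mul_one, mul_inv_cancel]
    rcases h.ker (x * y) (fun u hu => h.commute_all hi hj hii hjj hne hgi hgj hu) with h4 | h4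
    · have h5 : y = x⁻¹ := eq_inv_of_mul_eq_one_right h4
      rw [hy] at h5
      exact mul_inv_eq_iff_eq_mul.mp h5
    · exfalso
      have h5 : y = x⁻¹ * z := eq_inv_mul_of_mul_eq h4
      have hcomm : Commute x⁻¹ z := h.zc x⁻¹
      rw [h5, hcomm.mul_pow, inv_pow, hx3', inv_one, one_mul] at hy3
      apply h.z1
      have h6 : z ^ 3 = z := by rw [pow_succ, pow_two, h.zz, one_mul]
      rw [← h6]
      exact hy3
  refine ⟨i, j, x, hi, hj, hii, hjj, hne, hx1, ?_⟩
  exact
    { qc :=
        { i4 := by rw [mul_assoc (i * i), hii, h.zz]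
          jj := hjj.trans hii.symm
          ji := by rw [q.ji, hii, mul_assoc]
          xi := hxi'
          xj := hxj'
          x3 := hx3 }
      tt := htt
      ti := hti'
      tj := htj'
      tx := htx }

/-- A group of order at most `48` satisfying the relations is generated by `i, j, x, t` as soon
as `⟨i, j, x⟩` has order at least `24` and does not contain `t`. -/
theorem GLRel.closure_eq_top_of_card {H : Type*} [Group H] [Finite H] {i j x t : H}
    (hH : Nat.card H ≤ 48) (hL : 24 ≤ Nat.card ↥(closure ({i, j, x} : Set H)))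
    (ht : t ∉ closure ({i, j, x} : Set H)) : closure ({i, j, x, t} : Set H) = ⊤ := by
  have hle : closure ({i, j, x} : Set H) ≤ closure ({i, j, x, t} : Set H) := by
    apply Subgroup.closure_mono
    intro g hg
    simp only [Set.mem_insert_iff, Set.mem_singleton_iff] at hg ⊢
    tauto
  have htm : t ∈ closure ({i, j, x, t} : Set H) := Subgroup.subset_closure (by simp)
  have hdvd := Subgroup.card_dvd_of_le hle
  have hlt : Nat.card ↥(closure ({i, j, x} : Set H)) <
      Nat.card ↥(closure ({i, j, x, t} : Set H)) := by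
    by_contra hcon
    push Not at hcon
    have h1 := Subgroup.eq_of_le_of_card_ge hle hcon
    exact ht (h1 ▸ htm)
  have hle48 : Nat.card ↥(closure ({i, j, x, t} : Set H)) ≤ Nat.card H :=
    Subgroup.card_le_card_group _
  rw [← Subgroup.card_eq_iff_eq_top]
  obtain ⟨m, hm⟩ := hdvd
  have hm2 : 2 ≤ m := by
    by_contra hcon
    have h1 : m = 0 ∨ m = 1 := by omega
    rcases h1 with rfl | rfl
    · rw [hm] at hlt; omega
    · rw [hm, mul_one] at hlt; omega
  have h48 : 48 ≤ Nat.card ↥(closure ({i, j, x, t} : Set H)) := by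
    rw [hm]
    nlinarith
  omega

/-- Step 5: generation of `K`. -/
theorem Q8Sub.closure_top [Finite K] (h : Q8Sub R z) (hK : Nat.card K = 48) {i j x t : K}
    (hi : i ∈ R) (hj : j ∈ R) (hii : i * i = z) (hjj : j * j = z) (hne : ¬ Ax z i j)
    (hx1 : x ≠ 1) (hrel : GLRel i j x t) (ht1 : t ≠ 1) (htz : t ≠ z) :
    closure ({i, j, x, t} : Set K) = ⊤ := by
  have hf3 : Fact (Nat.Prime 3) := ⟨by norm_num⟩
  have hiL : i ∈ closure ({i, j, x} : Set K) := Subgroup.subset_closure (by simp)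
  have hjL : j ∈ closure ({i, j, x} : Set K) := Subgroup.subset_closure (by simp)
  have hxL : x ∈ closure ({i, j, x} : Set K) := Subgroup.subset_closure (by simp)
  have hzL : z ∈ closure ({i, j, x} : Set K) := by rw [← hii]; exact mul_mem hiL hiL
  have hRL : R ≤ closure ({i, j, x} : Set K) := by
    intro u hu
    rcases h.enum hi hj hii hjj hne hu with h1 | h1 | h1 | h1 | h1
    · rw [h1]; exact one_mem _
    · rw [h1]; exact hzL
    · rcases h1 with h1 | h1
      · rw [h1]; exact hiL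
      · rw [h1]; exact mul_mem hzL hiL
    · rcases h1 with h1 | h1
      · rw [h1]; exact hjL
      · rw [h1]; exact mul_mem hzL hjL
    · rcases h1 with h1 | h1
      · rw [h1]; exact mul_mem hiL hjL
      · rw [h1]; exact mul_mem hzL (mul_mem hiL hjL)
  have h8 : 8 ∣ Nat.card ↥(closure ({i, j, x} : Set K)) := by
    rw [← h.card]
    exact Subgroup.card_dvd_of_le hRL
  have hx3' : x ^ 3 = 1 := by
    rw [← hrel.qc.x3]
    simp only [pow_succ, pow_zero, one_mul]
  have hx3 : orderOf x = 3 := orderOf_eq_prime hx3' hx1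
  have h3 : 3 ∣ Nat.card ↥(closure ({i, j, x} : Set K)) := by
    rw [← hx3]
    have h1 := orderOf_dvd_natCard (⟨x, hxL⟩ : ↥(closure ({i, j, x} : Set K)))
    rwa [← Subgroup.orderOf_coe] at h1
  have h24 : 24 ≤ Nat.card ↥(closure ({i, j, x} : Set K)) := by
    have hpos : 0 < Nat.card ↥(closure ({i, j, x} : Set K)) := Nat.card_pos
    have hcop : Nat.Coprime 8 3 := by norm_num
    exact Nat.le_of_dvd hpos (hcop.mul_dvd_of_dvd_of_dvd h8 h3)
  apply GLRel.closure_eq_top_of_card hK.le h24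
  intro htL
  obtain ⟨a, b, c, hb, hc, hnf⟩ := hrel.qc.nf_of_mem_closure htL
  have hr : i ^ a * j ^ b ∈ R := R.mul_mem (R.pow_mem hi a) (R.pow_mem hj b)
  have htinv : t⁻¹ = t := inv_eq_of_mul_eq_one_right hrel.tt
  have e : x ^ c = (i ^ a * j ^ b)⁻¹ * t := by
    rw [hnf]
    group
  have e2 : x ^ c * x ^ c = (i ^ a * j ^ b)⁻¹ * (t * (i ^ a * j ^ b)⁻¹ * t⁻¹) := by
    rw [e, htinv]
    simp only [mul_assoc]
  have hyy : x ^ c * x ^ c ∈ R := by
    rw [e2]
    exact R.mul_mem (R.inv_mem hr) (h.normal.conj_mem _ (R.inv_mem hr) t)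
  have hx4 : x * x * (x * x) = x := by
    rw [← mul_assoc, hrel.qc.x3, one_mul]
  have hxR : x ∈ R → False := by
    intro hxR
    have h1 := orderOf_dvd_natCard (⟨x, hxR⟩ : ↥R)
    rw [← Subgroup.orderOf_coe, h.card] at h1
    have h2 : orderOf x ∣ 8 := h1
    rw [hx3] at h2
    norm_num at h2
  interval_cases c
  · rw [pow_zero, mul_one] at hnf
    have htR : t ∈ R := by rw [hnf]; exact hr
    rcases h.inv t htR hrel.tt with h3 | h3
    · exact ht1 h3
    · exact htz h3
  · rw [pow_one] at hyy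
    have h1 := R.mul_mem hyy hyy
    rw [hx4] at h1
    exact hxR h1
  · rw [pow_two, hx4] at hyy
    exact hxR hyy

/-- `GL₂(3)` is generated by the four standard generators. -/
theorem gl23_closure : Subgroup.closure ({gl23I, gl23J, gl23X, gl23T} : Set GL23) = ⊤ := by
  apply GLRel.closure_eq_top_of_card (by rw [gl23_card])
  · have h1 : (⊤ : Subgroup SL23).map Matrix.SpecialLinearGroup.toGL ≤
        Subgroup.closure ({gl23I, gl23J, gl23X} : Set GL23) := by
      rw [← sl23_closure, MonoidHom.map_closure, Subgroup.closure_le]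
      rintro g ⟨s, hs, rfl⟩
      apply Subgroup.subset_closure
      simp only [Set.mem_insert_iff, Set.mem_singleton_iff] at hs ⊢
      rcases hs with rfl | rfl | rfl
      · left; exact gl23_ext rfl
      · right; left; exact gl23_ext rfl
      · right; right; exact gl23_ext rfl
    have h2 : Nat.card ↥((⊤ : Subgroup SL23).map Matrix.SpecialLinearGroup.toGL) = 24 := by
      rw [Subgroup.card_map_of_injective Matrix.SpecialLinearGroup.toGL_injective,
        Subgroup.card_top, Nat.card_eq_fintype_card, sl23_card]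
    rw [← h2]
    exact Subgroup.card_le_of_le h1
  · intro hT
    have hle : Subgroup.closure ({gl23I, gl23J, gl23X} : Set GL23) ≤
        (Matrix.GeneralLinearGroup.det (n := Fin 2) (R := ZMod 3)).ker := by
      rw [Subgroup.closure_le]
      intro g hg
      simp only [Set.mem_insert_iff, Set.mem_singleton_iff] at hg
      rw [SetLike.mem_coe, MonoidHom.mem_ker]
      apply Units.ext
      rw [Matrix.GeneralLinearGroup.val_det_apply]
      rcases hg with rfl | rfl | rfl
      · show Matrix.det (!![0, 1; 2, 0] : Matrix (Fin 2) (Fin 2) (ZMod 3)) = 1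
        rw [Matrix.det_fin_two_of]
        decide
      · show Matrix.det (!![2, 1; 1, 1] : Matrix (Fin 2) (Fin 2) (ZMod 3)) = 1
        rw [Matrix.det_fin_two_of]
        decide
      · show Matrix.det (!![1, 0; 1, 1] : Matrix (Fin 2) (Fin 2) (ZMod 3)) = 1
        rw [Matrix.det_fin_two_of]
        decide
    have h1 := hle hT
    rw [MonoidHom.mem_ker] at h1
    have h2 := congrArg Units.val h1
    rw [Matrix.GeneralLinearGroup.val_det_apply] at h2
    have h3 : Matrix.det (!![1, 0; 1, 2] : Matrix (Fin 2) (Fin 2) (ZMod 3)) = 1 := h2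
    rw [Matrix.det_fin_two_of] at h3
    revert h3
    decide

/-- **Recognition of `GL₂(3)`.** -/
theorem rank1_gl23 [Finite K] (h : Q8Sub R z) (hK : Nat.card K = 48) {t : K} (htt : t * t = 1)
    (ht1 : t ≠ 1) (htz : t ≠ z) : Nonempty (K ≃* GL23) := by
  obtain ⟨i, j, x, hi, hj, hii, hjj, hne, hx1, hrel⟩ :=
    h.exists_glrel (by rw [hK]; norm_num) htt ht1 htz
  have hg₁ := h.closure_top hK hi hj hii hjj hne hx1 hrel ht1 htz
  exact GLRel.nonempty_mulEquiv hrel gl23_rel hg₁ gl23_closure (by rw [hK]) (by rw [gl23_card])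

end Rank1B

end Cfsg.Agent.Helper48
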