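import Mathlib
import Cfsg.Prelude.Def_CaseTheorems
import Cfsg.Agent.Helper55.TwoClosed
import Cfsg.Agent.Helper5.QuatRecog
import Cfsg.Agent.Helper48.Rank1A
import Cfsg.Agent.Helper48.Rank1B

/-!
# Solvable groups whose Sylow 2-intersections have rank at most one (helper48)

`rank1_main`: a finite solvable group `K` with `O(K) = 1` in which two distinct Sylow
2-subgroups never share two distinct commuting involutions has a normal Sylow 2-subgroup, or is
`GL₂(3)`, or is the binary octahedral group.
-/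

set_option autoImplicit false

namespace Cfsg.Agent.Helper48

open Subgroup

section Rank1C

theorem rank1_main {K : Type*} [Group K] [Finite K] (hs : Group.IsSolvable K)
    (hO : Cfsg.pPrimeCore 2 K = ⊥)
    (hI : ∀ S T : Sylow 2 K, S ≠ T → ∀ x y : K, x ∈ (S : Subgroup K) → x ∈ (T : Subgroup K) →
      y ∈ (S : Subgroup K) → y ∈ (T : Subgroup K) → x * x = 1 → y * y = 1 → x * y = y * x →
      x ≠ 1 → y ≠ 1 → x = y) :
    (∃ P : Sylow 2 K, (P : Subgroup K).Normal) ∨ Nonempty (K ≃* GL (Fin 2) (ZMod 3)) ∨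
    (Nat.card K = 48 ∧ Nat.card ↥(Subgroup.center K) = 2 ∧
      Nonempty (K ⧸ Subgroup.center K ≃* Equiv.Perm (Fin 4)) ∧
      ∀ P : Sylow 2 K, Nonempty (↥(P : Subgroup K) ≃* QuaternionGroup 4)) := by
  have hf2 : Fact (Nat.Prime 2) := ⟨Nat.prime_two⟩
  obtain ⟨P⟩ : Nonempty (Sylow 2 K) := inferInstance
  by_cases hPn : (P : Subgroup K).Normal
  · exact Or.inl ⟨P, hPn⟩
  right
  have hex : ∃ T : Sylow 2 K, T ≠ P := by
    by_contra hall
    push Not at hall
    apply hPn
    have : Subsingleton (Sylow 2 K) := ⟨fun a b => (hall a).trans (hall b).symm⟩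
    exact Sylow.normal_of_subsingleton P
  obtain ⟨T, hTP⟩ := hex
  obtain ⟨R, hRdef⟩ : ∃ R : Subgroup K, R = (P : Subgroup K).normalCore := ⟨_, rfl⟩
  have hRn : R.Normal := by rw [hRdef]; exact Subgroup.normalCore_normal _
  have hRP : R ≤ (P : Subgroup K) := by rw [hRdef]; exact Subgroup.normalCore_le _
  have hR2 : IsPGroup 2 ↥R := P.2.to_le hRP
  have hCR : centralizer (R : Set K) ≤ R := by
    rw [hRdef]
    exact Cfsg.Agent.Helper55.centralizer_normalCore_le hs hO P
  have hRne : R ≠ ⊥ := by
    intro hbot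
    rw [hbot] at hCR
    have htop : (⊤ : Subgroup K) ≤ ⊥ := by
      intro g _
      apply hCR
      rw [Subgroup.mem_centralizer_iff]
      intro h hh
      rw [SetLike.mem_coe, Subgroup.mem_bot] at hh
      rw [hh, one_mul, mul_one]
    apply hPn
    have h1 : (P : Subgroup K) = ⊤ := by
      rw [eq_top_iff]
      exact htop.trans bot_le
    rw [h1]
    infer_instance
  obtain ⟨z, hzR, hz1, hzz, hinvz⟩ :=
    rank1_unique_invol P T (hI P T (Ne.symm hTP)) (by rw [← hRdef]; exact hRne)
  rw [← hRdef] at hzR hinvz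
  by_cases hodd : ∃ p : ℕ, p.Prime ∧ p ≠ 2 ∧ p ∣ Nat.card K
  swap
  · exfalso
    apply hPn
    have hidx : (P : Subgroup K).index = 1 := by
      rw [Nat.eq_one_iff_not_exists_prime_dvd]
      intro p hp hdvd
      by_cases hp2 : p = 2
      · subst hp2
        exact Sylow.not_dvd_index P hdvd
      · exact hodd ⟨p, hp, hp2, hdvd.trans (Subgroup.index_dvd_card _)⟩
    rw [Subgroup.index_eq_one] at hidx
    rw [hidx]
    infer_instance
  obtain ⟨p, hp, hp2, hpdvd⟩ := hodd
  have hfp : Fact p.Prime := ⟨hp⟩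
  obtain ⟨Sp⟩ : Nonempty (Sylow p K) := inferInstance
  have hSpne : (Sp : Subgroup K) ≠ ⊥ := Sylow.ne_bot_of_dvd_card Sp hpdvd
  have hinv2 : ∀ s ∈ R, ∀ t ∈ R, s * s = 1 → t * t = 1 → s ≠ 1 → t ≠ 1 → s = t := by
    intro s hs t ht hss htt hs1 ht1
    rcases hinvz s hs hss with h1 | h1
    · exact absurd h1 hs1
    · rcases hinvz t ht htt with h2 | h2
      · exact absurd h2 ht1
      · rw [h1, h2]
  obtain ⟨hp3, h8, hSp3, hnc⟩ := rank1_odd_sylow R hR2 hCR hinv2 hp2 Sp hSpne
  subst hp3
  obtain ⟨hzc, φ, hφ, hφker, hkercard, ⟨eAut⟩, hdvd48⟩ :=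
    rank1_card R hR2 hCR z hzR hz1 hzz hinvz h8 hnc
  have h8K : 8 ∣ Nat.card K := by
    rw [← h8]
    exact Subgroup.card_subgroup_dvd_card R
  have h24 : 24 ∣ Nat.card K :=
    (by norm_num : Nat.Coprime 8 3).mul_dvd_of_dvd_of_dvd h8K hpdvd
  have hcases : Nat.card K = 24 ∨ Nat.card K = 48 := by
    obtain ⟨m, hm⟩ := h24
    obtain ⟨n, hn⟩ := hdvd48
    have hmn : m * n = 2 := by
      rw [hm] at hn
      nlinarith
    have hm12 : m = 1 ∨ m = 2 := by
      have h1 : m ∣ 2 := ⟨n, hmn.symm⟩
      have h2 := Nat.le_of_dvd (by norm_num) h1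
      have h3 : m ≠ 0 := by
        rintro rfl
        simp at hmn
      omega
    rcases hm12 with rfl | rfl
    · left; rw [hm]
    · right; rw [hm]
  obtain ⟨k, hk⟩ := IsPGroup.exists_card_eq P.2
  have hPidx := Subgroup.card_mul_index (P : Subgroup K)
  have hPodd : ¬ 2 ∣ (P : Subgroup K).index := Sylow.not_dvd_index P
  have h8P : 8 ∣ Nat.card ↥(P : Subgroup K) := by
    rw [← h8]
    exact Subgroup.card_dvd_of_le hRP
  rcases hcases with hK | hK
  · exfalso
    apply hPn
    have hcP : Nat.card ↥(P : Subgroup K) ≤ 8 := by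
      rw [hK, hk] at hPidx
      rw [hk]
      have hk3 : k ≤ 3 := by
        by_contra hcon
        push Not at hcon
        have h1 : 2 ^ 4 ∣ 2 ^ k := Nat.pow_dvd_pow 2 hcon
        have h2 : 2 ^ 4 ∣ 24 := h1.trans ⟨_, hPidx.symm⟩
        norm_num at h2
      calc 2 ^ k ≤ 2 ^ 3 := Nat.pow_le_pow_right (by norm_num) hk3
        _ = 8 := by norm_num
    have h1 : R = (P : Subgroup K) := Subgroup.eq_of_le_of_card_ge hRP (by rw [h8]; exact hcP)
    rw [← h1]
    exact hRn
  · -- `|K| = 48`
    have hAutfin : Finite (MulAut ↥R) := Finite.of_equiv _ eAut.symm.toEquiv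
    have hAut : Nat.card (MulAut ↥R) = 24 := by
      rw [Nat.card_congr eAut.toEquiv, Nat.card_perm, Nat.card_fin]
      rfl
    have hrange : Nat.card ↥φ.range = 24 := by
      have h1 := Subgroup.card_mul_index φ.ker
      rw [Subgroup.index_ker, hkercard, hK] at h1
      omega
    have hsurj : Function.Surjective φ := by
      rw [← MonoidHom.range_eq_top, ← Subgroup.card_eq_iff_eq_top, hrange, hAut]
    have hkerR : ∀ g : K, (∀ u ∈ R, g * u = u * g) → g = 1 ∨ g = z := by
      intro g hg
      apply (hφker g).mp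
      apply MulEquiv.ext
      intro u
      apply Subtype.ext
      rw [hφ, hg u u.2, mul_inv_cancel_right]
      rfl
    have hcen : Subgroup.center K = φ.ker := by
      ext g
      rw [Subgroup.mem_center_iff, MonoidHom.mem_ker]
      constructor
      · intro hg
        apply (hφker g).mpr
        exact hkerR g (fun u _ => (hg u).symm)
      · intro hg w
        rcases (hφker g).mp hg with rfl | rfl
        · rw [mul_one, one_mul]
        · exact hzc w
    have hcencard : Nat.card ↥(Subgroup.center K) = 2 := by rw [hcen, hkercard]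
    have eQ : K ⧸ Subgroup.center K ≃* Equiv.Perm (Fin 4) :=
      (QuotientGroup.quotientMulEquivOfEq hcen).trans
        ((QuotientGroup.quotientKerEquivOfSurjective φ hsurj).trans eAut)
    by_cases hall : ∀ t : K, t * t = 1 → t = 1 ∨ t = z
    · right
      refine ⟨hK, hcencard, ⟨eQ⟩, ?_⟩
      intro S
      have hRS : R ≤ (S : Subgroup K) :=
        (Cfsg.Agent.Helper55.le_normalCore_sylow S R hR2).trans (Subgroup.normalCore_le _)
      have hinvS : ∀ s t : ↥(S : Subgroup K), s ^ 2 = 1 → t ^ 2 = 1 → s ≠ 1 → t ≠ 1 → s = t := by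
        have key : ∀ s : ↥(S : Subgroup K), s ^ 2 = 1 → s ≠ 1 → (s : K) = z := by
          intro s hs hs1
          have h1 : (s : K) * s = 1 := by
            have := congrArg Subtype.val hs
            rwa [pow_two] at this
          rcases hall _ h1 with h2 | h2
          · exact absurd (Subtype.ext h2) hs1
          · exact h2
        intro s t hs ht hs1 ht1
        exact Subtype.ext ((key s hs hs1).trans (key t ht ht1).symm)
      have hncS : ¬ ∀ u v : ↥(S : Subgroup K), u * v = v * u := by
        intro hcomm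
        obtain ⟨x, hx, y, hy, hxy⟩ := hnc
        exact hxy (congrArg Subtype.val (hcomm ⟨x, hRS hx⟩ ⟨y, hRS hy⟩))
      obtain ⟨m, hm1, ⟨e⟩⟩ := Cfsg.Agent.Helper5.quat_of_unique_involution S.2 hinvS hncS
      have hn : NeZero (2 ^ m) := ⟨by positivity⟩
      have hS16 : Nat.card ↥(S : Subgroup K) = 16 := by
        obtain ⟨k', hk'⟩ := IsPGroup.exists_card_eq S.2
        have hSidx := Subgroup.card_mul_index (S : Subgroup K)
        have hSodd : ¬ 2 ∣ (S : Subgroup K).index := Sylow.not_dvd_index S
        rw [hK, hk'] at hSidx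
        rw [hk']
        have hk5 : k' ≤ 5 := by
          by_contra hcon
          push Not at hcon
          have h1 : 2 ^ 6 ∣ 2 ^ k' := Nat.pow_dvd_pow 2 hcon
          have h2 : 2 ^ 6 ∣ 48 := h1.trans ⟨_, hSidx.symm⟩
          norm_num at h2
        interval_cases k' <;> omega
      have hcard : 4 * 2 ^ m = 16 := by
        rw [← hS16, Nat.card_congr e.toEquiv, Nat.card_eq_fintype_card, QuaternionGroup.card]
      have hm2 : m = 2 := by
        have h1 : 2 ^ m = 2 ^ 2 := by omega
        exact Nat.pow_right_injective (le_refl 2) h1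
      subst hm2
      exact ⟨e⟩
    · left
      push Not at hall
      obtain ⟨t, htt, ht1, htz⟩ := hall
      have hQ : Q8Sub R z :=
        { normal := hRn
          card := h8
          zR := hzR
          z1 := hz1
          zz := hzz
          inv := hinvz
          zc := hzc
          nc := hnc
          ker := hkerR }
      exact rank1_gl23 hQ hK htt ht1 htz

end Rank1C

end Cfsg.Agent.Helper48
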