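import Mathlib.GroupTheory.Sylow

set_option autoImplicit false

namespace Cfsg.Agent.Helper48

open Subgroup

/-- An element normalizing a Sylow `p`-subgroup `S` has a power of exponent prime to `p`
lying in `S`. -/
theorem exists_pow_mem_sylow_of_mem_normalizer {G : Type*} [Group G] [Finite G] {p : ℕ}
    [Fact p.Prime] (S : Sylow p G) {g : G}
    (hg : g ∈ Subgroup.normalizer ((S : Subgroup G) : Set G)) :
    ∃ n : ℕ, ¬ p ∣ n ∧ g ^ n ∈ (S : Subgroup G) := by
  have hnorm : ((S : Subgroup G).subgroupOf (Subgroup.normalizer ((S : Subgroup G) : Set G))).Normal :=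
    Subgroup.normal_in_normalizer
  refine ⟨Nat.card (↥(Subgroup.normalizer ((S : Subgroup G) : Set G)) ⧸
    (S : Subgroup G).subgroupOf (Subgroup.normalizer ((S : Subgroup G) : Set G))), ?_, ?_⟩
  · rw [← Subgroup.index_eq_card]
    intro h
    apply S.not_dvd_index
    rw [← Subgroup.relIndex_mul_index (Subgroup.le_normalizer)]
    exact Dvd.dvd.mul_right h _
  · have h1 : (QuotientGroup.mk (⟨g, hg⟩ : ↥(Subgroup.normalizer ((S : Subgroup G) : Set G))) :
        ↥(Subgroup.normalizer ((S : Subgroup G) : Set G)) ⧸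
          (S : Subgroup G).subgroupOf (Subgroup.normalizer ((S : Subgroup G) : Set G))) ^
        Nat.card (↥(Subgroup.normalizer ((S : Subgroup G) : Set G)) ⧸
          (S : Subgroup G).subgroupOf (Subgroup.normalizer ((S : Subgroup G) : Set G))) = 1 :=
      pow_card_eq_one'
    rw [← QuotientGroup.mk_pow, QuotientGroup.eq_one_iff, Subgroup.mem_subgroupOf] at h1
    simpa using h1

end Cfsg.Agent.Helper48
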