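import Cfsg.Agent.Helper48.CharP
import Cfsg.Agent.Helper48.CoprimeGen2
import Cfsg.Agent.Helper48.Burnside2

set_option autoImplicit false

namespace Cfsg.Agent.Helper48

open Subgroup
open scoped commutatorElement

variable {G : Type*} [Group G]

theorem mem_normalizer_commutator {H₁ H₂ : Subgroup G} {a : G}
    (h1 : a ∈ normalizer (H₁ : Set G)) (h2 : a ∈ normalizer (H₂ : Set G)) :
    a ∈ normalizer ((⁅H₁, H₂⁆ : Subgroup G) : Set G) := by
  apply mem_normalizer_of_map_conj_eq
  rw [map_commutator, map_conj_eq_of_mem_normalizer h1, map_conj_eq_of_mem_normalizer h2]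

/-- A `p`-group `P` acted on by a `p`-group `A` with `[P, A] = P` is trivial. -/
theorem eq_bot_of_commutator_eq_self [Finite G] {p : ℕ} [Fact p.Prime] {P A : Subgroup G}
    (hP : IsPGroup p P) (hA : IsPGroup p A) (hnA : A ≤ normalizer (P : Set G))
    (h : ⁅P, A⁆ = P) : P = ⊥ := by
  have hMp : IsPGroup p (P ⊔ A : Subgroup G) := hP.to_sup_of_normal_left' hA hnA
  have hnil : Group.IsNilpotent (P ⊔ A : Subgroup G) := hMp.isNilpotent
  obtain ⟨n, hn⟩ := (Subgroup.isNilpotent_iff_lowerCentralSeries (P ⊔ A)).mp hnil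
  have hle : ∀ i : ℕ, P ≤ (P ⊔ A).lowerCentralSeries i := by
    intro i
    induction i with
    | zero => exact le_sup_left
    | succ i ih =>
      rw [Subgroup.lowerCentralSeries_succ]
      calc P = ⁅P, A⁆ := h.symm
        _ ≤ ⁅(P ⊔ A).lowerCentralSeries i, P ⊔ A⁆ := commutator_mono ih le_sup_right
  rw [eq_bot_iff, ← hn]
  exact hle n

/-- **Thompson's `A × B` lemma**, inductive form. -/
theorem thompson_AxB_aux [Finite G] {p : ℕ} [Fact p.Prime] (A B : Subgroup G)
    (hA : IsPGroup p A) (hB : ¬ p ∣ Nat.card B) (hAB : ⁅A, B⁆ = ⊥) :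
    ∀ (n : ℕ) (P : Subgroup G), Nat.card P ≤ n → IsPGroup p P →
      A ≤ normalizer (P : Set G) → B ≤ normalizer (P : Set G) →
      P ⊓ centralizer (A : Set G) ≤ centralizer (B : Set G) → P ≤ centralizer (B : Set G) := by
  have hp : p.Prime := Fact.out
  have hAcB : A ≤ centralizer (B : Set G) := commutator_eq_bot_iff_le_centralizer.mp hAB
  have hBcA : B ≤ centralizer (A : Set G) := by
    rw [commutator_comm] at hAB
    exact commutator_eq_bot_iff_le_centralizer.mp hAB
  have hAnB : A ≤ normalizer (B : Set G) := hAcB.trans (centralizer_le_normalizer _)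
  have hBnA : B ≤ normalizer (A : Set G) := hBcA.trans (centralizer_le_normalizer _)
  intro n
  induction n with
  | zero =>
    intro P hcard
    exfalso
    have := Nat.card_pos (α := P)
    omega
  | succ n ih =>
    intro P hcard hP hnA hnB hC
    have hXle : (⁅P, B⁆ : Subgroup G) ≤ P := le_normalizer_iff_commutator_le_left.mp hnB
    have hYle : (⁅P, A⁆ : Subgroup G) ≤ P := le_normalizer_iff_commutator_le_left.mp hnA
    by_cases hX : (⁅P, B⁆ : Subgroup G) = P
    · by_cases hY : (⁅P, A⁆ : Subgroup G) = P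
      · rw [eq_bot_of_commutator_eq_self hP hA hnA hY]
        exact bot_le
      · -- `B` centralizes `[P, A]`, so `A` centralizes `P` by the three subgroups lemma
        have hYB : (⁅P, A⁆ : Subgroup G) ≤ centralizer (B : Set G) := by
          apply ih ⁅P, A⁆
          · have h1 : Nat.card (⁅P, A⁆ : Subgroup G) < Nat.card P :=
              lt_of_not_ge (fun hge => hY (Subgroup.eq_of_le_of_card_ge hYle hge))
            omega
          · exact hP.to_le hYle
          · intro a ha
            exact mem_normalizer_commutator (hnA ha) (le_normalizer ha)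
          · intro b hb
            exact mem_normalizer_commutator (hnB hb) (hBnA hb)
          · exact (inf_le_inf_right _ hYle).trans hC
        have h1 : ⁅⁅P, A⁆, B⁆ = ⊥ := commutator_eq_bot_iff_le_centralizer.mpr hYB
        have h2 : ⁅⁅A, B⁆, P⁆ = ⊥ := by rw [hAB, commutator_bot_left]
        have h3 : ⁅⁅B, P⁆, A⁆ = ⊥ := commutator_commutator_eq_bot_of_rotate h1 h2
        rw [commutator_comm B P, hX] at h3
        have h4 : P ≤ centralizer (A : Set G) := commutator_eq_bot_iff_le_centralizer.mp h3
        exact (le_inf le_rfl h4).trans hC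
    · -- `B` centralizes `[P, B]`, hence `P` by coprimality
      have hXB : (⁅P, B⁆ : Subgroup G) ≤ centralizer (B : Set G) := by
        apply ih ⁅P, B⁆
        · have h1 : Nat.card (⁅P, B⁆ : Subgroup G) < Nat.card P :=
            lt_of_not_ge (fun hge => hX (Subgroup.eq_of_le_of_card_ge hXle hge))
          omega
        · exact hP.to_le hXle
        · intro a ha
          exact mem_normalizer_commutator (hnA ha) (hAnB ha)
        · intro b hb
          exact mem_normalizer_commutator (hnB hb) (le_normalizer hb)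
        · exact (inf_le_inf_right _ hXle).trans hC
      intro x hx
      rw [mem_centralizer_iff]
      intro b hb
      have hr : ⁅x⁻¹, b⁆ ∈ (⁅P, B⁆ : Subgroup G) := commutator_mem_commutator (inv_mem hx) hb
      have hr' : x⁻¹ * b * x * b⁻¹ ∈ (⁅P, B⁆ : Subgroup G) := by
        have e : x⁻¹ * b * x * b⁻¹ = ⁅x⁻¹, b⁆ := by rw [commutatorElement_def, inv_inv]
        rw [e]; exact hr
      have hcomm : b * (x⁻¹ * b * x * b⁻¹) = (x⁻¹ * b * x * b⁻¹) * b :=
        mem_centralizer_iff.mp (hXB hr') b hb
      obtain ⟨k, hk⟩ := hP ⟨_, hXle hr'⟩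
      have hk' : (x⁻¹ * b * x * b⁻¹) ^ p ^ k = 1 := congrArg Subtype.val hk
      have hbord : (orderOf b).Coprime p := by
        have h1 : orderOf b ∣ Nat.card B := by
          have := orderOf_dvd_natCard (⟨b, hb⟩ : B)
          rwa [Subgroup.orderOf_mk] at this
        exact Nat.Coprime.coprime_dvd_left h1 ((Nat.Prime.coprime_iff_not_dvd hp).mpr hB).symm
      exact commute_of_coprime_of_commute_comm b x ⟨k, hk'⟩ hbord hcomm

/-- **Thompson's `A × B` lemma**: let `A × B` act on the `p`-group `P`, with `A` a `p`-group and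
`B` a `p'`-group. If `B` centralizes `C_P(A)` then `B` centralizes `P`. -/
theorem thompson_AxB [Finite G] {p : ℕ} [Fact p.Prime] (P A B : Subgroup G)
    (hP : IsPGroup p P) (hA : IsPGroup p A) (hB : ¬ p ∣ Nat.card B) (hAB : ⁅A, B⁆ = ⊥)
    (hnA : A ≤ normalizer (P : Set G)) (hnB : B ≤ normalizer (P : Set G))
    (hC : P ⊓ centralizer (A : Set G) ≤ centralizer (B : Set G)) :
    P ≤ centralizer (B : Set G) :=
  thompson_AxB_aux A B hA hB hAB _ P le_rfl hP hnA hnB hC

end Cfsg.Agent.Helper48
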